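import Mathlib
import Cfsg.Prelude.Def_LieTypeDatum

set_option autoImplicit false

namespace Cfsg.Agent.Lib.Helper44

/-- the number of `K`-classes in the `H`-class of `x` is the index of `K C_H(x)` in `H` -/
theorem splitClassCount_eq_relIndex {X : Type*} [Group X] (H K : Subgroup X) [hK : K.Normal]
    (hKH : K ≤ H) (x : X) :
    Cfsg.splitClassCount H K x = (K ⊔ (Subgroup.centralizer {x} ⊓ H)).relIndex H := by
  set L := K ⊔ (Subgroup.centralizer {x} ⊓ H) with hL
  let r : {y : X // Cfsg.IsConjUnder H x y} → {y : X // Cfsg.IsConjUnder H x y} → Prop :=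
    fun y z => Cfsg.IsConjUnder K y.1 z.1
  have hr : Equivalence r := by
    refine ⟨fun y => ⟨1, K.one_mem, by simp⟩, ?_, ?_⟩
    · rintro y z ⟨k, hk, h⟩
      exact ⟨k⁻¹, K.inv_mem hk, by rw [h]; group⟩
    · rintro y z w ⟨k, hk, h⟩ ⟨k', hk', h'⟩
      exact ⟨k' * k, K.mul_mem hk' hk, by rw [h', h]; group⟩
  let f : ↥H → Quot r := fun h => Quot.mk r ⟨(h : X) * x * (h : X)⁻¹, h, h.2, rfl⟩
  have hf : ∀ a b : ↥H, f a = f b ↔ a⁻¹ * b ∈ L.subgroupOf H := by
    intro a b
    rw [Subgroup.mem_subgroupOf]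
    constructor
    · intro h
      have h1 : r ⟨(a : X) * x * (a : X)⁻¹, a, a.2, rfl⟩ ⟨(b : X) * x * (b : X)⁻¹, b, b.2, rfl⟩ :=
        hr.eqvGen_iff.1 (Quot.eqvGen_exact h)
      obtain ⟨k, hk, h2⟩ := h1
      simp only at h2
      have e : ((a⁻¹ * b : ↥H) : X) = ((a : X)⁻¹ * k * ((a : X)⁻¹)⁻¹) * ((a : X)⁻¹ * k⁻¹ * (b : X)) := by
        simp only [Subgroup.coe_mul, Subgroup.coe_inv]; group
      rw [e]
      refine mul_mem (Subgroup.mem_sup_left (hK.conj_mem _ hk _)) (Subgroup.mem_sup_right (Subgroup.mem_inf.2 ⟨?_, ?_⟩))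
      · rw [Subgroup.mem_centralizer_singleton_iff]
        have h3 : x = (a : X)⁻¹ * k⁻¹ * ((b : X) * x * (b : X)⁻¹) * k * (a : X) := by
          rw [h2]; group
        calc (a : X)⁻¹ * k⁻¹ * (b : X) * x
            = ((a : X)⁻¹ * k⁻¹ * ((b : X) * x * (b : X)⁻¹) * k * (a : X)) *
                ((a : X)⁻¹ * k⁻¹ * (b : X)) := by group
          _ = x * ((a : X)⁻¹ * k⁻¹ * (b : X)) := by rw [← h3]
      · exact mul_mem (mul_mem (inv_mem a.2) (inv_mem (hKH hk))) b.2
    · intro h
      obtain ⟨k, hk, c, hc, e⟩ := Subgroup.mem_sup_of_normal_left.1 h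
      apply Quot.sound
      refine ⟨(a : X) * k * (a : X)⁻¹, hK.conj_mem _ hk _, ?_⟩
      have hb : (b : X) = (a : X) * (k * c) := by
        rw [e]; simp
      have hc' := Subgroup.mem_centralizer_singleton_iff.1 (Subgroup.mem_inf.1 hc).1
      simp only
      rw [hb]
      have : c * x * c⁻¹ = x := by rw [hc']; group
      calc (a : X) * (k * c) * x * ((a : X) * (k * c))⁻¹
          = (a : X) * k * (c * x * c⁻¹) * k⁻¹ * (a : X)⁻¹ := by group
        _ = _ := by rw [this]; group
  let Fm : (↥H ⧸ L.subgroupOf H) → Quot r :=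
    Quotient.lift f (fun a b hab => (hf a b).2 (QuotientGroup.leftRel_apply.1 hab))
  have hbij : Function.Bijective Fm := by
    constructor
    · intro p q
      induction p using QuotientGroup.induction_on with
      | H a =>
        induction q using QuotientGroup.induction_on with
        | H b =>
          intro h
          exact QuotientGroup.eq.2 ((hf a b).1 h)
    · intro y
      induction y using Quot.inductionOn with
      | h y =>
        obtain ⟨y, h, hh, rfl⟩ := y
        exact ⟨QuotientGroup.mk ⟨h, hh⟩, rfl⟩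
  exact (Nat.card_congr (Equiv.ofBijective Fm hbij)).symm

end Cfsg.Agent.Lib.Helper44
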