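import Cfsg.Agent.Lib.Helper44.InndiagPlus
import Cfsg.Agent.Lib.Helper44.SplitCount
import Cfsg.Agent.Lib.Helper44.Trans
import Cfsg.Agent.Lib.Helper44.Isotropy

set_option autoImplicit false

namespace Cfsg.Agent.Lib.Helper44

open QuadraticMap Module Matrix

universe u

variable {F : Type u} [Field F] {ι : Type} [Fintype ι] [DecidableEq ι]

theorem reflElt_smul (Q : QuadraticForm F (ι → F)) (v : ι → F) {c : F} (hc : c ≠ 0) :
    reflElt Q (c • v) = reflElt Q v := by
  apply (isoEquiv Q).injective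
  rw [isoEquiv_reflElt, isoEquiv_reflElt]
  exact Subtype.ext (refl_smul Q v hc)

theorem reflElt_comm (Q : QuadraticForm F (ι → F)) {u w : ι → F} (h : polar Q u w = 0) :
    reflElt Q u * reflElt Q w = reflElt Q w * reflElt Q u := by
  apply (isoEquiv Q).injective
  rw [map_mul, map_mul, isoEquiv_reflElt, isoEquiv_reflElt]
  apply Subtype.ext
  change refl Q u * refl Q w = refl Q w * refl Q u
  have := conj_refl (refl_mem Q u) w
  rw [refl_apply_of_polar_eq_zero Q h, mul_inv_eq_iff_eq_mul] at this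
  exact this

theorem pair_props [Fintype F] (h2 : (2 : F) ≠ 0) (Q : QuadraticForm F (ι → F))
    (hQ : (polarBilin Q).Nondegenerate) {u w : ι → F} (hu : Q u ≠ 0) (hw : Q w ≠ 0)
    (hns : ¬ IsSquare (Q u * Q w)) :
    reflElt Q u * reflElt Q w ∈ Cfsg.specialIsometryGroup F ⇑Q ∧
      reflElt Q u * reflElt Q w ∉ Cfsg.Omega F ⇑Q := by
  constructor
  · rw [mem_specialIsometryGroup, Subgroup.coe_mul, Units.val_mul, Matrix.det_mul,
      det_reflElt Q hu, det_reflElt Q hw]
    ring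
  · have hcrit := mem_Omega_iff_of_prod_odd h2 Q hQ (reflElt Q u * reflElt Q w) [u, w] (by
        intro x hx
        simp only [List.mem_cons, List.not_mem_nil, or_false] at hx
        rcases hx with rfl | rfl
        · exact hu
        · exact hw) (by simp [reflElt_coe])
    rw [hcrit]
    rintro ⟨-, h⟩
    apply hns
    simpa using h

section

variable (Q : QuadraticForm F (ι → F)) (g : ↥(Cfsg.Geo.quadSimilarityGroup ⇑Q))

theorem GG_apply {μ : F}
    (hμ : ((g : GL ι F) : Matrix ι ι F) * ((g : GL ι F) : Matrix ι ι F) = μ • (1 : Matrix ι ι F))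
    (v : ι → F) :
    ((g : GL ι F) : Matrix ι ι F) *ᵥ (((g : GL ι F) : Matrix ι ι F) *ᵥ v) = μ • v := by
  rw [mulVec_mulVec, hμ, smul_mulVec, one_mulVec]

theorem mu_mul_self (hex : ∃ v, Q v ≠ 0) {μ : F}
    (hμ : ((g : GL ι F) : Matrix ι ι F) * ((g : GL ι F) : Matrix ι ι F) = μ • (1 : Matrix ι ι F)) :
    μ * μ = (multF Q g : F) * (multF Q g : F) := by
  obtain ⟨v, hv⟩ := hex
  have h1 := multF_spec Q g (((g : GL ι F) : Matrix ι ι F) *ᵥ v)
  rw [GG_apply Q g hμ, multF_spec, QuadraticMap.map_smul, smul_eq_mul] at h1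
  apply mul_right_cancel₀ hv
  rw [h1]; ring

theorem polar_adj {μ : F}
    (hμ : ((g : GL ι F) : Matrix ι ι F) * ((g : GL ι F) : Matrix ι ι F) = μ • (1 : Matrix ι ι F))
    (v w : ι → F) :
    μ * polar Q (((g : GL ι F) : Matrix ι ι F) *ᵥ v) w
      = (multF Q g : F) * polar Q v (((g : GL ι F) : Matrix ι ι F) *ᵥ w) := by
  have := polar_mulVec_simil Q g v (((g : GL ι F) : Matrix ι ι F) *ᵥ w)
  rw [GG_apply Q g hμ, polar_smul_right, smul_eq_mul] at this
  exact this

theorem g_mul_refl (u : ι → F) :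
    g * ofO Q (reflElt Q u) = ofO Q (reflElt Q (((g : GL ι F) : Matrix ι ι F) *ᵥ u)) * g := by
  rw [← conj_ofO_reflElt]; group

theorem commute_pair {μ : F} (hμ0 : μ ≠ 0)
    (hμ : ((g : GL ι F) : Matrix ι ι F) * ((g : GL ι F) : Matrix ι ι F) = μ • (1 : Matrix ι ι F))
    {u : ι → F} (hperp : polar Q u (((g : GL ι F) : Matrix ι ι F) *ᵥ u) = 0) :
    g * ofO Q (reflElt Q u * reflElt Q (((g : GL ι F) : Matrix ι ι F) *ᵥ u))
      = ofO Q (reflElt Q u * reflElt Q (((g : GL ι F) : Matrix ι ι F) *ᵥ u)) * g := by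
  have h1 := g_mul_refl Q g u
  have h2 := g_mul_refl Q g (((g : GL ι F) : Matrix ι ι F) *ᵥ u)
  rw [GG_apply Q g hμ, reflElt_smul Q u hμ0] at h2
  rw [map_mul, ← mul_assoc, h1, mul_assoc, h2, ← mul_assoc, ← map_mul, ← map_mul,
    reflElt_comm Q hperp]

theorem commute_eigen {c : F} (hc : c ≠ 0) {u : ι → F}
    (hu : ((g : GL ι F) : Matrix ι ι F) *ᵥ u = c • u) :
    g * ofO Q (reflElt Q u) = ofO Q (reflElt Q u) * g := by
  rw [g_mul_refl, hu, reflElt_smul Q u hc]

end

/-- self-adjoint case without eigenvectors: a non-singular `u` with `u ⟂ g u` -/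
theorem exists_perp_image [Fintype F] (h2 : (2 : F) ≠ 0) (Q : QuadraticForm F (ι → F))
    (hQ : (polarBilin Q).Nondegenerate) (hn : 3 ≤ Fintype.card ι)
    (g : ↥(Cfsg.Geo.quadSimilarityGroup ⇑Q))
    (hμ : ((g : GL ι F) : Matrix ι ι F) * ((g : GL ι F) : Matrix ι ι F)
      = (multF Q g : F) • (1 : Matrix ι ι F))
    (hlam : ¬ IsSquare (multF Q g : F)) :
    ∃ u, Q u ≠ 0 ∧ polar Q u (((g : GL ι F) : Matrix ι ι F) *ᵥ u) = 0 := by
  set G := ((g : GL ι F) : Matrix ι ι F) with hG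
  set l := (multF Q g : F) with hl
  have hl0 : l ≠ 0 := Units.ne_zero _
  have hadj : ∀ v w, polar Q (G *ᵥ v) w = polar Q v (G *ᵥ w) := by
    intro v w
    exact mul_left_cancel₀ hl0 (polar_adj Q g hμ v w)
  let Q2 : QuadraticForm F (ι → F) :=
    LinearMap.BilinMap.toQuadraticMap ((polarBilin Q).compl₂ (Matrix.mulVecLin G))
  have hQ2 : ∀ v, Q2 v = polar Q v (G *ᵥ v) := by
    intro v
    simp [Q2]
  obtain ⟨e, -, he0, he⟩ := exists_singular_of_finrank Q2 ⊤ (by
    rw [finrank_top, Module.finrank_fintype_fun_eq_card]; exact hn)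
  rw [hQ2] at he
  by_cases hQe : Q e ≠ 0
  · exact ⟨e, hQe, he⟩
  push Not at hQe
  have hnot : e ∉ Submodule.span F {G *ᵥ e} := by
    intro hmem
    obtain ⟨c, hc⟩ := Submodule.mem_span_singleton.1 hmem
    have h1 : G *ᵥ e = (c * l) • e := by
      conv_lhs => rw [← hc]
      rw [mulVec_smul, GG_apply Q g hμ, smul_smul]
    have h3 : ((c * l) * c - 1) • e = 0 := by
      rw [sub_smul, one_smul, mul_smul, sub_eq_zero]
      conv_rhs => rw [← hc]
      rw [h1, smul_smul, smul_smul]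
      congr 1; ring
    rcases smul_eq_zero.1 h3 with h4 | h4
    · apply hlam
      have hc0 : c ≠ 0 := by
        rintro rfl
        simp at h4
      refine ⟨c⁻¹, ?_⟩
      field_simp
      linear_combination h4
    · exact he0 h4
  obtain ⟨f, hf1, hf2⟩ := exists_perp_polar_eq_one hQ hnot
  -- known values
  have v1 : polar Q e e = 0 := by rw [polar_self, hQe]; simp
  have v2 : polar Q (G *ᵥ e) e = 0 := by rw [polar_comm]; exact he
  have v3 : polar Q (G *ᵥ e) (G *ᵥ e) = 0 := by rw [polar_mulVec_simil, v1, mul_zero]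
  have v4 : polar Q e f = 1 := by rw [polar_comm]; exact hf2
  have v5 : polar Q f (G *ᵥ e) = 0 := by rw [polar_comm]; exact hf1
  have v6 : polar Q e (G *ᵥ f) = 0 := by rw [← hadj]; exact hf1
  have v7 : polar Q (G *ᵥ e) (G *ᵥ f) = l := by rw [polar_mulVec_simil, v4, mul_one]
  have v8 : Q (G *ᵥ e) = 0 := by rw [multF_spec, hQe, mul_zero]
  set x : F := 1 - Q f with hx
  set y : F := - polar Q f (G *ᵥ f) / (2 * l) with hy
  refine ⟨x • e + y • (G *ᵥ e) + f, ?_, ?_⟩
  · have : Q (x • e + y • (G *ᵥ e) + f) = 1 := by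
      rw [QuadraticMap.map_add (⇑Q), QuadraticMap.map_add (⇑Q), QuadraticMap.map_smul,
        QuadraticMap.map_smul, hQe, v8]
      simp only [polar_add_left, polar_smul_left, polar_smul_right, smul_eq_mul, he, v4, hf1]
      rw [hx]; ring
    rw [this]; exact one_ne_zero
  · have hGu : G *ᵥ (x • e + y • (G *ᵥ e) + f) = x • (G *ᵥ e) + (y * l) • e + G *ᵥ f := by
      rw [mulVec_add, mulVec_add, mulVec_smul, mulVec_smul, GG_apply Q g hμ, smul_smul]
    rw [hGu]
    simp only [polar_add_left, polar_add_right, polar_smul_left, polar_smul_right, smul_eq_mul,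
      he, v1, v2, v3, v5, v6, v7, hf2]
    rw [hy]
    field_simp
    ring

theorem chi2_scalSimil (h2 : (2 : F) ≠ 0) {Q : QuadraticForm F (ι → F)}
    (hQ : (polarBilin Q).Nondegenerate) (hex : ∃ v, Q v ≠ 0) (m : ℕ)
    (hm : Fintype.card ι = 2 * m) (c : Fˣ) : chi2 h2 hQ hex m hm (scalSimil Q c) = 1 := by
  rw [chi2_eq_one_iff, multF_of_scalar hex _ (c : F) (scalSimil_coe Q c), scalSimil_coe,
    Matrix.det_smul, Matrix.det_one, mul_one, hm, ← pow_two, ← pow_mul]

/-- skew-adjoint case with square multiplier: the similarity preserves the classes -/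
theorem chi2_eq_one_of_skew (h2 : (2 : F) ≠ 0) {Q : QuadraticForm F (ι → F)}
    (hQ : (polarBilin Q).Nondegenerate) (hex : ∃ v, Q v ≠ 0) (m : ℕ)
    (hm : Fintype.card ι = 2 * m) (g : ↥(Cfsg.Geo.quadSimilarityGroup ⇑Q)) {κ : F}
    (hκ : (multF Q g : F) = κ * κ)
    (hμ : ((g : GL ι F) : Matrix ι ι F) * ((g : GL ι F) : Matrix ι ι F)
      = (-(multF Q g : F)) • (1 : Matrix ι ι F)) : chi2 h2 hQ hex m hm g = 1 := by
  set G := ((g : GL ι F) : Matrix ι ι F) with hG
  set l := (multF Q g : F) with hl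
  have hl0 : l ≠ 0 := Units.ne_zero _
  have hκ0 : κ ≠ 0 := by
    rintro rfl
    apply hl0; rw [hκ]; ring
  have hperp : ∀ v, polar Q v (G *ᵥ v) = 0 := by
    intro v
    have h1 := polar_adj Q g hμ v v
    rw [polar_comm Q (G *ᵥ v) v] at h1
    have h3 : (2 * l) * polar Q v (G *ᵥ v) = 0 := by linear_combination -h1
    rcases mul_eq_zero.1 h3 with h | h
    · exact absurd h (mul_ne_zero h2 hl0)
    · exact h
  obtain ⟨h, hh1, -⟩ := exists_simil_of_linearMap hQ
    (κ • LinearMap.id + Matrix.mulVecLin G) (Units.mk0 (2 * l) (mul_ne_zero h2 hl0)) (by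
      intro v
      simp only [LinearMap.add_apply, LinearMap.smul_apply, LinearMap.id_coe, id_eq,
        Matrix.mulVecLin_apply, Units.val_mk0]
      rw [QuadraticMap.map_add (⇑Q), QuadraticMap.map_smul, multF_spec, polar_smul_left, hperp,
        ← hl, hκ]
      simp only [smul_eq_mul]
      ring)
  have e : h * h = scalSimil Q (Units.mk0 (2 * κ) (mul_ne_zero h2 hκ0)) * g := by
    apply Subtype.ext; apply Units.ext
    simp only [Subgroup.coe_mul, Units.val_mul, scalSimil_coe, Units.val_mk0]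
    apply matrix_ext_mulVec
    intro x
    rw [← mulVec_mulVec, hh1, hh1, ← mulVec_mulVec, smul_mulVec, one_mulVec]
    simp only [LinearMap.add_apply, LinearMap.smul_apply, LinearMap.id_coe, id_eq,
      Matrix.mulVecLin_apply, mulVec_add, mulVec_smul]
    rw [GG_apply Q g hμ, hκ]
    ext i
    simp only [Pi.add_apply, Pi.smul_apply, smul_eq_mul]
    ring
  have h3 := congrArg (chi2 h2 hQ hex m hm) e
  rw [map_mul, map_mul, chi2_scalSimil, one_mul, Int.units_mul_self] at h3
  exact h3.symm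

/-- eigenvectors with non-square product of values -/
theorem eigen_main [Fintype F] (h2 : (2 : F) ≠ 0) (Q : QuadraticForm F (ι → F))
    (hQ : (polarBilin Q).Nondegenerate) (g : ↥(Cfsg.Geo.quadSimilarityGroup ⇑Q)) {c : F}
    (hc : (multF Q g : F) = c * c)
    (hμ : ((g : GL ι F) : Matrix ι ι F) * ((g : GL ι F) : Matrix ι ι F)
      = (multF Q g : F) • (1 : Matrix ι ι F))
    (hdim : 2 ≤ finrank F
      (Module.End.eigenspace (Matrix.mulVecLin ((g : GL ι F) : Matrix ι ι F)) c)) :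
    ∃ u w, Q u ≠ 0 ∧ Q w ≠ 0 ∧ ¬ IsSquare (Q u * Q w) ∧
      ((g : GL ι F) : Matrix ι ι F) *ᵥ u = c • u ∧ ((g : GL ι F) : Matrix ι ι F) *ᵥ w = c • w := by
  set G := ((g : GL ι F) : Matrix ι ι F) with hG
  set l := (multF Q g : F) with hl
  have hl0 : l ≠ 0 := Units.ne_zero _
  have hc0 : c ≠ 0 := by
    rintro rfl
    apply hl0; rw [hc]; ring
  set X := Module.End.eigenspace (Matrix.mulVecLin G) c with hX
  have hmem : ∀ x, x ∈ X ↔ G *ᵥ x = c • x := by
    intro x
    rw [hX, Module.End.mem_eigenspace_iff, Matrix.mulVecLin_apply]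
  have hnd : X ⊓ LinearMap.BilinForm.orthogonal (polarBilin Q) X = ⊥ := by
    rw [eq_bot_iff]
    rintro x ⟨hx1, hx2⟩
    rw [Submodule.mem_bot]
    apply hQ.1
    intro y
    have hx1' := (hmem x).1 hx1
    rw [SetLike.mem_coe, LinearMap.BilinForm.mem_orthogonal_iff] at hx2
    -- decompose y
    have hy1 : c • y + G *ᵥ y ∈ X := by
      rw [hmem, mulVec_add, mulVec_smul, GG_apply Q g hμ, hc, smul_add, smul_smul, add_comm]
    have h3 : polar Q (c • y + G *ᵥ y) x = 0 := hx2 _ hy1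
    have h4 : polar Q (G *ᵥ y) (G *ᵥ x) = l * polar Q y x := polar_mulVec_simil Q g y x
    rw [hx1', polar_smul_right, smul_eq_mul, hc] at h4
    have h5 : polar Q (G *ᵥ y) x = c * polar Q y x := by
      apply mul_left_cancel₀ hc0
      rw [h4]; ring
    rw [polar_add_left, polar_smul_left, smul_eq_mul, h5] at h3
    have h6 : (2 * c) * polar Q y x = 0 := by linear_combination h3
    rcases mul_eq_zero.1 h6 with h | h
    · exact absurd h (mul_ne_zero h2 hc0)
    · rw [polarBilin_apply_apply, polar_comm]; exact h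
  obtain ⟨u, -, v, -, hu, hv, -, -, -, -, hns⟩ := exists_quadruple h2 (restrictQ_nondeg hnd) hdim
  exact ⟨u, v, hu, hv, hns, (hmem _).1 u.2, (hmem _).1 v.2⟩

theorem eigen_dim (h2 : (2 : F) ≠ 0) (G : Matrix ι ι F) {c : F} (hc0 : c ≠ 0)
    (hμ : G * G = (c * c) • (1 : Matrix ι ι F)) :
    Fintype.card ι ≤ finrank F (Module.End.eigenspace (Matrix.mulVecLin G) c)
      + finrank F (Module.End.eigenspace (Matrix.mulVecLin G) (-c)) := by
  have htop : Module.End.eigenspace (Matrix.mulVecLin G) c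
      ⊔ Module.End.eigenspace (Matrix.mulVecLin G) (-c) = ⊤ := by
    rw [eq_top_iff]
    intro v _
    have hGG : G *ᵥ (G *ᵥ v) = (c * c) • v := by
      rw [mulVec_mulVec, hμ, smul_mulVec, one_mulVec]
    have e : v = (2 * c)⁻¹ • (c • v + G *ᵥ v) + (2 * c)⁻¹ • (c • v - G *ᵥ v) := by
      rw [← smul_add]
      have : c • v + G *ᵥ v + (c • v - G *ᵥ v) = (2 * c) • v := by
        rw [mul_smul, two_smul]; abel
      rw [this, smul_smul, inv_mul_cancel₀ (mul_ne_zero h2 hc0), one_smul]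
    rw [e]
    refine Submodule.add_mem_sup (Submodule.smul_mem _ _ ?_) (Submodule.smul_mem _ _ ?_)
    · rw [Module.End.mem_eigenspace_iff, Matrix.mulVecLin_apply, mulVec_add, mulVec_smul, hGG,
        smul_add, smul_smul, add_comm]
    · rw [Module.End.mem_eigenspace_iff, Matrix.mulVecLin_apply, mulVec_sub, mulVec_smul, hGG,
        smul_sub, smul_smul, neg_smul, neg_mul, neg_smul]
      abel
  have h1 := Submodule.finrank_add_le_finrank_add_finrank
    (Module.End.eigenspace (Matrix.mulVecLin G) c) (Module.End.eigenspace (Matrix.mulVecLin G) (-c))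
  rw [htop, finrank_top, Module.finrank_fintype_fun_eq_card] at h1
  exact h1

/-- an involutory similarity (mod scalars) interchanging the classes commutes with an element of
`SO ∖ Ω` -/
theorem exists_commuting_not_Omega [Fintype F] (h2 : (2 : F) ≠ 0) (Q : QuadraticForm F (ι → F))
    (hQ : (polarBilin Q).Nondegenerate) (hn : 3 ≤ Fintype.card ι) (hex : ∃ v, Q v ≠ 0) (m : ℕ)
    (hm : Fintype.card ι = 2 * m) (g : ↥(Cfsg.Geo.quadSimilarityGroup ⇑Q)) {μ : F}
    (hμ : ((g : GL ι F) : Matrix ι ι F) * ((g : GL ι F) : Matrix ι ι F) = μ • (1 : Matrix ι ι F))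
    (hχ : chi2 h2 hQ hex m hm g ≠ 1) :
    ∃ s : ↥(Cfsg.isometryGroup F ⇑Q), s ∈ Cfsg.specialIsometryGroup F ⇑Q ∧
      s ∉ Cfsg.Omega F ⇑Q ∧ g * ofO Q s = ofO Q s * g := by
  have hl0 : (multF Q g : F) ≠ 0 := Units.ne_zero _
  have hmu := mu_mul_self Q g hex hμ
  have hcases : μ = (multF Q g : F) ∨ μ = -(multF Q g : F) := mul_self_eq_mul_self_iff.1 hmu
  have hμ0 : μ ≠ 0 := by
    rcases hcases with h | h <;> rw [h]
    · exact hl0
    · exact neg_ne_zero.2 hl0
  by_cases hsq : IsSquare (multF Q g : F)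
  · obtain ⟨κ, hκ⟩ := hsq
    rcases hcases with rfl | rfl
    · have hκ0 : κ ≠ 0 := by
        rintro rfl
        apply hl0; rw [hκ]; ring
      have hd := eigen_dim h2 ((g : GL ι F) : Matrix ι ι F) hκ0 (by rw [← hκ]; exact hμ)
      have : 2 ≤ finrank F (Module.End.eigenspace
            (Matrix.mulVecLin ((g : GL ι F) : Matrix ι ι F)) κ) ∨
          2 ≤ finrank F (Module.End.eigenspace
            (Matrix.mulVecLin ((g : GL ι F) : Matrix ι ι F)) (-κ)) := by omega
      rcases this with hdim | hdim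
      · obtain ⟨u, w, hu, hw, hns, hgu, hgw⟩ := eigen_main h2 Q hQ g hκ hμ hdim
        obtain ⟨p1, p2⟩ := pair_props h2 Q hQ hu hw hns
        refine ⟨_, p1, p2, ?_⟩
        rw [map_mul, ← mul_assoc, commute_eigen Q g hκ0 hgu, mul_assoc,
          commute_eigen Q g hκ0 hgw, mul_assoc]
      · obtain ⟨u, w, hu, hw, hns, hgu, hgw⟩ := eigen_main h2 Q hQ g (c := -κ)
          (by rw [hκ]; ring) hμ hdim
        obtain ⟨p1, p2⟩ := pair_props h2 Q hQ hu hw hns
        refine ⟨_, p1, p2, ?_⟩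
        rw [map_mul, ← mul_assoc, commute_eigen Q g (neg_ne_zero.2 hκ0) hgu, mul_assoc,
          commute_eigen Q g (neg_ne_zero.2 hκ0) hgw, mul_assoc]
    · exact absurd (chi2_eq_one_of_skew h2 hQ hex m hm g hκ hμ) hχ
  · obtain ⟨u, hu, hperp⟩ : ∃ u, Q u ≠ 0 ∧ polar Q u (((g : GL ι F) : Matrix ι ι F) *ᵥ u) = 0 := by
      rcases hcases with rfl | rfl
      · exact exists_perp_image h2 Q hQ hn g hμ hsq
      · obtain ⟨v, hv⟩ := hex
        refine ⟨v, hv, ?_⟩
        have h1 := polar_adj Q g hμ v v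
        rw [polar_comm Q (((g : GL ι F) : Matrix ι ι F) *ᵥ v) v] at h1
        have h3 : (2 * (multF Q g : F)) * polar Q v (((g : GL ι F) : Matrix ι ι F) *ᵥ v) = 0 := by
          linear_combination -h1
        rcases mul_eq_zero.1 h3 with h | h
        · exact absurd h (mul_ne_zero h2 hl0)
        · exact h
    have hgu : Q (((g : GL ι F) : Matrix ι ι F) *ᵥ u) ≠ 0 := by
      rw [multF_spec]; exact mul_ne_zero hl0 hu
    obtain ⟨p1, p2⟩ := pair_props h2 Q hQ hu hgu (by
      rw [multF_spec]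
      rintro ⟨r, hr⟩
      apply hsq
      refine ⟨r / Q u, ?_⟩
      field_simp
      linear_combination hr)
    exact ⟨_, p1, p2, commute_pair Q g hμ0 hμ hperp⟩

end Cfsg.Agent.Lib.Helper44
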