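import Cfsg.Agent.Lib.Helper44.MinusSplit
import Cfsg.Agent.Lib.Helper44.GraphInv
import Cfsg.Agent.Lib.Helper44.SumForm

set_option autoImplicit false

namespace Cfsg.Agent.Lib.Helper44

open QuadraticMap Module Matrix

universe u

variable {F : Type u} [Field F]

/-- the binary form -/
noncomputable def binQF (a b : F) : QuadraticForm F (Fin 2 → F) :=
  QuadraticMap.linMulLin (LinearMap.proj 0) (LinearMap.proj 0) +
    a • QuadraticMap.linMulLin (LinearMap.proj 0) (LinearMap.proj 1) +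
    b • QuadraticMap.linMulLin (LinearMap.proj 1) (LinearMap.proj 1)

theorem binQF_apply (a b : F) (v : Fin 2 → F) :
    binQF a b v = v 0 ^ 2 + a * v 0 * v 1 + b * v 1 ^ 2 := by
  simp [binQF, pow_two, mul_assoc]

theorem binQF_polar (a b : F) (x y : Fin 2 → F) :
    polar (binQF a b) x y
      = 2 * x 0 * y 0 + a * (x 0 * y 1 + x 1 * y 0) + 2 * b * x 1 * y 1 := by
  simp only [polar, binQF_apply, Pi.add_apply]
  ring

theorem minusQF_eq_sumQF (m : ℕ) (a b : F) :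
    minusQF m F a b = sumQF (plusQF m F) (binQF a b) := by
  ext v
  rw [minusQF_apply, sumQF_apply, plusQF_apply, binQF_apply]
  rfl

theorem bin_rotation (a b u₁ u₂ ν : F) (hν : u₁ ^ 2 + a * u₁ * u₂ + b * u₂ ^ 2 = ν) (h0 : ν ≠ 0) :
    ν⁻¹ • (!![u₁, -(b * u₂); u₂, u₁ + a * u₂] * !![u₁, -(b * u₂); u₂, u₁ + a * u₂])
      = Cfsg.reflectionMatrix ⇑(binQF a b) ![u₁, u₂] * Cfsg.reflectionMatrix ⇑(binQF a b) ![1, 0] := by
  apply matrix_ext_mulVec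
  intro x
  rw [← mulVec_mulVec, reflectionMatrix_mulVec, reflectionMatrix_mulVec, refl_apply, refl_apply,
    smul_mulVec, ← mulVec_mulVec]
  have hQu : binQF a b ![u₁, u₂] = ν := by rw [binQF_apply, ← hν]; simp
  have hQ1 : binQF a b ![1, 0] = 1 := by rw [binQF_apply]; simp
  rw [hQu, hQ1]
  simp only [binQF_polar]
  ext i
  fin_cases i
  · simp [dotProduct, Fin.sum_univ_two, Matrix.vecHead, Matrix.vecTail]
    field_simp
    rw [← hν]
    ring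
  · simp [dotProduct, Fin.sum_univ_two, Matrix.vecHead, Matrix.vecTail]
    field_simp
    rw [← hν]
    ring

theorem not_mem_Omega_of_blocks [Fintype F] (h2 : (2 : F) ≠ 0) {ι₁ ι₂ : Type} [Fintype ι₁]
    [DecidableEq ι₁] [Fintype ι₂] [DecidableEq ι₂] (Q₁ : QuadraticForm F (ι₁ → F))
    (Q₂ : QuadraticForm F (ι₂ → F)) (Q : QuadraticForm F (ι₁ ⊕ ι₂ → F)) (hQeq : Q = sumQF Q₁ Q₂)
    (hQ : (polarBilin Q).Nondegenerate) (s : ↥(Cfsg.isometryGroup F ⇑Q))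
    (s₁ : ↥(Cfsg.isometryGroup F ⇑Q₁)) (hs₁ : s₁ ∈ Cfsg.Omega F ⇑Q₁) (u w : ι₂ → F)
    (hu : Q₂ u ≠ 0) (hw : Q₂ w ≠ 0) (hns : ¬ IsSquare (Q₂ u * Q₂ w))
    (hs : ((s : GL (ι₁ ⊕ ι₂) F) : Matrix (ι₁ ⊕ ι₂) (ι₁ ⊕ ι₂) F)
      = Matrix.fromBlocks ((s₁ : GL ι₁ F) : Matrix ι₁ ι₁ F) 0 0
        (Cfsg.reflectionMatrix ⇑Q₂ u * Cfsg.reflectionMatrix ⇑Q₂ w)) :
    s ∉ Cfsg.Omega F ⇑Q := by
  subst hQeq
  have hu' : sumQF Q₁ Q₂ (Sum.elim 0 u) = Q₂ u := by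
    rw [sumQF_apply]
    have e1 : (Sum.elim (0 : ι₁ → F) u) ∘ Sum.inl = 0 := rfl
    have e2 : (Sum.elim (0 : ι₁ → F) u) ∘ Sum.inr = u := rfl
    rw [e1, e2]; simp
  have hw' : sumQF Q₁ Q₂ (Sum.elim 0 w) = Q₂ w := by
    rw [sumQF_apply]
    have e1 : (Sum.elim (0 : ι₁ → F) w) ∘ Sum.inl = 0 := rfl
    have e2 : (Sum.elim (0 : ι₁ → F) w) ∘ Sum.inr = w := rfl
    rw [e1, e2]; simp
  obtain ⟨-, p2⟩ := pair_props h2 (sumQF Q₁ Q₂) hQ (u := Sum.elim 0 u) (w := Sum.elim 0 w)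
    (by rw [hu']; exact hu) (by rw [hw']; exact hw) (by rw [hu', hw']; exact hns)
  have e : s = blockIso Q₁ Q₂ (s₁, 1) *
      (reflElt (sumQF Q₁ Q₂) (Sum.elim 0 u) * reflElt (sumQF Q₁ Q₂) (Sum.elim 0 w)) := by
    apply isometryGroup_ext
    rw [hs]
    simp only [Subgroup.coe_mul, Units.val_mul, blockIso_coe, reflElt_coe,
      reflectionMatrix_sum_inr, Matrix.fromBlocks_multiply]
    simp
  intro hmem
  apply p2
  have h3 := blockIso_mem_Omega Q₁ Q₂ hs₁ (one_mem (Cfsg.Omega F ⇑Q₂))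
  have e2 : reflElt (sumQF Q₁ Q₂) (Sum.elim 0 u) * reflElt (sumQF Q₁ Q₂) (Sum.elim 0 w)
      = (blockIso Q₁ Q₂ (s₁, 1))⁻¹ * s := by rw [e]; group
  rw [e2]
  exact mul_mem (inv_mem h3) hmem

theorem plus_exists_Omega_diag [Fintype F] (m : ℕ) (hm : 1 ≤ m) (h : Fintype.card F ≠ 2 ∨ m ≠ 2)
    (ν : Fˣ) (hsq : IsSquare ((ν : F) ^ m)) :
    ∃ g : ↥(Cfsg.isometryGroup F ⇑(plusQF m F)), g ∈ Cfsg.Omega F ⇑(plusQF m F) ∧
      ((g : GL (Fin m ⊕ Fin m) F) : Matrix (Fin m ⊕ Fin m) (Fin m ⊕ Fin m) F)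
        = Matrix.diagonal (Sum.elim (fun _ => (ν : F)) (fun _ => (ν : F)⁻¹)) := by
  have h3 := Cfsg.Agent.S2611.result (F := F) (m := m) hm h
    (Matrix.GeneralLinearGroup.scalar (Fin m) ν)
  rw [← plusQF_coe] at h3
  have h4 : ((Matrix.GeneralLinearGroup.scalar (Fin m) ν : GL (Fin m) F) :
      Matrix (Fin m) (Fin m) F) = Matrix.diagonal (fun _ => (ν : F)) := by
    simp
  have h0 : (ν : F) ≠ 0 := ν.ne_zero
  have hinv : (Matrix.diagonal (fun _ : Fin m => (ν : F)))⁻¹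
      = Matrix.diagonal (fun _ : Fin m => (ν : F)⁻¹) := by
    apply Matrix.inv_eq_right_inv
    rw [Matrix.diagonal_mul_diagonal]
    simp [h0]
  have h6 : ((Matrix.GeneralLinearGroup.scalar (Fin m) ν : GL (Fin m) F) :
      Matrix (Fin m) (Fin m) F).det = (ν : F) ^ m := by
    rw [h4, Matrix.det_diagonal]; simp
  rw [h6, h4, hinv, Matrix.diagonal_transpose, Matrix.fromBlocks_diagonal] at h3
  exact h3.2 hsq

theorem minus_hex (m : ℕ) (a b : F) : ∃ v, minusQF m F a b v ≠ 0 := by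
  refine ⟨Pi.single (Sum.inr 0) 1, ?_⟩
  rw [minusQF_apply]
  simp

/-- the standard similarity of the minus form -/
theorem minus_exists_simil' [Fintype F] (h2 : (2 : F) ≠ 0) (m : ℕ) {a b : F}
    (hab : ∀ z₁ z₂ : F, z₁ ^ 2 + a * z₁ * z₂ + b * z₂ ^ 2 = 0 → z₁ = 0 ∧ z₂ = 0) (ν : Fˣ) :
    ∃ (δ : ↥(Cfsg.Geo.quadSimilarityGroup ⇑(minusQF m F a b))) (u₁ u₂ : F),
      u₁ ^ 2 + a * u₁ * u₂ + b * u₂ ^ 2 = ν ∧
      ((δ : GL ((Fin m ⊕ Fin m) ⊕ Fin 2) F) :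
        Matrix ((Fin m ⊕ Fin m) ⊕ Fin 2) ((Fin m ⊕ Fin m) ⊕ Fin 2) F)
        = Matrix.fromBlocks (Matrix.diagonal (Sum.elim (fun _ => (ν : F)) (fun _ => 1))) 0 0
          !![u₁, -(b * u₂); u₂, u₁ + a * u₂] ∧
      multF (minusQF m F a b) δ = ν := by
  obtain ⟨u₁, u₂, hu⟩ := exists_norm_eq h2 hab (ν : F)
  obtain ⟨δ, h1, h3⟩ := exists_simil_of_linearMap (minusQF_nondeg m F hab)
    (minusL m a b ν u₁ u₂) ν (minusQF_minusL m a b ν u₁ u₂ hu)
  refine ⟨δ, u₁, u₂, hu, ?_, multF_unique (minus_hex m a b) δ ν h3⟩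
  apply matrix_ext_mulVec
  intro x
  rw [h1, Matrix.fromBlocks_mulVec]
  ext k
  rcases k with (i | i) | i
  · simp [minusL, Matrix.mulVec_diagonal]
  · simp [minusL, Matrix.mulVec_diagonal]
  · fin_cases i
    · simp [minusL, dotProduct, Fin.sum_univ_two]
      ring
    · simp [minusL, dotProduct, Fin.sum_univ_two]

theorem det_minus_simil (m : ℕ) (a b u₁ u₂ ν : F) (hu : u₁ ^ 2 + a * u₁ * u₂ + b * u₂ ^ 2 = ν) :
    (Matrix.fromBlocks (Matrix.diagonal (Sum.elim (fun _ : Fin m => ν) (fun _ : Fin m => (1 : F))))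
      0 0 !![u₁, -(b * u₂); u₂, u₁ + a * u₂]).det = ν ^ (m + 1) := by
  rw [Matrix.det_fromBlocks_zero₂₁, det_diag_plus, Matrix.det_fin_two_of, pow_succ, ← hu]
  ring

/-- `Inndiag(PΩ⁻) / Inn` -/
theorem minus_inndiag [Fintype F] (hodd : Odd (Fintype.card F)) (m : ℕ) (hm : 3 ≤ m) (a b : F)
    (hab : ∀ z₁ z₂ : F, z₁ ^ 2 + a * z₁ * z₂ + b * z₂ ^ 2 = 0 → z₁ = 0 ∧ z₂ = 0) :
    ((Even m ∧ Fintype.card F % 4 = 3) →
      ∃ φ : ↥(Cfsg.inndiagPOmegaMinus m F a b) →* Multiplicative (ZMod 4), Function.Surjective φ ∧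
        φ.ker = (Cfsg.Inn (Cfsg.POmega F (Cfsg.quadFormMinus m F a b))).subgroupOf
          (Cfsg.inndiagPOmegaMinus m F a b)) ∧
    (¬ (Even m ∧ Fintype.card F % 4 = 3) →
      ∃ φ : ↥(Cfsg.inndiagPOmegaMinus m F a b) →* Multiplicative (ZMod 2), Function.Surjective φ ∧
        φ.ker = (Cfsg.Inn (Cfsg.POmega F (Cfsg.quadFormMinus m F a b))).subgroupOf
          (Cfsg.inndiagPOmegaMinus m F a b)) := by
  have h2 : (2 : F) ≠ 0 := two_ne_zero_of_odd_card hodd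
  have hQ := minusQF_nondeg m F hab
  have hex := minus_hex (F := F) m a b
  have hn : 5 ≤ Fintype.card ((Fin m ⊕ Fin m) ⊕ Fin 2) := by rw [minus_card]; omega
  obtain ⟨ν, hν⟩ := exists_nonsquare_unit h2
  obtain ⟨δ, u₁, u₂, hu, hδ1, hδ2⟩ := minus_exists_simil' h2 m hab ν
  have hδk : δ ∈ (chi2 h2 hQ hex (m + 1) (minus_card m)).ker := by
    rw [MonoidHom.mem_ker, chi2_eq_one_iff, hδ1, hδ2, det_minus_simil m a b u₁ u₂ ν hu]
  have key := exists_hom_inndiag h2 (minusQF m F a b) hQ hn hex (m + 1) (minus_card m) δ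
    (by rw [hδ2]; exact hν) hδk
  have heq := autSubgroupOf_eq_map_ker ⇑(minusQF m F a b) (chi2 h2 hQ hex (m + 1) (minus_card m))
    (fun g => Cfsg.PreservesSingularClassesMinus m a b
      (g : Matrix ((Fin m ⊕ Fin m) ⊕ Fin 2) ((Fin m ⊕ Fin m) ⊕ Fin 2) F)) (fun g => by
      rw [minus_preserves_iff h2 m hab, chi2_eq_one_iff])
  have hsq : negOneO (minusQF m F a b) ∈ Cfsg.Omega F ⇑(minusQF m F a b) → Even m →
      δ * δ ∉ Oms (minusQF m F a b) ⊔ (conjPOmega ⇑(minusQF m F a b)).ker := by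
    intro hneg hev
    obtain ⟨s, hs1, hs2⟩ := exists_sq_isometry hQ δ
    rw [sq_mem_iff h2 (minusQF m F a b) hQ hn hneg δ s hs1 _ hs2]
    obtain ⟨s₁, hs₁, hs₁m⟩ := plus_exists_Omega_diag (F := F) m (by omega) (Or.inr (by omega)) ν
      (hev.isSquare_pow _)
    have h0 : (ν : F) ≠ 0 := ν.ne_zero
    apply not_mem_Omega_of_blocks h2 (plusQF m F) (binQF a b) (minusQF m F a b)
      (minusQF_eq_sumQF m a b) hQ s s₁ hs₁ ![u₁, u₂] ![1, 0]
    · rw [binQF_apply]; simp only [Matrix.cons_val_zero, Matrix.cons_val_one]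
      rw [hu]; exact h0
    · rw [binQF_apply]; simp
    · rw [binQF_apply, binQF_apply]
      simp only [Matrix.cons_val_zero, Matrix.cons_val_one]
      rw [hu]
      simpa using hν
    · rw [hs2, hδ1, hδ2, hs₁m, ← bin_rotation a b u₁ u₂ ν hu h0, Matrix.fromBlocks_multiply,
        Matrix.fromBlocks_smul]
      simp only [Matrix.mul_zero, Matrix.zero_mul, add_zero, zero_add, smul_zero,
        Matrix.diagonal_mul_diagonal, Units.val_inv_eq_inv_val]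
      congr 1
      rw [← Matrix.diagonal_smul]
      congr 1
      funext k
      rcases k with k | k
      · simp only [Pi.smul_apply, Sum.elim_inl, smul_eq_mul]
        field_simp
      · simp only [Pi.smul_apply, Sum.elim_inr, smul_eq_mul, mul_one]
  rw [← heq, minus_negOneO_mem_iff hodd m a b hab] at key
  rw [minus_negOneO_mem_iff hodd m a b hab] at hsq
  obtain ⟨k1, k2, k3⟩ := key
  have K1 := fun h : (Even m ∧ Fintype.card F % 4 = 3) => k3 h (hsq h h.1)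
  clear k2 k3 hsq heq
  rw [minusQF_coe] at K1 k1
  exact ⟨K1, k1⟩

end Cfsg.Agent.Lib.Helper44
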