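import Mathlib

/-!
# Symmetric non-alternating forms in characteristic two have orthonormal bases
-/

set_option autoImplicit false

namespace Cfsg.Agent.Lib.Helper44

open Module LinearMap LinearMap.BilinForm

universe u v

theorem exists_orthonormal_char2 {F : Type u} [Field F] [CharP F 2]
    (hperf : ∀ x : F, ∃ y, y * y = x) (n : ℕ) :
    ∀ {V : Type v} [AddCommGroup V] [Module F V] [FiniteDimensional F V]
      (B : LinearMap.BilinForm F V), B.IsSymm → B.Nondegenerate → (∃ x, B x x ≠ 0) →
      finrank F V = n →
      ∃ b : Basis (Fin n) F V, ∀ i j, B (b i) (b j) = if i = j then 1 else 0 := by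
  induction n with
  | zero =>
    intro V _ _ _ B _ _ hx hdim
    obtain ⟨x, hx⟩ := hx
    have : Subsingleton V := finrank_zero_iff.1 hdim
    exact absurd (by rw [Subsingleton.elim x 0]; simp) hx
  | succ n ih =>
    intro V _ _ _ B hs hn hx hdim
    obtain ⟨x, hx⟩ := hx
    have hdimW : ∀ v, B v v = 1 → finrank F ↥(B.orthogonal (F ∙ v)) = n := by
      intro v hv
      have hv0 : v ≠ 0 := by
        rintro rfl
        simp at hv
      have h1 := Submodule.finrank_add_eq_of_isCompl
        (LinearMap.BilinForm.isCompl_span_singleton_orthogonal (B := B) (x := v)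
          (by rw [hv]; exact one_ne_zero))
      rw [finrank_span_singleton hv0, hdim] at h1
      omega
    have hmemW : ∀ v w, w ∈ B.orthogonal (F ∙ v) ↔ B v w = 0 := by
      intro v w
      rw [mem_orthogonal_iff]
      constructor
      · intro h
        exact h v (Submodule.mem_span_singleton_self v)
      · intro h z hz
        obtain ⟨c, rfl⟩ := Submodule.mem_span_singleton.1 hz
        simp [h]
    have key : ∃ v, B v v = 1 ∧ (n = 0 ∨ ∃ w, B v w = 0 ∧ B w w ≠ 0) := by
      obtain ⟨y, hy⟩ := hperf (B x x)⁻¹
      have hv : B (y • x) (y • x) = 1 := by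
        simp only [map_smul, LinearMap.smul_apply, smul_eq_mul]
        rw [← mul_assoc, hy, inv_mul_cancel₀ hx]
      by_cases h0 : n = 0
      · exact ⟨y • x, hv, Or.inl h0⟩
      by_cases h1 : ∃ w, B (y • x) w = 0 ∧ B w w ≠ 0
      · exact ⟨y • x, hv, Or.inr h1⟩
      push Not at h1
      generalize y • x = v at hv h1
      have hpos : 0 < finrank F ↥(B.orthogonal (F ∙ v)) := by
        rw [hdimW v hv]; omega
      obtain ⟨e, he⟩ := finrank_pos_iff_exists_ne_zero.1 hpos
      have hve : B v e = 0 := (hmemW v e).1 e.2
      have he0 : (e : V) ≠ 0 := fun h => he (Subtype.ext h)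
      have hex : ∃ f', B e f' ≠ 0 := by
        by_contra hcon
        push Not at hcon
        exact he0 (hn.1 _ hcon)
      obtain ⟨f', hf'⟩ := hex
      set f'' := (B e f')⁻¹ • f' with hf''
      have hef'' : B e f'' = 1 := by
        simp only [hf'', map_smul, smul_eq_mul]
        exact inv_mul_cancel₀ hf'
      have hev : B e v = 0 := by rw [hs.eq]; exact hve
      set f := f'' - B v f'' • v with hf
      have hef : B e f = 1 := by
        simp only [hf, map_sub, map_smul, smul_eq_mul, hev, hef'', mul_zero, sub_zero]
      have hvf : B v f = 0 := by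
        simp only [hf, map_sub, map_smul, smul_eq_mul, hv, mul_one, sub_self]
      have hfv : B f v = 0 := by rw [hs.eq]; exact hvf
      have hee : B e e = 0 := h1 e hve
      have hff : B f f = 0 := h1 f hvf
      refine ⟨v + e, ?_, Or.inr ⟨v + f, ?_, ?_⟩⟩
      · simp only [map_add, LinearMap.add_apply, hv, hve, hev, hee, add_zero]
      · simp only [map_add, LinearMap.add_apply, hv, hvf, hev, hef, add_zero, zero_add]
        exact CharTwo.add_self_eq_zero (1 : F)
      · simp only [map_add, LinearMap.add_apply, hv, hvf, hfv, hff, add_zero]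
        exact one_ne_zero
    obtain ⟨v, hv, hgood⟩ := key
    have hW : (B.restrict (B.orthogonal (F ∙ v))).Nondegenerate :=
      restrict_nondegenerate_orthogonal_spanSingleton B hn hs.isRefl
        (by rw [hv]; exact one_ne_zero)
    obtain ⟨b', hb'⟩ : ∃ b' : Basis (Fin n) F ↥(B.orthogonal (F ∙ v)),
        ∀ i j, B (b' i) (b' j) = if i = j then 1 else 0 := by
      rcases hgood with h0 | ⟨w, hvw, hww⟩
      · subst h0
        exact ⟨finBasisOfFinrankEq F _ (hdimW v hv), fun i => i.elim0⟩
      · exact ih (B.restrict (B.orthogonal (F ∙ v))) ⟨fun a b => hs.eq a b⟩ hW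
          ⟨⟨w, (hmemW v w).2 hvw⟩, hww⟩ (hdimW v hv)
    refine ⟨Basis.mkFinCons v b' ?_ ?_, ?_⟩
    · intro c z hz hc
      have h1 := congrArg (B v) hc
      simp only [map_add, map_smul, smul_eq_mul, hv, mul_one, (hmemW v z).1 hz, add_zero,
        map_zero] at h1
      exact h1
    · intro z
      refine ⟨-(B v z), ?_⟩
      rw [hmemW]
      simp only [map_add, map_smul, smul_eq_mul, hv, mul_one, add_neg_cancel]
    · intro i j
      rw [Basis.coe_mkFinCons]
      refine Fin.cases ?_ (fun i' => ?_) i <;> refine Fin.cases ?_ (fun j' => ?_) j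
      · simp [hv]
      · simp only [Fin.cons_zero, Fin.cons_succ, Function.comp_apply]
        rw [(hmemW v _).1 (b' j').2, if_neg (Fin.succ_ne_zero j').symm]
      · simp only [Fin.cons_zero, Fin.cons_succ, Function.comp_apply]
        rw [hs.eq, (hmemW v _).1 (b' i').2, if_neg (Fin.succ_ne_zero i')]
      · simp only [Fin.cons_succ, Function.comp_apply]
        rw [hb']
        simp only [Fin.succ_inj]

end Cfsg.Agent.Lib.Helper44
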