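import Cfsg.Agent.Lib.Helper44.Gram
import Cfsg.Agent.Lib.Helper44.HypInv

set_option autoImplicit false

namespace Cfsg.Agent.Lib.Helper44

open QuadraticMap Module Matrix

theorem pow_mod_four_eq_one_iff {q : ℕ} (hq : Odd q) (m : ℕ) :
    q ^ m % 4 = 1 ↔ Even (m * (q - 1) / 2) := by
  obtain ⟨k, rfl⟩ := hq
  have e : m * (2 * k + 1 - 1) / 2 = m * k := by
    rw [Nat.add_sub_cancel, mul_left_comm, Nat.mul_div_cancel_left _ (by norm_num)]
  rw [e, Nat.even_mul]
  rcases Nat.even_or_odd k with hk | hk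
  · obtain ⟨j, rfl⟩ := hk
    have : (2 * (j + j) + 1) ^ m % 4 = 1 := by
      rw [Nat.pow_mod]
      have : (2 * (j + j) + 1) % 4 = 1 := by omega
      rw [this]; simp
    simp [this]
  · have hk' : ¬ Even k := Nat.not_even_iff_odd.2 hk
    obtain ⟨j, rfl⟩ := hk
    have h3 : (2 * (2 * j + 1) + 1) % 4 = 3 := by omega
    rcases Nat.even_or_odd m with hm | hm
    · obtain ⟨i, rfl⟩ := hm
      have : (2 * (2 * j + 1) + 1) ^ (i + i) % 4 = 1 := by
        rw [← two_mul, pow_mul, Nat.pow_mod, Nat.pow_mod _ 2, h3]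
        simp
      simp [this]
    · have hm' : ¬ Even m := Nat.not_even_iff_odd.2 hm
      obtain ⟨i, rfl⟩ := hm
      have : (2 * (2 * j + 1) + 1) ^ (2 * i + 1) % 4 = 3 := by
        rw [pow_succ, pow_mul, Nat.mul_mod, Nat.pow_mod, Nat.pow_mod _ 2, h3]
        simp
      rw [this]
      simp [hm', hk']

variable (m : ℕ) (F : Type*) [Field F]

theorem plusQF_gram :
    Matrix.of (fun i j => polarBilin (plusQF m F) (Pi.basisFun F (Fin m ⊕ Fin m) i)
      (Pi.basisFun F (Fin m ⊕ Fin m) j))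
      = Matrix.fromBlocks (0 : Matrix (Fin m) (Fin m) F) 1 1 0 := by
  ext i j
  simp only [Pi.basisFun_apply, polarBilin_apply_apply, Matrix.of_apply]
  rcases i with i | i <;> rcases j with j | j
  · rw [plusQF_polar_single_inl]; simp
  · rw [plusQF_polar_single_inl]; simp [Matrix.one_apply, Pi.single_apply, eq_comm]
  · rw [plusQF_polar_single_inr]; simp [Matrix.one_apply, Pi.single_apply, eq_comm]
  · rw [plusQF_polar_single_inr]; simp

theorem plusQF_gram_det :
    (Matrix.of (fun i j => polarBilin (plusQF m F) (Pi.basisFun F (Fin m ⊕ Fin m) i)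
      (Pi.basisFun F (Fin m ⊕ Fin m) j))).det = (-1) ^ m := by
  rw [plusQF_gram, det_fromBlocks_zero_one_one_zero, Fintype.card_fin]

theorem minusQF_gram (a c : F) :
    Matrix.of (fun i j => polarBilin (minusQF m F a c) (Pi.basisFun F ((Fin m ⊕ Fin m) ⊕ Fin 2) i)
      (Pi.basisFun F ((Fin m ⊕ Fin m) ⊕ Fin 2) j))
      = Matrix.fromBlocks (Matrix.fromBlocks (0 : Matrix (Fin m) (Fin m) F) 1 1 0) 0 0
        !![2, a; a, 2 * c] := by
  ext i j
  simp only [Pi.basisFun_apply, polarBilin_apply_apply, Matrix.of_apply]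
  rcases i with (i | i) | i <;> rcases j with (j | j) | j
  · rw [minusQF_polar_single_inl]; simp
  · rw [minusQF_polar_single_inl]; simp [Matrix.one_apply, Pi.single_apply, eq_comm]
  · rw [minusQF_polar_single_inl]; simp
  · rw [minusQF_polar_single_inr]; simp [Matrix.one_apply, Pi.single_apply, eq_comm]
  · rw [minusQF_polar_single_inr]; simp
  · rw [minusQF_polar_single_inr]; simp
  · fin_cases i
    · simp only [Fin.zero_eta]; rw [minusQF_polar_single_zero]; simp
    · simp only [Fin.mk_one]; rw [minusQF_polar_single_one]; simp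
  · fin_cases i
    · simp only [Fin.zero_eta]; rw [minusQF_polar_single_zero]; simp
    · simp only [Fin.mk_one]; rw [minusQF_polar_single_one]; simp
  · fin_cases i <;> fin_cases j
    · simp only [Fin.zero_eta]; rw [minusQF_polar_single_zero]; simp
    · simp only [Fin.zero_eta, Fin.mk_one]; rw [minusQF_polar_single_zero]; simp
    · simp only [Fin.zero_eta, Fin.mk_one]; rw [minusQF_polar_single_one]; simp
    · simp only [Fin.mk_one]; rw [minusQF_polar_single_one]; simp

theorem minusQF_gram_det (a c : F) :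
    (Matrix.of (fun i j => polarBilin (minusQF m F a c) (Pi.basisFun F ((Fin m ⊕ Fin m) ⊕ Fin 2) i)
      (Pi.basisFun F ((Fin m ⊕ Fin m) ⊕ Fin 2) j))).det = (-1) ^ (m + 1) * (a ^ 2 - 4 * c) := by
  rw [minusQF_gram, Matrix.det_fromBlocks_zero₂₁, det_fromBlocks_zero_one_one_zero, Fintype.card_fin,
    Matrix.det_fin_two_of]
  ring

/-- the discriminant `a² - 4c` of an anisotropic binary form is a non-square (odd characteristic) -/
theorem not_isSquare_disc_of_anisotropic {F : Type*} [Field F] (h2 : (2 : F) ≠ 0) {a c : F}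
    (hac : ∀ z₁ z₂ : F, z₁ ^ 2 + a * z₁ * z₂ + c * z₂ ^ 2 = 0 → z₁ = 0 ∧ z₂ = 0) :
    ¬ IsSquare (a ^ 2 - 4 * c) := by
  rintro ⟨d, hd⟩
  have := hac ((-a + d) / 2) 1 (by
    field_simp
    linear_combination -hd)
  exact one_ne_zero this.2

end Cfsg.Agent.Lib.Helper44
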