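import Cfsg.Agent.Lib.Helper44.GraphPSL
import Cfsg.Agent.Lib.Helper44.SpConj
import Cfsg.Agent.Lib.Helper44.Disc
import Cfsg.Agent.Lib.Helper14.DiscClass
import Cfsg.Agent.Lib.Helper43.GLEquiv

/-!
# Forms, Gram matrices and graph automorphisms of `PSL_n(F)`
-/

set_option autoImplicit false

namespace Cfsg.Agent.Lib.Helper44

open Matrix Cfsg.Agent.Lib.Helper43.PA QuadraticMap

section general

variable {F : Type*} [Field F] {ι : Type*} [Fintype ι] [DecidableEq ι]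

theorem matrix_eq_of_bilin {M N : Matrix ι ι F} (h : ∀ x y, x ⬝ᵥ M *ᵥ y = x ⬝ᵥ N *ᵥ y) :
    M = N := by
  ext i j
  have := h (Pi.single i 1) (Pi.single j 1)
  simpa using this

theorem bilin_congr (M h : Matrix ι ι F) (x y : ι → F) :
    (h *ᵥ x) ⬝ᵥ M *ᵥ (h *ᵥ y) = x ⬝ᵥ (hᵀ * M * h) *ᵥ y := by
  rw [← Matrix.mulVec_mulVec, ← Matrix.mulVec_mulVec, Matrix.dotProduct_mulVec x hᵀ,
    Matrix.vecMul_transpose]

theorem congr_eq_smul_iff (M h : Matrix ι ι F) (c : F) :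
    hᵀ * M * h = c • M ↔ ∀ x y, (h *ᵥ x) ⬝ᵥ M *ᵥ (h *ᵥ y) = c * (x ⬝ᵥ M *ᵥ y) := by
  constructor
  · intro e x y
    rw [bilin_congr, e, Matrix.smul_mulVec, dotProduct_smul, smul_eq_mul]
  · intro e
    apply matrix_eq_of_bilin
    intro x y
    rw [← bilin_congr, e, Matrix.smul_mulVec, dotProduct_smul, smul_eq_mul]

/-- the Gram matrix of the polar form. -/
noncomputable def gramM (Q : QuadraticForm F (ι → F)) : Matrix ι ι F :=
  LinearMap.BilinForm.toMatrix' (polarBilin Q)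

theorem gramM_bilin (Q : QuadraticForm F (ι → F)) (x y : ι → F) :
    x ⬝ᵥ gramM Q *ᵥ y = polar Q x y := by
  rw [← Matrix.toBilin'_apply', gramM, Matrix.toBilin'_toMatrix']
  rfl

theorem gramM_transpose (Q : QuadraticForm F (ι → F)) : (gramM Q)ᵀ = gramM Q := by
  ext i j
  simp only [gramM, transpose_apply, LinearMap.BilinForm.toMatrix'_apply, polarBilin_apply_apply]
  exact polar_comm _ _ _

theorem gramM_det_ne_zero {Q : QuadraticForm F (ι → F)} (hQ : (polarBilin Q).Nondegenerate) :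
    (gramM Q).det ≠ 0 := by
  rw [← LinearMap.BilinForm.nondegenerate_toBilin'_iff_det_ne_zero, gramM,
    Matrix.toBilin'_toMatrix']
  exact hQ

/-- the Gram matrix as an invertible matrix. -/
noncomputable def gramGL (Q : QuadraticForm F (ι → F)) (hQ : (polarBilin Q).Nondegenerate) :
    GL ι F :=
  GeneralLinearGroup.mkOfDetNeZero (gramM Q) (gramM_det_ne_zero hQ)

theorem gramGL_coe (Q : QuadraticForm F (ι → F)) (hQ : (polarBilin Q).Nondegenerate) :
    (gramGL Q hQ).1 = gramM Q := rfl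

end general

section simil

variable {F : Type*} [Field F] {ι : Type} [Fintype ι] [DecidableEq ι]

theorem mem_similarityGroup_iff (M : Matrix ι ι F) (f : (ι → F) → (ι → F) → F)
    (hf : ∀ u v, f u v = u ⬝ᵥ M *ᵥ v) (h : GL ι F) :
    h ∈ Cfsg.Geo.similarityGroup f ↔ ∃ c : Fˣ, h.1ᵀ * M * h.1 = (c : F) • M := by
  change (∃ c : Fˣ, ∀ u v, f (h.1 *ᵥ u) (h.1 *ᵥ v) = (c : F) * f u v) ↔ _
  refine exists_congr (fun c => ?_)
  rw [congr_eq_smul_iff]
  simp only [hf]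

theorem mem_quadSimilarityGroup_iff (h2 : (2 : F) ≠ 0) (Q : QuadraticForm F (ι → F)) (h : GL ι F) :
    h ∈ Cfsg.Geo.quadSimilarityGroup ⇑Q ↔ ∃ c : Fˣ, h.1ᵀ * gramM Q * h.1 = (c : F) • gramM Q := by
  change (∃ c : Fˣ, ∀ v, Q (h.1 *ᵥ v) = (c : F) * Q v) ↔ _
  refine exists_congr (fun c => ?_)
  rw [congr_eq_smul_iff]
  simp only [gramM_bilin]
  constructor
  · intro e x y
    unfold polar
    rw [← Matrix.mulVec_add, e, e, e]
    ring
  · intro e v
    have h1 := e v v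
    rw [polar_self, polar_self, two_nsmul, two_nsmul] at h1
    have h3 : (2 : F) * Q (h.1 *ᵥ v) = 2 * ((c : F) * Q v) := by
      linear_combination h1
    exact mul_left_cancel₀ h2 h3

end simil

section congruence

variable {F : Type*} [Field F] {n : ℕ}

theorem exists_congr_of_isometry (A A' : GL (Fin n) F)
    (φ : (Fin n → F) ≃ₗ[F] (Fin n → F))
    (hφ : ∀ x y, (φ x) ⬝ᵥ A.1 *ᵥ (φ y) = x ⬝ᵥ A'.1 *ᵥ y) :
    ∃ g : GL (Fin n) F, A'.1 = g.1 * A.1 * g.1ᵀ := by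
  let G : GL (Fin n) F := Cfsg.Agent.Lib.Helper43.glEquiv.symm φ
  have hG : ∀ v, G.1 *ᵥ v = φ v := Cfsg.Agent.Lib.Helper43.glEquiv_symm_mulVec φ
  refine ⟨(invTGL G)⁻¹, ?_⟩
  rw [invTGL_inv_coe, transpose_transpose]
  apply matrix_eq_of_bilin
  intro x y
  rw [← bilin_congr, hG, hG, hφ]

theorem exists_congr_alt (A A' : GL (Fin n) F) (hA : ∀ x, x ⬝ᵥ A.1 *ᵥ x = 0)
    (hA' : ∀ x, x ⬝ᵥ A'.1 *ᵥ x = 0) : ∃ g : GL (Fin n) F, A'.1 = g.1 * A.1 * g.1ᵀ := by
  have hdet : ∀ B : GL (Fin n) F, B.1.det ≠ 0 := fun B =>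
    ((Matrix.isUnit_iff_isUnit_det _).1 B.isUnit).ne_zero
  obtain ⟨φ, hφ⟩ := exists_alt_isometry (Matrix.toBilin' A'.1) (Matrix.toBilin' A.1)
    (LinearMap.BilinForm.nondegenerate_toBilin'_iff_det_ne_zero.2 (hdet A'))
    (LinearMap.BilinForm.nondegenerate_toBilin'_iff_det_ne_zero.2 (hdet A))
    (fun x => by rw [Matrix.toBilin'_apply']; exact hA' x)
    (fun x => by rw [Matrix.toBilin'_apply']; exact hA x) rfl
  apply exists_congr_of_isometry A A' φ
  intro x y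
  have := hφ x y
  rwa [Matrix.toBilin'_apply', Matrix.toBilin'_apply'] at this

theorem bilin_symm {M : Matrix (Fin n) (Fin n) F} (hM : Mᵀ = M) (x y : Fin n → F) :
    x ⬝ᵥ M *ᵥ y = y ⬝ᵥ M *ᵥ x := by
  rw [dotProduct_comm, ← Matrix.vecMul_transpose, hM, ← Matrix.dotProduct_mulVec]

theorem alt_of_skew (h2 : (2 : F) ≠ 0) {M : Matrix (Fin n) (Fin n) F} (hM : Mᵀ = -M)
    (x : Fin n → F) : x ⬝ᵥ M *ᵥ x = 0 := by
  have h1 : x ⬝ᵥ M *ᵥ x = -(x ⬝ᵥ M *ᵥ x) := by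
    conv_lhs => rw [dotProduct_comm, ← Matrix.vecMul_transpose, hM, ← Matrix.dotProduct_mulVec,
      Matrix.neg_mulVec, dotProduct_neg]
  have h3 : (2 : F) * (x ⬝ᵥ M *ᵥ x) = 0 := by
    linear_combination h1
  rcases mul_eq_zero.1 h3 with h | h
  · exact absurd h h2
  · exact h

theorem exists_congr_sym [Fintype F] (h2 : (2 : F) ≠ 0) (A A' : GL (Fin n) F) (hA : A.1ᵀ = A.1)
    (hA' : A'.1ᵀ = A'.1) (hd : IsSquare (A.1.det * A'.1.det)) :
    ∃ g : GL (Fin n) F, A'.1 = g.1 * A.1 * g.1ᵀ := by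
  have hdet : ∀ B : GL (Fin n) F, B.1.det ≠ 0 := fun B =>
    ((Matrix.isUnit_iff_isUnit_det _).1 B.isUnit).ne_zero
  have hdisc : ∀ B : GL (Fin n) F, Cfsg.Agent.Lib.Helper14.HasDisc (Matrix.toBilin' B.1) B.1.det := by
    intro B
    have := Cfsg.Agent.Lib.Helper14.hasDisc_of_basis (Matrix.toBilin' B.1) (Pi.basisFun F (Fin n))
    rwa [LinearMap.BilinForm.toMatrix_basisFun, LinearMap.BilinForm.toMatrix'_toBilin'] at this
  obtain ⟨φ, hφ⟩ := Cfsg.Agent.Lib.Helper14.exists_isometry_of_disc h2 n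
    (Matrix.toBilin' A'.1) (Matrix.toBilin' A.1)
    ⟨fun x y => by
      simp only [Matrix.toBilin'_apply']
      exact bilin_symm hA' x y⟩
    ⟨fun x y => by
      simp only [Matrix.toBilin'_apply']
      exact bilin_symm hA x y⟩
    (LinearMap.BilinForm.nondegenerate_toBilin'_iff_det_ne_zero.2 (hdet A'))
    (LinearMap.BilinForm.nondegenerate_toBilin'_iff_det_ne_zero.2 (hdet A))
    (by simp) (by simp) _ _ (hdisc A') (hdisc A) (by rwa [mul_comm])
  apply exists_congr_of_isometry A A' φ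
  intro x y
  have := hφ x y
  rwa [Matrix.toBilin'_apply', Matrix.toBilin'_apply'] at this

end congruence

end Cfsg.Agent.Lib.Helper44
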