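import Cfsg.Agent.Lib.Helper44.GraphTwoSp
import Cfsg.Agent.Lib.Helper44.Transport
import Cfsg.Agent.S0304

/-!
# Graph automorphisms of `PSL_n(F)`, `n` odd
-/

set_option autoImplicit false

namespace Cfsg.Agent.Lib.Helper44

open Matrix Cfsg.Agent.Lib.Helper43.PA

variable {F : Type*} [Field F] {n m : ℕ}

theorem even_of_alt (A : GL (Fin n) F) (hA : ∀ x, x ⬝ᵥ A.1 *ᵥ x = 0) : Even n := by
  have hdet : A.1.det ≠ 0 := ((Matrix.isUnit_iff_isUnit_det _).1 A.isUnit).ne_zero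
  have hB := LinearMap.BilinForm.nondegenerate_toBilin'_iff_det_ne_zero.2 hdet
  obtain ⟨m, k, b, h1, h2, h3, h4⟩ := Cfsg.Agent.S0752.result (Matrix.toBilin' A.1)
    (fun x => by rw [Matrix.toBilin'_apply']; exact hA x)
  have hk : k = 0 := by
    by_contra hne
    have j : Fin k := ⟨0, Nat.pos_of_ne_zero hne⟩
    exact b.ne_zero (Sum.inr j) (hB.1 _ (h4 j))
  subst hk
  have e1 := Module.finrank_eq_card_basis b
  simp at e1
  exact ⟨m, e1⟩

theorem not_skew_of_odd (h2 : (2 : F) ≠ 0) (hodd : Odd n) (A : GL (Fin n) F) : A.1ᵀ ≠ -A.1 := by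
  intro h
  have hdet : A.1.det ≠ 0 := ((Matrix.isUnit_iff_isUnit_det _).1 A.isUnit).ne_zero
  have h1 := congrArg Matrix.det h
  rw [det_transpose, det_neg, Fintype.card_fin, hodd.neg_one_pow] at h1
  have h3 : (2 : F) * A.1.det = 0 := by linear_combination h1
  rcases mul_eq_zero.1 h3 with h | h
  · exact h2 h
  · exact hdet h

theorem conj_of_sym_odd [Fintype F] (h2 : (2 : F) ≠ 0) (hn : 1 ≤ n) (hodd : Odd n)
    {A B : GL (Fin n) F} (hA : A.1ᵀ = A.1) (hB : B.1ᵀ = B.1) :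
    Cfsg.IsConjUnder (Cfsg.inndiagPSL n F) (gr A) (gr B) := by
  by_cases hs : IsSquare (A.1.det * B.1.det)
  · exact conj_of_sym h2 hn hA hB hs
  · obtain ⟨ν, hν⟩ := FiniteField.exists_nonsquare (F := F) (by
      intro h
      have : CharP F 2 := by rw [← h]; exact ringChar.charP F
      exact h2 (CharTwo.two_eq_zero))
    have hν0 : ν ≠ 0 := by rintro rfl; exact hν IsSquare.zero
    have h1 : gr A = gr (scGL (Units.mk0 ν hν0) * A) := by
      rw [gr_eq_iff hn]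
      refine ⟨(Units.mk0 ν hν0)⁻¹, ?_⟩
      rw [scGL_mul_coe, smul_smul, Units.val_inv_eq_inv_val, Units.val_mk0, inv_mul_cancel₀ hν0,
        one_smul]
    rw [h1]
    apply conj_of_sym h2 hn _ hB
    · rw [scGL_mul_coe, det_smul, Fintype.card_fin, Units.val_mk0]
      obtain ⟨k, hk⟩ := hodd
      obtain ⟨r, hr⟩ := Cfsg.Agent.Lib.Helper14.isSquare_mul_of_not F hν hs
      have h3 : ν ^ n = ν ^ k * ν ^ k * ν := by
        rw [← pow_add, ← pow_succ]
        congr 1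
        omega
      rw [h3]
      exact ⟨ν ^ k * r, by linear_combination (ν ^ k * ν ^ k) * hr⟩
    · rw [scGL_mul_coe, transpose_smul, hA]

section block

/-- the form `x₀ y₀ + J`. -/
def M0 (m : ℕ) (F : Type*) [Field F] :
    Matrix (Unit ⊕ (Fin m ⊕ Fin m)) (Unit ⊕ (Fin m ⊕ Fin m)) F :=
  Matrix.fromBlocks 1 0 0 (Matrix.J (Fin m) F)

/-- `M0` as an invertible matrix. -/
noncomputable def M0GL (m : ℕ) (F : Type*) [Field F] : GL (Unit ⊕ (Fin m ⊕ Fin m)) F :=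
  ⟨M0 m F, Matrix.fromBlocks 1 0 0 (-Matrix.J (Fin m) F), by
    rw [M0, Matrix.fromBlocks_multiply]
    simp [Matrix.J_squared], by
    rw [M0, Matrix.fromBlocks_multiply]
    simp [Matrix.J_squared]⟩

theorem M0GL_coe : (M0GL m F).1 = M0 m F := rfl

theorem M0_bilin (x y : Unit ⊕ (Fin m ⊕ Fin m) → F) :
    x ⬝ᵥ M0 m F *ᵥ y = x (Sum.inl ()) * y (Sum.inl ()) +
      (x ∘ Sum.inr) ⬝ᵥ Matrix.J (Fin m) F *ᵥ (y ∘ Sum.inr) := by
  rw [M0, Matrix.fromBlocks_mulVec]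
  simp [dotProduct, Fintype.sum_sum_type]

theorem M0_transpose [CharP F 2] : (M0 m F)ᵀ = M0 m F := by
  rw [M0, Matrix.fromBlocks_transpose, Matrix.J_transpose]
  congr 1
  ext i j
  rw [Matrix.neg_apply, CharTwo.neg_eq]

/-- the block embedding of the symplectic group. -/
noncomputable def spBlock (m : ℕ) (F : Type*) [Field F] :
    ↥(Matrix.symplecticGroup (Fin m) F) →* GL (Unit ⊕ (Fin m ⊕ Fin m)) F :=
  MonoidHom.toHomUnits
    { toFun := fun s => Matrix.fromBlocks 1 0 0 s.1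
      map_one' := Matrix.fromBlocks_one
      map_mul' := by
        intro s s'
        rw [Matrix.fromBlocks_multiply]
        simp }

theorem spBlock_coe (s : ↥(Matrix.symplecticGroup (Fin m) F)) :
    (spBlock m F s).1 = Matrix.fromBlocks 1 0 0 s.1 := rfl

theorem spBlock_injective : Function.Injective (spBlock m F) := by
  intro s s' h
  have h1 := congrArg Units.val h
  rw [spBlock_coe, spBlock_coe, Matrix.fromBlocks_inj] at h1
  exact Subtype.ext h1.2.2.2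

theorem mem_range_spBlock [CharP F 2] (h : GL (Unit ⊕ (Fin m ⊕ Fin m)) F) :
    h ∈ (spBlock m F).range ↔ h.1ᵀ * M0 m F * h.1 = M0 m F := by
  constructor
  · rintro ⟨s, rfl⟩
    rw [spBlock_coe, M0, Matrix.fromBlocks_transpose, Matrix.fromBlocks_multiply,
      Matrix.fromBlocks_multiply]
    simp [SymplecticGroup.mem_iff'.1 s.2]
  · intro hh
    have hinv : ∀ y, h.1 *ᵥ ((h⁻¹ : GL (Unit ⊕ (Fin m ⊕ Fin m)) F).1 *ᵥ y) = y := by
      intro y
      rw [Matrix.mulVec_mulVec, ← Units.val_mul, mul_inv_cancel, Units.val_one, Matrix.one_mulVec]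
    have hB : ∀ x y, (h.1 *ᵥ x) ⬝ᵥ M0 m F *ᵥ (h.1 *ᵥ y) = x ⬝ᵥ M0 m F *ᵥ y := by
      intro x y
      rw [bilin_congr, hh]
    have h1 : ∀ x : Unit ⊕ (Fin m ⊕ Fin m) → F, (h.1 *ᵥ x) (Sum.inl ()) = x (Sum.inl ()) := by
      intro x
      have := hB x x
      rw [M0_bilin, M0_bilin, J_alt, J_alt, add_zero, add_zero] at this
      exact mul_self_inj_char_two this
    have hsingle : ∀ x : Unit ⊕ (Fin m ⊕ Fin m) → F,
        x ⬝ᵥ M0 m F *ᵥ Pi.single (Sum.inl ()) 1 = x (Sum.inl ()) := by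
      intro x
      rw [M0_bilin]
      have : (Pi.single (Sum.inl ()) 1 : Unit ⊕ (Fin m ⊕ Fin m) → F) ∘ Sum.inr = 0 := by
        ext k
        simp
      rw [this, Matrix.mulVec_zero, dotProduct_zero, Pi.single_eq_same, mul_one, add_zero]
    have hM0inj : ∀ v w : Unit ⊕ (Fin m ⊕ Fin m) → F, M0 m F *ᵥ v = M0 m F *ᵥ w → v = w := by
      intro v w hvw
      have h3 := congrArg (fun z => ((M0GL m F)⁻¹ : GL (Unit ⊕ (Fin m ⊕ Fin m)) F).1 *ᵥ z) hvw
      simp only [← M0GL_coe, Matrix.mulVec_mulVec, ← Units.val_mul, inv_mul_cancel, Units.val_one,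
        Matrix.one_mulVec] at h3
      exact h3
    have he0 : h.1 *ᵥ Pi.single (Sum.inl ()) 1 =
        (Pi.single (Sum.inl ()) 1 : Unit ⊕ (Fin m ⊕ Fin m) → F) := by
      apply hM0inj
      apply dotProduct_eq
      intro y
      rw [dotProduct_comm, dotProduct_comm _ y]
      have h3 := hB ((h⁻¹ : GL (Unit ⊕ (Fin m ⊕ Fin m)) F).1 *ᵥ y) (Pi.single (Sum.inl ()) 1)
      rw [hinv, hsingle] at h3
      rw [h3, hsingle, ← h1 ((h⁻¹ : GL (Unit ⊕ (Fin m ⊕ Fin m)) F).1 *ᵥ y), hinv]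
    have hentry : ∀ i j, h.1 i j = (h.1 *ᵥ Pi.single j 1) i := by
      intro i j
      rw [Matrix.mulVec_single_one]
      rfl
    have hform : h.1 = Matrix.fromBlocks 1 0 0 h.1.toBlocks₂₂ := by
      ext i j
      rcases i with ⟨⟩ | i <;> rcases j with ⟨⟩ | j
      · rw [hentry, he0]; simp
      · rw [hentry, h1]; simp
      · rw [hentry, he0]; simp
      · rfl
    have hJ : h.1.toBlocks₂₂ᵀ * Matrix.J (Fin m) F * h.1.toBlocks₂₂ = Matrix.J (Fin m) F := by
      have h4 := hh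
      rw [hform, M0, Matrix.fromBlocks_transpose, Matrix.fromBlocks_multiply,
        Matrix.fromBlocks_multiply, Matrix.fromBlocks_inj] at h4
      simpa using h4.2.2.2
    refine ⟨⟨h.1.toBlocks₂₂, SymplecticGroup.mem_iff'.2 hJ⟩, Units.ext ?_⟩
    rw [spBlock_coe, ← hform]

end block

/-- in characteristic two `PGO_{2m+1} ≅ O_{2m+1}`. -/
theorem pgo_odd_equiv_two [CharP F 2] (hperf : ∀ x : F, ∃ y, y * y = x) (m : ℕ) :
    Nonempty (Cfsg.PGO F (Cfsg.quadFormOdd m F) ≃* ↥(Cfsg.isometryGroup F (Cfsg.quadFormOdd m F))) := by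
  have hsm : ∀ (c : F) (v : Unit ⊕ (Fin m ⊕ Fin m) → F),
      Cfsg.quadFormOdd m F (c • v) = c * c * Cfsg.quadFormOdd m F v := by
    intro c v
    rw [← oddQF_coe, QuadraticMap.map_smul, smul_eq_mul]
  apply projQuot_equiv_of_sqrt (Cfsg.Geo.quadSimilarityGroup (Cfsg.quadFormOdd m F))
    (Cfsg.isometryGroup F (Cfsg.quadFormOdd m F)).subtype
  · intro k
    exact ⟨1, fun v => by rw [Units.val_one, one_mul]; exact mem_isometryGroup.1 k.2 v⟩
  · intro k hk
    obtain ⟨c, hc⟩ := (Cfsg.Geo.mem_scalars_iff _).1 hk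
    have h1 := mem_isometryGroup.1 k.2 (Pi.single (Sum.inl ()) 1)
    have hc' : ((k : GL (Unit ⊕ (Fin m ⊕ Fin m)) F) :
        Matrix (Unit ⊕ (Fin m ⊕ Fin m)) (Unit ⊕ (Fin m ⊕ Fin m)) F) =
        (c : F) • (1 : Matrix (Unit ⊕ (Fin m ⊕ Fin m)) (Unit ⊕ (Fin m ⊕ Fin m)) F) := hc
    rw [hc', Matrix.smul_mulVec, Matrix.one_mulVec, hsm] at h1
    have h3 : Cfsg.quadFormOdd m F (Pi.single (Sum.inl ()) 1) = 1 := by
      simp [Cfsg.quadFormOdd]
    rw [h3, mul_one] at h1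
    have h4 : (c : F) = 1 := sq_eq_one_char_two h1
    apply Subtype.ext
    apply Units.ext
    rw [hc', h4, one_smul]
    rfl
  · intro h hh
    obtain ⟨u, hu⟩ := hh
    obtain ⟨w, hw⟩ := hperf (u : F)
    have hw0 : w ≠ 0 := by
      rintro rfl
      rw [mul_zero] at hw
      exact u.ne_zero hw.symm
    let z : GL (Unit ⊕ (Fin m ⊕ Fin m)) F :=
      Units.map (Matrix.scalar _ : F →+* Matrix _ _ F).toMonoidHom (Units.mk0 w hw0)
    have hzi : (z⁻¹ : GL (Unit ⊕ (Fin m ⊕ Fin m)) F).1 = w⁻¹ • (1 : Matrix _ _ F) := by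
      simp [z, Matrix.smul_one_eq_diagonal, ← map_inv]
    have hmem : h * z⁻¹ ∈ Cfsg.isometryGroup F (Cfsg.quadFormOdd m F) := by
      rw [mem_isometryGroup]
      intro v
      rw [Units.val_mul, hzi, ← Matrix.mulVec_mulVec, Matrix.smul_mulVec, Matrix.one_mulVec, hu, hsm,
        ← hw]
      field_simp
    refine ⟨⟨_, hmem⟩, ?_⟩
    have : (h * z⁻¹)⁻¹ * h = z := by group
    change (h * z⁻¹)⁻¹ * h ∈ _
    rw [this]
    exact ⟨_, rfl⟩

end Cfsg.Agent.Lib.Helper44
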