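import Cfsg.Agent.Lib.Helper43.PA.GFCent

/-!
# Graph automorphisms of `PSL_n(F)`: `gr A : x ↦ A x⁻ᵀ A⁻¹`
-/

set_option autoImplicit false

namespace Cfsg.Agent.Lib.Helper44

open Matrix Cfsg.Agent.Lib.Helper43.PA

variable {n : ℕ} {F : Type*} [Field F]

/-- the graph automorphism `x ↦ A x⁻ᵀ A⁻¹`. -/
noncomputable def gr (A : GL (Fin n) F) : MulAut (ProjectiveSpecialLinearGroup (Fin n) F) :=
  cG A * gam

theorem exists_gr_of_isGraph {β : MulAut (ProjectiveSpecialLinearGroup (Fin n) F)}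
    (h : Cfsg.IsGraphAutClassPSL β) : ∃ A : GL (Fin n) F, β = gr A := by
  obtain ⟨-, δ, γ, hδ, hγ, rfl⟩ := h
  obtain ⟨A, rfl⟩ := isInnerDiagonal_iff.1 hδ
  rw [eq_gam_of_isInvT hγ]
  exact ⟨A, rfl⟩

theorem isGraph_gr (hn : 3 ≤ n) (A : GL (Fin n) F) : Cfsg.IsGraphAutClassPSL (gr A) :=
  ⟨hn, cG A, gam, isInnerDiagonal_cG A, isInverseTranspose_gam, rfl⟩

theorem gam_eq_gr : (gam : MulAut (ProjectiveSpecialLinearGroup (Fin n) F)) = gr 1 := by
  unfold gr
  rw [map_one, one_mul]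

theorem invTGL_inv (g : GL (Fin n) F) : invTGL g⁻¹ = (invTGL g)⁻¹ := by
  apply Units.ext
  rw [invTGL_coe, invTGL_inv_coe, inv_inv]

theorem invTGL_invTGL (g : GL (Fin n) F) : invTGL (invTGL g) = g := by
  apply Units.ext
  rw [invTGL_coe, invTGL_inv_coe, transpose_transpose]

theorem conj_gr (g A : GL (Fin n) F) :
    cG g * gr A * (cG g)⁻¹ = gr (g * A * (invTGL g)⁻¹) := by
  unfold gr
  rw [← map_inv, mul_assoc, mul_assoc, gam_mul_cG, ← mul_assoc, ← mul_assoc, ← map_mul, ← map_mul,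
    invTGL_inv]

theorem congr_coe (g A : GL (Fin n) F) :
    (g * A * (invTGL g)⁻¹ : GL (Fin n) F).1 = g.1 * A.1 * g.1ᵀ := by
  rw [Units.val_mul, Units.val_mul, invTGL_inv_coe]

theorem gr_eq_iff (hn : 1 ≤ n) (A B : GL (Fin n) F) :
    gr A = gr B ↔ ∃ u : Fˣ, A.1 = (u : F) • B.1 := by
  unfold gr
  rw [mul_left_inj]
  constructor
  · intro h
    obtain ⟨u, hu⟩ := exists_scGL_of_cG_eq hn h
    exact ⟨u, by rw [hu, scGL_mul_coe]⟩
  · rintro ⟨u, hu⟩
    have : A = scGL u * B := Units.ext (by rw [hu, scGL_mul_coe])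
    rw [this, cG_scGL_mul]

theorem gr_mul_gr (A : GL (Fin n) F) : gr A * gr A = cG (A * invTGL A) := by
  unfold gr
  rw [mul_assoc, ← mul_assoc gam, gam_mul_cG, mul_assoc, gam_mul_gam, mul_one, map_mul]

theorem gr_ne_one (hn : 3 ≤ n) (A : GL (Fin n) F) : gr A ≠ 1 := by
  intro h
  apply fA_gam_not_mem_range_cG hn (1 : F ≃+* F)
  rw [map_one, one_mul]
  refine ⟨A⁻¹, ?_⟩
  rw [map_inv]
  exact inv_eq_of_mul_eq_one_right h

theorem transpose_of_orderOf_gr (hn : 1 ≤ n) {A : GL (Fin n) F} (h : orderOf (gr A) = 2) :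
    A.1ᵀ = A.1 ∨ A.1ᵀ = -A.1 := by
  have h1 : gr A * gr A = 1 := by
    rw [← sq, ← h, pow_orderOf_eq_one]
  rw [gr_mul_gr] at h1
  have h2 : A * invTGL A ∈ (cG : GL (Fin n) F →* _).ker := h1
  rw [ker_cG hn] at h2
  obtain ⟨u, hu⟩ := exists_scGL_of_mem_center h2 hn
  have h3 : A = scGL u * (invTGL A)⁻¹ := by
    rw [← hu, mul_inv_cancel_right]
  have h4 : A.1 = (u : F) • A.1ᵀ := by
    conv_lhs => rw [h3]
    rw [scGL_mul_coe, invTGL_inv_coe]
  have h5 : A.1ᵀ = (u : F) • A.1 := by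
    conv_lhs => rw [h4]
    rw [transpose_smul, transpose_transpose]
  have h6 : ((u : F) * u - 1) • A.1 = 0 := by
    rw [sub_smul, one_smul, mul_smul, ← h5, ← h4, sub_self]
  have hA0 : A.1 ≠ 0 := by
    intro h0
    have h7 := A.isUnit
    rw [h0] at h7
    have : Nonempty (Fin n) := ⟨⟨0, by omega⟩⟩
    exact not_isUnit_zero h7
  have h8 : (u : F) * u - 1 = 0 := by
    rcases smul_eq_zero.1 h6 with h | h
    · exact h
    · exact absurd h hA0
  have h9 : ((u : F) - 1) * (u + 1) = 0 := by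
    rw [← h8]; ring
  rcases mul_eq_zero.1 h9 with h | h
  · left
    rw [h5, sub_eq_zero.1 h, one_smul]
  · right
    rw [h5, eq_neg_of_add_eq_zero_left h, neg_smul, one_smul]

theorem orderOf_gr (hn : 3 ≤ n) {A : GL (Fin n) F} (h : A.1ᵀ = A.1 ∨ A.1ᵀ = -A.1) :
    orderOf (gr A) = 2 := by
  apply orderOf_eq_prime _ (gr_ne_one hn A)
  rw [sq, gr_mul_gr]
  have h1 : ∃ u : Fˣ, A = scGL u * (invTGL A)⁻¹ := by
    rcases h with h | h
    · refine ⟨1, Units.ext ?_⟩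
      rw [scGL_mul_coe, invTGL_inv_coe, h, Units.val_one, one_smul]
    · refine ⟨-1, Units.ext ?_⟩
      rw [scGL_mul_coe, invTGL_inv_coe, h, Units.val_neg, Units.val_one, neg_smul, one_smul, neg_neg]
  obtain ⟨u, hu⟩ := h1
  have h2 : A * invTGL A = scGL u := eq_mul_inv_iff_mul_eq.1 hu
  rw [h2, cG_scGL]

theorem isConjUnder_gr_iff (hn : 1 ≤ n) (A B : GL (Fin n) F) :
    Cfsg.IsConjUnder (Cfsg.inndiagPSL n F) (gr A) (gr B) ↔
      ∃ (g : GL (Fin n) F) (u : Fˣ), B.1 = (u : F) • (g.1 * A.1 * g.1ᵀ) := by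
  rw [inndiagPSL_eq]
  constructor
  · rintro ⟨_, ⟨g, rfl⟩, h⟩
    rw [conj_gr, gr_eq_iff hn] at h
    obtain ⟨u, hu⟩ := h
    exact ⟨g, u, by rw [hu, congr_coe]⟩
  · rintro ⟨g, u, h⟩
    refine ⟨cG g, ⟨g, rfl⟩, ?_⟩
    rw [conj_gr, gr_eq_iff hn]
    exact ⟨u, by rw [h, congr_coe]⟩

theorem mem_cent_gr_iff (hn : 1 ≤ n) (A g : GL (Fin n) F) :
    cG g ∈ Subgroup.centralizer {gr A} ↔ ∃ u : Fˣ, g.1 * A.1 * g.1ᵀ = (u : F) • A.1 := by
  rw [Subgroup.mem_centralizer_singleton_iff, ← mul_inv_eq_iff_eq_mul, conj_gr, gr_eq_iff hn,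
    congr_coe]

/-- conjugate elements (under `D`) have isomorphic centralisers in `D`. -/
theorem cent_equiv_of_isConjUnder {X : Type*} [Group X] (D : Subgroup X) {x y : X}
    (h : Cfsg.IsConjUnder D x y) :
    Nonempty (↥(D ⊓ Subgroup.centralizer {x}) ≃* ↥(D ⊓ Subgroup.centralizer {y})) := by
  obtain ⟨α, hα, rfl⟩ := h
  have h : (D ⊓ Subgroup.centralizer {x}).map (MulAut.conj α).toMonoidHom =
      D ⊓ Subgroup.centralizer {α * x * α⁻¹} := by
    ext y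
    constructor
    · rintro ⟨z, ⟨hz1, hz2⟩, rfl⟩
      refine ⟨D.mul_mem (D.mul_mem hα hz1) (D.inv_mem hα), ?_⟩
      have hz2' := Subgroup.mem_centralizer_singleton_iff.1 hz2
      apply Subgroup.mem_centralizer_singleton_iff.2
      show α * z * α⁻¹ * (α * x * α⁻¹) = α * x * α⁻¹ * (α * z * α⁻¹)
      have e1 : α * x * α⁻¹ * (α * z * α⁻¹) = α * (x * z) * α⁻¹ := by group
      rw [e1, ← hz2']; group
    · rintro ⟨hy1, hy2⟩
      have hy2' := Subgroup.mem_centralizer_singleton_iff.1 hy2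
      refine ⟨α⁻¹ * y * α, ⟨D.mul_mem (D.mul_mem (D.inv_mem hα) hy1) hα, ?_⟩, ?_⟩
      · apply Subgroup.mem_centralizer_singleton_iff.2
        have e1 : x * (α⁻¹ * y * α) = α⁻¹ * (α * x * α⁻¹ * y) * α := by group
        rw [e1, ← hy2']; group
      · show α * (α⁻¹ * y * α) * α⁻¹ = y
        group
  exact ⟨((MulAut.conj α).subgroupMap _).trans (MulEquiv.subgroupCongr h)⟩

/-- reindexing of the general linear group. -/
noncomputable def reGL {ι : Type*} [Fintype ι] [DecidableEq ι] (e : ι ≃ Fin n) :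
    GL ι F ≃* GL (Fin n) F :=
  Units.mapEquiv (Matrix.reindexAlgEquiv F F e).toMulEquiv

theorem reGL_coe {ι : Type*} [Fintype ι] [DecidableEq ι] (e : ι ≃ Fin n) (h : GL ι F) :
    (reGL e h).1 = Matrix.reindex e e h.1 := rfl

/-- inverse transpose as a homomorphism. -/
noncomputable def itGL : GL (Fin n) F →* GL (Fin n) F where
  toFun := invTGL
  map_one' := by
    apply Units.ext
    rw [invTGL_coe, inv_one, Units.val_one, transpose_one]
  map_mul' := invTGL_mul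

theorem itGL_apply (g : GL (Fin n) F) : itGL g = invTGL g := rfl

theorem cG_invTGL_eq_one_iff (k : GL (Fin n) F) : cG (invTGL k) = 1 ↔ cG k = 1 := by
  have h : cG (invTGL k) = gam * cG k * gam⁻¹ := by
    rw [gam_mul_cG, mul_inv_cancel_right]
  rw [h]
  constructor
  · intro h1
    have h2 : cG k = gam⁻¹ * (gam * cG k * gam⁻¹) * gam := by group
    rw [h2, h1]
    group
  · intro h1
    rw [h1]
    group

theorem invT_simil_iff (A k : GL (Fin n) F) :
    (∃ u : Fˣ, (invTGL k).1 * A.1 * (invTGL k).1ᵀ = (u : F) • A.1) ↔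
      ∃ u : Fˣ, k.1ᵀ * A.1 * k.1 = (u : F) • A.1 := by
  have h1 : (k⁻¹ : GL (Fin n) F).1 * k.1 = 1 := by
    rw [← Units.val_mul, inv_mul_cancel]; rfl
  have h2 : k.1 * (k⁻¹ : GL (Fin n) F).1 = 1 := by
    rw [← Units.val_mul, mul_inv_cancel]; rfl
  have h3 : k.1ᵀ * (k⁻¹ : GL (Fin n) F).1ᵀ = 1 := by
    rw [← transpose_mul, h1, transpose_one]
  have h4 : (k⁻¹ : GL (Fin n) F).1ᵀ * k.1ᵀ = 1 := by
    rw [← transpose_mul, h2, transpose_one]
  rw [invTGL_coe, transpose_transpose]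
  constructor
  · rintro ⟨u, hu⟩
    refine ⟨u⁻¹, ?_⟩
    have h5 : A.1 = k.1ᵀ * ((k⁻¹ : GL (Fin n) F).1ᵀ * A.1 * (k⁻¹ : GL (Fin n) F).1) * k.1 := by
      calc A.1 = (k.1ᵀ * (k⁻¹ : GL (Fin n) F).1ᵀ) * A.1 * ((k⁻¹ : GL (Fin n) F).1 * k.1) := by
            rw [h3, h1, Matrix.one_mul, Matrix.mul_one]
        _ = _ := by simp only [Matrix.mul_assoc]
    rw [hu, Matrix.mul_smul, Matrix.smul_mul] at h5
    conv_rhs => rw [h5]
    rw [smul_smul, Units.val_inv_eq_inv_val, inv_mul_cancel₀ u.ne_zero, one_smul]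
  · rintro ⟨u, hu⟩
    refine ⟨u⁻¹, ?_⟩
    have h5 : A.1 = (k⁻¹ : GL (Fin n) F).1ᵀ * (k.1ᵀ * A.1 * k.1) * (k⁻¹ : GL (Fin n) F).1 := by
      calc A.1 = ((k⁻¹ : GL (Fin n) F).1ᵀ * k.1ᵀ) * A.1 * (k.1 * (k⁻¹ : GL (Fin n) F).1) := by
            rw [h4, h2, Matrix.one_mul, Matrix.mul_one]
        _ = _ := by simp only [Matrix.mul_assoc]
    rw [hu, Matrix.mul_smul, Matrix.smul_mul] at h5
    conv_rhs => rw [h5]
    rw [smul_smul, Units.val_inv_eq_inv_val, inv_mul_cancel₀ u.ne_zero, one_smul]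

/-- The centraliser in `Inndiag(PSL_n)` of the graph automorphism `gr A` is the projective
similarity group of the form with Gram matrix `A`. -/
theorem cent_gr_equiv {ι : Type} [Fintype ι] [DecidableEq ι] (hn : 1 ≤ n) (e : ι ≃ Fin n)
    (H : Subgroup (GL ι F)) (M : Matrix ι ι F) (A : GL (Fin n) F)
    (hA : A.1 = Matrix.reindex e e M)
    (hH : ∀ h : GL ι F, h ∈ H ↔ ∃ u : Fˣ, h.1ᵀ * M * h.1 = (u : F) • M) :
    Nonempty (↥(Cfsg.inndiagPSL n F ⊓ Subgroup.centralizer {gr A}) ≃* Cfsg.projQuot H) := by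
  let ψ : ↥H →* MulAut (ProjectiveSpecialLinearGroup (Fin n) F) :=
    (cG.comp itGL).comp ((reGL e).toMonoidHom.comp H.subtype)
  have hψ : ∀ h : ↥H, ψ h = cG (invTGL (reGL e h.1)) := fun h => rfl
  have hre : ∀ h : GL ι F, (∃ u : Fˣ, (reGL e h).1ᵀ * A.1 * (reGL e h).1 = (u : F) • A.1) ↔
      ∃ u : Fˣ, h.1ᵀ * M * h.1 = (u : F) • M := by
    intro h
    refine exists_congr (fun u => ?_)
    rw [reGL_coe, hA]
    have h1 : (Matrix.reindex e e h.1)ᵀ * Matrix.reindex e e M * Matrix.reindex e e h.1 =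
        Matrix.reindex e e (h.1ᵀ * M * h.1) := by
      simp only [Matrix.reindex_apply, Matrix.transpose_submatrix, Matrix.submatrix_mul_equiv]
    have h2 : (u : F) • Matrix.reindex e e M = Matrix.reindex e e ((u : F) • M) := by
      ext i j
      simp
    rw [h1, h2]
    exact (Matrix.reindex e e).injective.eq_iff
  have hrange : ψ.range = Cfsg.inndiagPSL n F ⊓ Subgroup.centralizer {gr A} := by
    rw [inndiagPSL_eq]
    ext y
    constructor
    · rintro ⟨h, rfl⟩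
      refine ⟨⟨_, rfl⟩, ?_⟩
      rw [hψ]
      apply (mem_cent_gr_iff hn A _).2
      rw [invT_simil_iff, hre]
      exact (hH h.1).1 h.2
    · rintro ⟨⟨g, rfl⟩, hg⟩
      have hg' := (mem_cent_gr_iff hn A g).1 hg
      have h1 : (reGL e).symm (invTGL g) ∈ H := by
        rw [hH, ← hre, MulEquiv.apply_symm_apply, ← invT_simil_iff, invTGL_invTGL]
        exact hg'
      refine ⟨⟨_, h1⟩, ?_⟩
      rw [hψ]
      simp only [MulEquiv.apply_symm_apply, invTGL_invTGL]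
  have hker : ψ.ker = (Cfsg.Geo.scalars ι F).subgroupOf H := by
    ext h
    rw [MonoidHom.mem_ker, Subgroup.mem_subgroupOf, hψ, cG_invTGL_eq_one_iff, ← MonoidHom.mem_ker,
      ker_cG hn, ← scalars_eq_center hn, Cfsg.Geo.mem_scalars_iff, Cfsg.Geo.mem_scalars_iff]
    refine exists_congr (fun c => ?_)
    rw [reGL_coe]
    have h2 : (c : F) • (1 : Matrix (Fin n) (Fin n) F) =
        Matrix.reindex e e ((c : F) • (1 : Matrix ι ι F)) := by
      ext i j
      simp [Matrix.one_apply]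
    rw [h2]
    exact (Matrix.reindex e e).injective.eq_iff
  exact ⟨((MulEquiv.subgroupCongr hrange).symm.trans
    (QuotientGroup.quotientKerEquivRange ψ).symm).trans (QuotientGroup.quotientMulEquivOfEq hker)⟩

end Cfsg.Agent.Lib.Helper44
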