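import Cfsg.Agent.Lib.Helper43.PU.FieldCentU
import Cfsg.Agent.Lib.Helper44.GraphPSL

/-!
# Graph automorphisms of `PSU_n(q)`: the conformal unitary group and `gU A`
-/

set_option autoImplicit false

namespace Cfsg.Agent.Lib.Helper44

open Matrix Cfsg.Agent.Lib.Helper43.PA Cfsg.Agent.Lib.Helper43.PU

variable {F : Type*} [Field F] [Fintype F] {q n : ℕ}

theorem norm_surj (hF : Fintype.card F = q ^ 2) (c : Fˣ) (hc : uM (barE hF) c = c) :
    ∃ v : Fˣ, v * uM (barE hF) v = c := by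
  have h1 : c ∈ (nHom (barE hF) 2).range := by
    rw [range_nHom (barE hF) 2 (orderOf_barE hF) (by norm_num)]
    exact hc
  obtain ⟨v, hv⟩ := h1
  refine ⟨v, ?_⟩
  rw [← hv, nHom_apply, nU_two]

theorem h90_bar (hF : Fintype.card F = q ^ 2) (u : Fˣ) (hu : u * uM (barE hF) u = 1) :
    ∃ v : Fˣ, u = v * (uM (barE hF) v)⁻¹ :=
  hilbert90_units (barE hF) u 2 (orderOf_barE hF) (by norm_num) (by rw [nU_two, hu])

theorem uM_bar_bar (hF : Fintype.card F = q ^ 2) (u : Fˣ) :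
    uM (barE hF) (uM (barE hF) u) = u := by
  apply Units.ext
  exact DFunLike.congr_fun (barE_mul_self hF) (u : F)

theorem mapGL_bar_bar (hF : Fintype.card F = q ^ 2) (g : GL (Fin n) F) :
    mapGL (barE hF) (mapGL (barE hF) g) = g := by
  rw [← mapGL_mul', barE_mul_self, mapGL_one']

theorem tau_tau (hF : Fintype.card F = q ^ 2) (g : GL (Fin n) F) :
    tauGL (barE hF) (tauGL (barE hF) g) = g := tauGL_tauGL _ (barE_mul_self hF) g

theorem mapGL_tau (hF : Fintype.card F = q ^ 2) (g : GL (Fin n) F) :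
    mapGL (barE hF) (tauGL (barE hF) g) = tauGL (barE hF) (mapGL (barE hF) g) :=
  mapGL_tauGL hF (barE hF) g

/-- the conformal unitary group. -/
def CU (hF : Fintype.card F = q ^ 2) (n : ℕ) : Subgroup (GL (Fin n) F) where
  carrier := {x | ∃ c : Fˣ, tauGL (barE hF) x = scGL c * x}
  one_mem' := ⟨1, by simp⟩
  mul_mem' := by
    rintro x y ⟨c, hc⟩ ⟨d, hd⟩
    refine ⟨c * d, ?_⟩
    rw [map_mul, hc, hd, map_mul, mul_assoc, ← mul_assoc x, ← scGL_comm d x]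
    simp only [mul_assoc]
  inv_mem' := by
    rintro x ⟨c, hc⟩
    refine ⟨c⁻¹, ?_⟩
    rw [map_inv, hc, _root_.mul_inv_rev, ← map_inv]
    exact (scGL_comm c⁻¹ x⁻¹).symm

theorem mem_CU (hF : Fintype.card F = q ^ 2) (x : GL (Fin n) F) :
    x ∈ CU hF n ↔ ∃ c : Fˣ, tauGL (barE hF) x = scGL c * x := Iff.rfl

theorem GU_le_CU (hF : Fintype.card F = q ^ 2) : Cfsg.GU n F q ≤ CU hF n := by
  intro g hg
  exact ⟨1, by rw [(mem_GU_iff_tau' hF g).1 hg, map_one, one_mul]⟩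

theorem scGL_mem_CU (hF : Fintype.card F = q ^ 2) (u : Fˣ) : (scGL u : GL (Fin n) F) ∈ CU hF n := by
  refine ⟨(uM (barE hF) u)⁻¹ * u⁻¹, ?_⟩
  rw [tauGL_scGL, ← map_mul, inv_mul_cancel_right, map_inv]

theorem exists_scGL_mul_mem_GU (hF : Fintype.card F = q ^ 2) (hn : 1 ≤ n) {x : GL (Fin n) F}
    (hx : x ∈ CU hF n) : ∃ v : Fˣ, scGL v * x ∈ Cfsg.GU n F q := by
  obtain ⟨c, hc⟩ := hx
  have h1 : uM (barE hF) c = c := by
    have h2 := congrArg (tauGL (barE hF)) hc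
    rw [tau_tau, map_mul, tauGL_scGL, hc, ← mul_assoc, ← map_mul] at h2
    have h3 : (scGL ((uM (barE hF) c)⁻¹ * c) : GL (Fin n) F) = 1 := (mul_eq_right.1 h2.symm)
    have h4 : (uM (barE hF) c)⁻¹ * c = 1 := scGL_injective hn (by rw [h3, map_one])
    exact (inv_mul_eq_one.1 h4)
  obtain ⟨v, hv⟩ := norm_surj hF c h1
  refine ⟨v, ?_⟩
  rw [mem_GU_iff_tau' hF, map_mul, tauGL_scGL, hc, ← mul_assoc, ← map_mul, ← hv]
  congr 2
  rw [mul_comm v, inv_mul_cancel_left]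

theorem cGU_eq_of_scalar {g g' : ↥(Cfsg.GU n F q)} {u : Fˣ} (h : g'.1 = scGL u * g.1) :
    cGU g' = cGU g := by
  have h1 : cGU (g' * g⁻¹) = 1 := by
    apply cGU_eq_one_of_scalar (a := (u : F))
    intro x
    have : (g' * g⁻¹ : ↥(Cfsg.GU n F q)).1 = scGL u := by
      show g'.1 * g.1⁻¹ = scGL u
      rw [h, mul_inv_cancel_right]
    rw [this, scGL_mulVec]
  rw [map_mul, map_inv, mul_inv_eq_one] at h1
  exact h1

/-- the conformal unitary group acting on `PSU_n`. -/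
noncomputable def cCU (hF : Fintype.card F = q ^ 2) (hn : 1 ≤ n) :
    ↥(CU hF n) →* MulAut (Cfsg.PSU n F q) :=
  MonoidHom.mk' (fun x => cGU ⟨scGL (Classical.choose (exists_scGL_mul_mem_GU hF hn x.2)) * x.1,
    Classical.choose_spec (exists_scGL_mul_mem_GU hF hn x.2)⟩) (by
    intro x y
    rw [← map_mul]
    apply cGU_eq_of_scalar
      (u := Classical.choose (exists_scGL_mul_mem_GU hF hn (x * y).2) *
        (Classical.choose (exists_scGL_mul_mem_GU hF hn x.2))⁻¹ *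
        (Classical.choose (exists_scGL_mul_mem_GU hF hn y.2))⁻¹)
    show scGL (Classical.choose (exists_scGL_mul_mem_GU hF hn (x * y).2)) * (x.1 * y.1) =
      scGL (Classical.choose (exists_scGL_mul_mem_GU hF hn (x * y).2) *
        (Classical.choose (exists_scGL_mul_mem_GU hF hn x.2))⁻¹ *
        (Classical.choose (exists_scGL_mul_mem_GU hF hn y.2))⁻¹) *
        ((scGL (Classical.choose (exists_scGL_mul_mem_GU hF hn x.2)) * x.1) *
          (scGL (Classical.choose (exists_scGL_mul_mem_GU hF hn y.2)) * y.1))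
    generalize Classical.choose (exists_scGL_mul_mem_GU hF hn (x * y).2) = a
    generalize Classical.choose (exists_scGL_mul_mem_GU hF hn x.2) = b
    generalize Classical.choose (exists_scGL_mul_mem_GU hF hn y.2) = c
    rw [mul_assoc (scGL b), ← mul_assoc x.1, ← scGL_comm c x.1]
    simp only [← mul_assoc, ← map_mul]
    congr 3
    rw [mul_assoc, mul_assoc, mul_assoc, mul_comm b c, inv_mul_cancel_left, inv_mul_cancel, mul_one]
    )

theorem cCU_eq (hF : Fintype.card F = q ^ 2) (hn : 1 ≤ n) (x : ↥(CU hF n)) (v : Fˣ)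
    (hv : scGL v * x.1 ∈ Cfsg.GU n F q) : cCU hF hn x = cGU ⟨scGL v * x.1, hv⟩ := by
  apply cGU_eq_of_scalar
    (u := Classical.choose (exists_scGL_mul_mem_GU hF hn x.2) * v⁻¹)
  show _ = scGL _ * (scGL v * x.1)
  rw [← mul_assoc, ← map_mul, inv_mul_cancel_right]

theorem cCU_of_GU (hF : Fintype.card F = q ^ 2) (hn : 1 ≤ n) (g : ↥(Cfsg.GU n F q)) :
    cCU hF hn ⟨g.1, GU_le_CU hF g.2⟩ = cGU g := by
  rw [cCU_eq hF hn _ 1 (by rw [map_one, one_mul]; exact g.2)]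
  congr 1
  apply Subtype.ext
  show scGL 1 * g.1 = g.1
  rw [map_one, one_mul]

theorem range_cCU (hF : Fintype.card F = q ^ 2) (hn : 1 ≤ n) :
    (cCU hF hn).range = Cfsg.inndiagPSU n F q := by
  rw [inndiagPSU_eq]
  apply le_antisymm
  · rintro _ ⟨x, rfl⟩
    exact ⟨_, rfl⟩
  · rintro _ ⟨g, rfl⟩
    exact ⟨_, cCU_of_GU hF hn g⟩

theorem cCU_eq_one_iff (hF : Fintype.card F = q ^ 2) (hn : 3 ≤ n) (x : ↥(CU hF n)) :
    cCU hF (by omega) x = 1 ↔ ∃ u : Fˣ, x.1 = scGL u := by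
  obtain ⟨v, hv⟩ := exists_scGL_mul_mem_GU hF (by omega) x.2
  rw [cCU_eq hF (by omega) x v hv]
  constructor
  · intro h
    obtain ⟨u, -, hu⟩ := exists_scGL_of_scalar hF hn h
    refine ⟨v⁻¹ * u, ?_⟩
    have hu' : scGL v * x.1 = scGL u := hu
    rw [map_mul, ← hu', map_inv, inv_mul_cancel_left]
  · rintro ⟨u, hu⟩
    apply cGU_eq_one_of_scalar (a := ((v * u : Fˣ) : F))
    intro y
    show (scGL v * x.1).1 *ᵥ y = _
    rw [hu, ← map_mul, scGL_mulVec]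

theorem cCU_eq_iff (hF : Fintype.card F = q ^ 2) (hn : 3 ≤ n) (x y : ↥(CU hF n)) :
    cCU hF (by omega) x = cCU hF (by omega) y ↔ ∃ u : Fˣ, x.1 = scGL u * y.1 := by
  rw [← mul_inv_eq_one, ← map_inv, ← map_mul, cCU_eq_one_iff hF hn]
  refine exists_congr (fun u => ?_)
  show x.1 * y.1⁻¹ = scGL u ↔ _
  rw [mul_inv_eq_iff_eq_mul]

theorem mapGL_mem_CU (hF : Fintype.card F = q ^ 2) {x : GL (Fin n) F} (hx : x ∈ CU hF n) :
    mapGL (barE hF) x ∈ CU hF n := by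
  obtain ⟨c, hc⟩ := hx
  refine ⟨uM (barE hF) c, ?_⟩
  rw [← mapGL_tau, hc, map_mul, mapGL_scGL]

/-- `bar` on the conformal unitary group. -/
noncomputable def barCU (hF : Fintype.card F = q ^ 2) : ↥(CU hF n) →* ↥(CU hF n) :=
  ((mapGL (barE hF)).comp (CU hF n).subtype).codRestrict (CU hF n) (fun x => mapGL_mem_CU hF x.2)

theorem barCU_coe (hF : Fintype.card F = q ^ 2) (x : ↥(CU hF n)) :
    (barCU hF x).1 = mapGL (barE hF) x.1 := rfl

theorem fAU_mul_cCU (hF : Fintype.card F = q ^ 2) (hn : 1 ≤ n) (x : ↥(CU hF n)) :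
    fAU (barE hF) * cCU hF hn x = cCU hF hn (barCU hF x) * fAU (barE hF) := by
  obtain ⟨v, hv⟩ := exists_scGL_mul_mem_GU hF hn x.2
  rw [cCU_eq hF hn x v hv, fAU_mul_cGU, mul_left_inj]
  have h1 : scGL (uM (barE hF) v) * (barCU hF x).1 ∈ Cfsg.GU n F q := by
    rw [barCU_coe, ← mapGL_scGL, ← map_mul]
    exact mapGL_mem_GU _ hv
  rw [cCU_eq hF hn _ _ h1]
  congr 1
  apply Subtype.ext
  show mapGL (barE hF) (scGL v * x.1) = scGL (uM (barE hF) v) * mapGL (barE hF) x.1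
  rw [map_mul, mapGL_scGL]

/-- the graph automorphism `x ↦ A x̄ A⁻¹` of `PSU_n`. -/
noncomputable def gU (hF : Fintype.card F = q ^ 2) (hn : 1 ≤ n) (A : ↥(CU hF n)) :
    MulAut (Cfsg.PSU n F q) := cCU hF hn A * fAU (barE hF)

theorem conj_gU (hF : Fintype.card F = q ^ 2) (hn : 1 ≤ n) (x A : ↥(CU hF n)) :
    cCU hF hn x * gU hF hn A * (cCU hF hn x)⁻¹ = gU hF hn (x * A * (barCU hF x)⁻¹) := by
  unfold gU
  rw [← map_inv, mul_assoc, mul_assoc, fAU_mul_cCU, ← mul_assoc, ← mul_assoc, ← map_mul, ← map_mul,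
    map_inv]

theorem gU_eq_iff (hF : Fintype.card F = q ^ 2) (hn : 3 ≤ n) (A B : ↥(CU hF n)) :
    gU hF (by omega) A = gU hF (by omega) B ↔ ∃ u : Fˣ, A.1 = scGL u * B.1 := by
  unfold gU
  rw [mul_left_inj, cCU_eq_iff hF hn]

theorem gU_mul_gU (hF : Fintype.card F = q ^ 2) (hn : 1 ≤ n) (A : ↥(CU hF n)) :
    gU hF hn A * gU hF hn A = cCU hF hn (A * barCU hF A) := by
  unfold gU
  rw [mul_assoc, ← mul_assoc (fAU _), fAU_mul_cCU, mul_assoc, ← map_mul, barE_mul_self, map_one,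
    mul_one, map_mul]

theorem gU_ne_one (hF : Fintype.card F = q ^ 2) (hn : 3 ≤ n) (A : ↥(CU hF n)) :
    gU hF (by omega) A ≠ 1 := by
  intro h
  apply barE_ne_one hF
  apply fAU_mem_range_cGU (n := n) hF hn
  rw [← inndiagPSU_eq, ← range_cCU hF (by omega)]
  refine ⟨A⁻¹, ?_⟩
  rw [map_inv]
  exact inv_eq_of_mul_eq_one_right h

theorem isGraph_gU (hF : Fintype.card F = q ^ 2) (hn : 3 ≤ n) (A : ↥(CU hF n)) :
    Cfsg.IsGraphAutClassPSU (gU hF (by omega) A) := by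
  obtain ⟨v, hv⟩ := exists_scGL_mul_mem_GU hF (by omega) A.2
  refine ⟨hn, cGU ⟨_, hv⟩, fAU (barE hF), barE hF, ?_, isInnerDiagonal_cGU _, isFieldAut_fAU _, ?_⟩
  · rw [orderOf_barE]; exact even_two
  · unfold gU
    rw [cCU_eq hF (by omega) A v hv]

theorem isConjUnder_gU_iff (hF : Fintype.card F = q ^ 2) (hn : 3 ≤ n) (A B : ↥(CU hF n)) :
    Cfsg.IsConjUnder (Cfsg.inndiagPSU n F q) (gU hF (by omega) A) (gU hF (by omega) B) ↔
      ∃ (x : ↥(CU hF n)) (u : Fˣ), B.1 = scGL u * (x.1 * A.1 * (mapGL (barE hF) x.1)⁻¹) := by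
  rw [← range_cCU hF (by omega)]
  constructor
  · rintro ⟨_, ⟨x, rfl⟩, h⟩
    rw [conj_gU, gU_eq_iff hF hn] at h
    obtain ⟨u, hu⟩ := h
    exact ⟨x, u, hu⟩
  · rintro ⟨x, u, h⟩
    refine ⟨cCU hF (by omega) x, ⟨x, rfl⟩, ?_⟩
    rw [conj_gU, gU_eq_iff hF hn]
    exact ⟨u, h⟩

theorem mem_cent_gU_iff (hF : Fintype.card F = q ^ 2) (hn : 3 ≤ n) (A x : ↥(CU hF n)) :
    cCU hF (by omega) x ∈ Subgroup.centralizer {gU hF (by omega) A} ↔
      ∃ u : Fˣ, x.1 * A.1 * (mapGL (barE hF) x.1)⁻¹ = scGL u * A.1 := by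
  rw [Subgroup.mem_centralizer_singleton_iff, ← mul_inv_eq_iff_eq_mul, conj_gU, gU_eq_iff hF hn]
  rfl

end Cfsg.Agent.Lib.Helper44
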