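import Cfsg.Agent.Lib.Helper44.GraphPSU
import Cfsg.Agent.Lib.Helper43.PA.HermDecomp

/-!
# Transfer between graph involutions of `PSU_n(q)` and of `PSL_n(q)`
-/

set_option autoImplicit false

namespace Cfsg.Agent.Lib.Helper44

open Matrix Cfsg.Agent.Lib.Helper43.PA Cfsg.Agent.Lib.Helper43.PU

section gen

variable {F : Type*} [Field F] {F₀ : Type*} [Field F₀] {n : ℕ}

/-- base change of invertible matrices. -/
noncomputable abbrev iG (ι : F₀ →+* F) : GL (Fin n) F₀ →* GL (Fin n) F :=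
  Matrix.GeneralLinearGroup.map ι

theorem iG_coe (ι : F₀ →+* F) (k : GL (Fin n) F₀) : (iG ι k).1 = k.1.map ι := rfl

theorem iG_injective (ι : F₀ →+* F) :
    Function.Injective (iG ι : GL (Fin n) F₀ →* GL (Fin n) F) := by
  intro a b h
  apply Units.ext
  have h1 := congrArg Units.val h
  rw [iG_coe, iG_coe] at h1
  exact Matrix.map_injective ι.injective h1

theorem iG_scGL (ι : F₀ →+* F) (u : F₀ˣ) :
    iG ι (scGL u : GL (Fin n) F₀) = scGL (Units.map (ι : F₀ →* F) u) := by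
  apply Units.ext
  rw [iG_coe, scGL_coe, scGL_coe]
  ext i j
  by_cases h : i = j
  · subst h; simp [Matrix.scalar_apply]
  · simp [Matrix.scalar_apply, h]

theorem invTGL_iG (ι : F₀ →+* F) (k : GL (Fin n) F₀) : invTGL (iG ι k) = iG ι (invTGL k) := by
  apply Units.ext
  rw [invTGL_coe, ← map_inv, iG_coe, iG_coe, invTGL_coe, transpose_map]

theorem cG_eq_iff (hn : 1 ≤ n) (x y : GL (Fin n) F) : cG x = cG y ↔ ∃ u : Fˣ, x = scGL u * y :=
  ⟨exists_scGL_of_cG_eq hn, by rintro ⟨u, rfl⟩; exact cG_scGL_mul u y⟩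

theorem cG_mapGL (σ : F ≃+* F) (x : GL (Fin n) F) : cG (mapGL σ x) = fA σ * cG x * (fA σ)⁻¹ := by
  rw [fA_mul_cG, mul_inv_cancel_right]

theorem cG_invTGL (x : GL (Fin n) F) : cG (invTGL x) = gam * cG x * gam⁻¹ := by
  rw [gam_mul_cG, mul_inv_cancel_right]

theorem cG_tauGL (σ : F ≃+* F) (x : GL (Fin n) F) :
    cG (tauGL σ x) = fA σ * (gam * cG x * gam⁻¹) * (fA σ)⁻¹ := by
  rw [tauGL_apply, cG_mapGL, cG_invTGL]

theorem cG_mapGL_congr (σ : F ≃+* F) {x y : GL (Fin n) F} (h : cG x = cG y) :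
    cG (mapGL σ x) = cG (mapGL σ y) := by
  rw [cG_mapGL, cG_mapGL, h]

theorem cG_tauGL_congr (σ : F ≃+* F) {x y : GL (Fin n) F} (h : cG x = cG y) :
    cG (tauGL σ x) = cG (tauGL σ y) := by
  rw [cG_tauGL, cG_tauGL, h]

theorem isConjUnder_gr_iff' (A B : GL (Fin n) F) :
    Cfsg.IsConjUnder (Cfsg.inndiagPSL n F) (gr A) (gr B) ↔
      ∃ g : GL (Fin n) F, cG B = cG (g * A * (invTGL g)⁻¹) := by
  rw [inndiagPSL_eq]
  constructor
  · rintro ⟨_, ⟨g, rfl⟩, h⟩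
    rw [conj_gr] at h
    exact ⟨g, mul_right_cancel h⟩
  · rintro ⟨g, h⟩
    refine ⟨cG g, ⟨g, rfl⟩, ?_⟩
    rw [conj_gr]
    unfold gr
    rw [h]

theorem mem_cent_gr_iff' (A g : GL (Fin n) F) :
    cG g ∈ Subgroup.centralizer {gr A} ↔ cG (g * A * (invTGL g)⁻¹) = cG A := by
  rw [Subgroup.mem_centralizer_singleton_iff, ← mul_inv_eq_iff_eq_mul, conj_gr]
  unfold gr
  rw [mul_left_inj]

theorem range_equiv_of_ker_eq {S X Y : Type*} [Group S] [Group X] [Group Y] (f : S →* X)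
    (g : S →* Y) (h : f.ker = g.ker) : Nonempty (↥f.range ≃* ↥g.range) :=
  ⟨(QuotientGroup.quotientKerEquivRange f).symm.trans
    ((QuotientGroup.quotientMulEquivOfEq h).trans (QuotientGroup.quotientKerEquivRange g))⟩

end gen

section bar

variable {F : Type*} [Field F] [Fintype F] {F₀ : Type*} [Field F₀] {q n : ℕ}
  (hF : Fintype.card F = q ^ 2) (ι : F₀ →+* F) (hι : ∀ x, barE hF x = x ↔ ∃ y, ι y = x)

include hι in
theorem mapGL_iG (k : GL (Fin n) F₀) : mapGL (barE hF) (iG ι k) = iG ι k :=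
  (exists_map_eq ι (barE hF) hι _).2 ⟨k, rfl⟩

include hι in
theorem tau_iG (k : GL (Fin n) F₀) : tauGL (barE hF) (iG ι k) = iG ι (invTGL k) := by
  rw [tauGL_apply, invTGL_iG, mapGL_iG hF ι hι]

include hι in
theorem uM_iota (u : F₀ˣ) :
    uM (barE hF) (Units.map (ι : F₀ →* F) u) = Units.map (ι : F₀ →* F) u :=
  Units.ext ((hι _).2 ⟨u, rfl⟩)

include hι in
theorem exists_unit_of_fixed (e : Fˣ) (he : uM (barE hF) e = e) :
    ∃ e₀ : F₀ˣ, Units.map (ι : F₀ →* F) e₀ = e := by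
  obtain ⟨y, hy⟩ := (hι e).1 (congrArg Units.val he)
  have hy0 : y ≠ 0 := by
    rintro rfl
    rw [map_zero] at hy
    exact e.ne_zero hy.symm
  exact ⟨Units.mk0 y hy0, Units.ext hy⟩

include hι in
theorem scalar_descend (hn : 1 ≤ n) {e : Fˣ} {P Q : GL (Fin n) F₀}
    (h : iG ι Q = scGL e * iG ι P) :
    ∃ e₀ : F₀ˣ, Units.map (ι : F₀ →* F) e₀ = e ∧ Q = scGL e₀ * P := by
  have h1 := congrArg (mapGL (barE hF)) h
  rw [map_mul, mapGL_iG hF ι hι, mapGL_iG hF ι hι, mapGL_scGL, h, mul_left_inj] at h1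
  obtain ⟨e₀, he₀⟩ := exists_unit_of_fixed hF ι hι e (scGL_injective hn h1.symm)
  refine ⟨e₀, he₀, iG_injective ι ?_⟩
  rw [map_mul, iG_scGL, he₀, h]

include hι in
theorem cG_iG_eq_iff (hn : 1 ≤ n) (P Q : GL (Fin n) F₀) :
    cG (iG ι Q) = cG (iG ι P) ↔ cG Q = cG P := by
  rw [cG_eq_iff hn, cG_eq_iff hn]
  constructor
  · rintro ⟨e, he⟩
    obtain ⟨e₀, -, h⟩ := scalar_descend hF ι hι hn he
    exact ⟨e₀, h⟩
  · rintro ⟨e₀, rfl⟩
    exact ⟨_, by rw [map_mul, iG_scGL]⟩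

include hι in
theorem descend (hn : 1 ≤ n) {y : GL (Fin n) F} {u : Fˣ} (h : mapGL (barE hF) y = scGL u * y) :
    ∃ (v : Fˣ) (b : GL (Fin n) F₀), scGL v * y = iG ι b := by
  have h1 := congrArg (mapGL (barE hF)) h
  rw [mapGL_bar_bar, map_mul, mapGL_scGL, h, ← mul_assoc, ← map_mul] at h1
  have h2 : uM (barE hF) u * u = 1 :=
    scGL_injective hn (by rw [map_one]; exact mul_eq_right.1 h1.symm)
  obtain ⟨v, hv⟩ := h90_bar hF u (by rw [mul_comm]; exact h2)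
  obtain ⟨b, hb⟩ := (exists_map_eq ι (barE hF) hι (scGL v * y)).1 (by
    rw [map_mul, mapGL_scGL, h, ← mul_assoc, ← map_mul, hv]
    congr 2
    rw [mul_comm v, mul_inv_cancel_left])
  exact ⟨v, b, hb.symm⟩

include hι in
theorem descend' (hn : 1 ≤ n) {y : GL (Fin n) F} (h : cG (mapGL (barE hF) y) = cG y) :
    ∃ b : GL (Fin n) F₀, cG y = cG (iG ι b) := by
  obtain ⟨u, hu⟩ := (cG_eq_iff hn _ _).1 h
  obtain ⟨v, b, hb⟩ := descend hF ι hι hn hu
  exact ⟨b, by rw [← hb, cG_scGL_mul]⟩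

theorem mem_CU' (hn : 1 ≤ n) (x : GL (Fin n) F) :
    x ∈ CU hF n ↔ cG (tauGL (barE hF) x) = cG x := by
  rw [mem_CU, cG_eq_iff hn]

theorem cCU_eq_iff' (hn : 3 ≤ n) (x y : ↥(CU hF n)) :
    cCU hF (by omega) x = cCU hF (by omega) y ↔ cG x.1 = cG y.1 := by
  rw [cCU_eq_iff hF hn, cG_eq_iff (by omega)]

theorem gU_eq_iff' (hn : 3 ≤ n) (A B : ↥(CU hF n)) :
    gU hF (by omega) A = gU hF (by omega) B ↔ cG A.1 = cG B.1 := by
  rw [gU_eq_iff hF hn, cG_eq_iff (by omega)]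

theorem isConjUnder_gU_iff' (hn : 3 ≤ n) (A B : ↥(CU hF n)) :
    Cfsg.IsConjUnder (Cfsg.inndiagPSU n F q) (gU hF (by omega) A) (gU hF (by omega) B) ↔
      ∃ x : ↥(CU hF n), cG B.1 = cG (x.1 * A.1 * (mapGL (barE hF) x.1)⁻¹) := by
  rw [isConjUnder_gU_iff hF hn]
  refine exists_congr (fun x => ?_)
  rw [cG_eq_iff (by omega)]

theorem mem_cent_gU_iff' (hn : 3 ≤ n) (A x : ↥(CU hF n)) :
    cCU hF (by omega) x ∈ Subgroup.centralizer {gU hF (by omega) A} ↔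
      cG (x.1 * A.1 * (mapGL (barE hF) x.1)⁻¹) = cG A.1 := by
  rw [mem_cent_gU_iff hF hn, cG_eq_iff (by omega)]

/-- `a` transports the standard Hermitian form to (a multiple of) the `F₀`-rational form `M`. -/
def UData (a : GL (Fin n) F) (M : GL (Fin n) F₀) : Prop :=
  cG (tauGL (barE hF) a) = cG (a * iG ι M)

/-- the twisting matrix `a ā⁻¹`. -/
noncomputable def AU (a : GL (Fin n) F) : GL (Fin n) F := a * (mapGL (barE hF) a)⁻¹

variable {hF ι}

include hι in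
theorem AU_mem_CU (hn : 1 ≤ n) {a : GL (Fin n) F} {M : GL (Fin n) F₀} (h : UData hF ι a M) :
    AU hF a ∈ CU hF n := by
  rw [mem_CU' hF hn]
  unfold AU
  have h1 := cG_mapGL_congr (barE hF) h
  rw [map_mul (mapGL _), mapGL_iG hF ι hι] at h1
  unfold UData at h
  rw [map_mul, map_inv, ← mapGL_tau, map_mul, map_inv, h, h1]
  simp only [map_mul, map_inv, _root_.mul_inv_rev]
  group

theorem grp_K {G : Type*} [Group G] (a' m' t m a b : G) :
    a' * m' * t * (a * m)⁻¹ = a' * b * a⁻¹ ↔ m' * t = b * m := by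
  rw [_root_.mul_inv_rev, ← mul_assoc, mul_left_inj, mul_assoc a', mul_assoc a', mul_right_inj,
    mul_inv_eq_iff_eq_mul]

include hι in
/-- the key equivalence. -/
theorem conj_mem_CU_iff (hn : 1 ≤ n) {a a' : GL (Fin n) F} {M M' : GL (Fin n) F₀}
    (h : UData hF ι a M) (h' : UData hF ι a' M') (b : GL (Fin n) F₀) :
    a' * iG ι b * a⁻¹ ∈ CU hF n ↔ cG M' = cG (b * M * (invTGL b)⁻¹) := by
  unfold UData at h h'
  rw [mem_CU' hF hn, map_mul (tauGL _), map_mul (tauGL _), map_inv (tauGL _), tau_iG hF ι hι]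
  simp only [map_mul cG, map_inv cG]
  rw [h, h', map_mul cG, map_mul cG, grp_K]
  rw [eq_mul_inv_iff_mul_eq, ← map_mul cG, ← map_mul cG, ← map_mul cG, ← map_mul cG,
    ← map_mul (iG ι), ← map_mul (iG ι), cG_iG_eq_iff hF ι hι hn]


theorem mem_CU_of_cG_eq (hn : 1 ≤ n) {z x : GL (Fin n) F} (h : cG z = cG x) (hx : x ∈ CU hF n) :
    z ∈ CU hF n := by
  rw [mem_CU' hF hn] at hx ⊢
  rw [cG_tauGL_congr _ h, hx, h]

theorem grp_T2 {G : Type*} [Group G] {A' B' X A B Xb : G}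
    (h : A' * B'⁻¹ = X * (A * B⁻¹) * Xb⁻¹) : B'⁻¹ * Xb * B = A'⁻¹ * X * A := by
  have hX : X = A' * B'⁻¹ * Xb * B * A⁻¹ := by rw [h]; group
  rw [hX]; group

theorem grp_T1 {G : Type*} [Group G] {X Y A B : G} (h : X * Y⁻¹ = A * B⁻¹) :
    B⁻¹ * Y = A⁻¹ * X := by
  have hX : X = A * B⁻¹ * Y := by rw [← h]; group
  rw [hX]; group

theorem fixed_of_twist {a a' x : GL (Fin n) F}
    (hx : cG (AU hF a') = cG (x * AU hF a * (mapGL (barE hF) x)⁻¹)) :
    cG (mapGL (barE hF) (a'⁻¹ * x * a)) = cG (a'⁻¹ * x * a) := by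
  unfold AU at hx
  simp only [map_mul, map_inv] at hx ⊢
  exact grp_T2 hx

include hι in
theorem twist_conj (a a' : GL (Fin n) F) (b : GL (Fin n) F₀) :
    a' * iG ι b * a⁻¹ * AU hF a * (mapGL (barE hF) (a' * iG ι b * a⁻¹))⁻¹ = AU hF a' := by
  unfold AU
  simp only [map_mul, map_inv, mapGL_iG hF ι hι]
  group

include hι in
theorem conj_transfer (hn : 3 ≤ n) {a a' : GL (Fin n) F} {M M' : GL (Fin n) F₀}
    (h : UData hF ι a M) (h' : UData hF ι a' M') :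
    Cfsg.IsConjUnder (Cfsg.inndiagPSU n F q)
      (gU hF (by omega) ⟨AU hF a, AU_mem_CU hι (by omega) h⟩)
      (gU hF (by omega) ⟨AU hF a', AU_mem_CU hι (by omega) h'⟩) ↔
    Cfsg.IsConjUnder (Cfsg.inndiagPSL n F₀) (gr M) (gr M') := by
  rw [isConjUnder_gU_iff' hF hn, isConjUnder_gr_iff']
  constructor
  · rintro ⟨x, hx⟩
    obtain ⟨b, hb⟩ := descend' hF ι hι (by omega) (fixed_of_twist hx)
    refine ⟨b, (conj_mem_CU_iff hι (by omega) h h' b).1 ?_⟩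
    refine mem_CU_of_cG_eq (by omega) ?_ x.2
    rw [map_mul, map_mul, ← hb]
    simp only [map_mul, map_inv]
    group
  · rintro ⟨b, hb⟩
    refine ⟨⟨a' * iG ι b * a⁻¹, (conj_mem_CU_iff hι (by omega) h h' b).2 hb⟩, ?_⟩
    show cG (AU hF a') = cG (a' * iG ι b * a⁻¹ * AU hF a * (mapGL (barE hF) (a' * iG ι b * a⁻¹))⁻¹)
    rw [twist_conj hι]

include hι in
theorem cent_transfer (hn : 3 ≤ n) {a : GL (Fin n) F} {M : GL (Fin n) F₀} (h : UData hF ι a M) :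
    Nonempty (↥(Cfsg.inndiagPSU n F q ⊓
        Subgroup.centralizer {gU hF (by omega) ⟨AU hF a, AU_mem_CU hι (by omega) h⟩}) ≃*
      ↥(Cfsg.inndiagPSL n F₀ ⊓ Subgroup.centralizer {gr M})) := by
  let S : Subgroup (GL (Fin n) F₀) := (Subgroup.centralizer {gr M}).comap cG
  have hS : ∀ k, k ∈ S ↔ a * iG ι k * a⁻¹ ∈ CU hF n := by
    intro k
    rw [conj_mem_CU_iff hι (by omega) h h k, eq_comm]
    exact mem_cent_gr_iff' M k
  let ψL : ↥S →* MulAut (ProjectiveSpecialLinearGroup (Fin n) F₀) := cG.comp S.subtype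
  let c : ↥S →* ↥(CU hF n) :=
    { toFun := fun k => ⟨a * iG ι k.1 * a⁻¹, (hS k.1).1 k.2⟩
      map_one' := by
        apply Subtype.ext
        show a * iG ι 1 * a⁻¹ = 1
        rw [map_one, mul_one, mul_inv_cancel]
      map_mul' := by
        intro k l
        apply Subtype.ext
        show a * iG ι (k.1 * l.1) * a⁻¹ = (a * iG ι k.1 * a⁻¹) * (a * iG ι l.1 * a⁻¹)
        rw [map_mul]
        group }
  let ψU : ↥S →* MulAut (Cfsg.PSU n F q) := (cCU hF (by omega)).comp c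
  have hker : ψU.ker = ψL.ker := by
    ext k
    rw [MonoidHom.mem_ker, MonoidHom.mem_ker]
    show cCU hF (by omega) (c k) = 1 ↔ cG k.1 = 1
    rw [← map_one (cCU hF (by omega)), cCU_eq_iff' hF hn]
    show cG (a * iG ι k.1 * a⁻¹) = cG 1 ↔ _
    rw [map_one, map_mul, map_mul, map_inv, conj_eq_one_iff, ← map_one cG, ← map_one (iG ι),
      cG_iG_eq_iff hF ι hι (by omega), map_one]
  have hrL : ψL.range = Cfsg.inndiagPSL n F₀ ⊓ Subgroup.centralizer {gr M} := by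
    rw [inndiagPSL_eq]
    ext y
    constructor
    · rintro ⟨k, rfl⟩
      exact ⟨⟨k.1, rfl⟩, k.2⟩
    · rintro ⟨⟨k, rfl⟩, h2⟩
      exact ⟨⟨k, h2⟩, rfl⟩
  have hrU : ψU.range = Cfsg.inndiagPSU n F q ⊓
      Subgroup.centralizer {gU hF (by omega) ⟨AU hF a, AU_mem_CU hι (by omega) h⟩} := by
    rw [← range_cCU hF (by omega)]
    ext y
    constructor
    · rintro ⟨k, rfl⟩
      refine ⟨⟨c k, rfl⟩, ?_⟩
      apply (mem_cent_gU_iff' hF hn _ (c k)).2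
      show cG (a * iG ι k.1 * a⁻¹ * AU hF a * (mapGL (barE hF) (a * iG ι k.1 * a⁻¹))⁻¹) = _
      rw [twist_conj hι]
    · rintro ⟨⟨x, rfl⟩, h2⟩
      have h2' := (mem_cent_gU_iff' hF hn _ x).1 h2
      obtain ⟨b, hb⟩ := descend' hF ι hι (by omega) (fixed_of_twist h2'.symm)
      have hx : cG (a * iG ι b * a⁻¹) = cG x.1 := by
        rw [map_mul, map_mul, ← hb]
        simp only [map_mul, map_inv]
        group
      have hb' : a * iG ι b * a⁻¹ ∈ CU hF n := mem_CU_of_cG_eq (by omega) hx x.2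
      refine ⟨⟨b, (hS b).2 hb'⟩, ?_⟩
      show cCU hF (by omega) (c _) = cCU hF (by omega) x
      rw [cCU_eq_iff' hF hn]
      exact hx
  obtain ⟨e⟩ := range_equiv_of_ker_eq ψU ψL hker
  exact ⟨(MulEquiv.subgroupCongr hrU.symm).trans (e.trans (MulEquiv.subgroupCongr hrL))⟩


theorem invTGL_scGL {K : Type*} [Field K] (u : Kˣ) :
    invTGL (scGL u : GL (Fin n) K) = scGL u⁻¹ := by
  apply Units.ext
  rw [invTGL_coe, ← map_inv, scGL_coe]
  simp [Matrix.scalar_apply]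

theorem herm_decomp' (G : GL (Fin n) F) (hG : tauGL (barE hF) G = G⁻¹) :
    ∃ h : GL (Fin n) F, G = h * (tauGL (barE hF) h)⁻¹ := by
  obtain ⟨h, hh⟩ := herm_decomp (barE hF) (barE_ne_one hF) (barE_mul_self hF) G (by
    rw [← tauGL_inv_coe, hG, inv_inv])
  refine ⟨h, Units.ext ?_⟩
  rw [Units.val_mul, tauGL_inv_coe, hh]

include hι in
theorem exists_UData_of_graph (hn : 3 ≤ n) (γ : MulAut (Cfsg.PSU n F q))
    (hγ : Cfsg.IsGraphAutClassPSU γ) (hγ2 : orderOf γ = 2) :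
    ∃ (a : GL (Fin n) F) (M : GL (Fin n) F₀) (h : UData hF ι a M),
      γ = gU hF (by omega) ⟨AU hF a, AU_mem_CU hι (by omega) h⟩ ∧ orderOf (gr M) = 2 := by
  obtain ⟨-, δ, φ, σ, hσ, hδ, hφ, rfl⟩ := hγ
  obtain ⟨g, rfl⟩ := eq_cGU_of_isInnerDiagonal hδ
  obtain rfl := eq_fAU_of_isFieldAut hφ
  have h1 : (cGU g * fAU σ) ^ 2 = 1 := by rw [← hγ2, pow_orderOf_eq_one]
  rw [pow_cGU_fAU] at h1
  have hσ2 : σ ^ 2 = 1 := fAU_mem_range_cGU (n := n) hF hn ⟨(nrmU σ g 2)⁻¹, by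
    rw [map_inv]; exact inv_eq_of_mul_eq_one_right h1⟩
  have hσ1 : σ ≠ 1 := by
    rintro rfl
    rw [orderOf_one] at hσ
    exact absurd hσ (by decide)
  have hσb : σ = barE hF := by
    ext t
    rw [invol_eq_pow hF σ hσ1 (by rw [← sq]; exact hσ2) t, barE_apply]
  subst hσb
  rw [hσ2, map_one, mul_one] at h1
  obtain ⟨s, -, hs⟩ := exists_scGL_of_scalar hF hn h1
  rw [nrmU_coe] at hs
  have hs' : g.1 * mapGL (barE hF) g.1 = scGL s := by
    simpa [nrm_succ, nrm_zero] using hs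
  have hsb : uM (barE hF) s = s := by
    apply scGL_injective (n := n) (by omega)
    rw [← mapGL_scGL, ← hs', map_mul, mapGL_bar_bar]
    have h3 : mapGL (barE hF) g.1 = g.1⁻¹ * scGL s := by rw [← hs', inv_mul_cancel_left]
    rw [h3, mul_assoc, scGL_comm, inv_mul_cancel_left, mul_inv_cancel_left]
  obtain ⟨v, hv⟩ := norm_surj hF s⁻¹ (by rw [map_inv, hsb])
  have hA1 : (scGL v * g.1) * mapGL (barE hF) (scGL v * g.1) = 1 := by
    rw [map_mul, mapGL_scGL, mul_assoc, ← mul_assoc g.1, ← scGL_comm, mul_assoc, hs', ← map_mul,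
      ← map_mul, ← mul_assoc, hv, inv_mul_cancel, map_one]
  obtain ⟨a, ha⟩ := hilbert90_GL (barE hF) (scGL v * g.1) 2 (orderOf_barE hF) (by norm_num) (by
    simpa [nrm_succ, nrm_zero] using hA1)
  have hACU : scGL v * g.1 ∈ CU hF n := (CU hF n).mul_mem (scGL_mem_CU hF v) (GU_le_CU hF g.2)
  have hH : cG (mapGL (barE hF) (a⁻¹ * tauGL (barE hF) a)) = cG (a⁻¹ * tauGL (barE hF) a) := by
    have h4 := (mem_CU' hF (by omega) _).1 hACU
    rw [ha, map_mul, map_inv, ← mapGL_tau] at h4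
    simp only [map_mul, map_inv] at h4 ⊢
    exact grp_T1 h4
  obtain ⟨M, hM⟩ := descend' hF ι hι (by omega) hH
  have hU : UData hF ι a M := by
    unfold UData
    rw [map_mul, ← hM, map_mul, map_inv, mul_inv_cancel_left]
  refine ⟨a, M, hU, ?_, ?_⟩
  · unfold gU
    rw [mul_left_inj, ← cCU_of_GU hF (by omega) g, cCU_eq_iff' hF hn]
    show cG g.1 = cG (AU hF a)
    rw [show AU hF a = scGL v * g.1 from ha.symm]
    exact (cG_scGL_mul v g.1).symm
  · apply orderOf_eq_prime _ (gr_ne_one hn M)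
    rw [sq, gr_mul_gr, ← map_one cG, ← cG_iG_eq_iff hF ι hι (by omega), map_mul (iG ι),
      ← tau_iG hF ι hι, map_mul cG, cG_tauGL_congr _ hM.symm, ← hM, ← map_mul cG]
    congr 1
    rw [map_mul, map_inv, tau_tau, map_one]
    group

include hι in
theorem exists_UData_of_gr (hn : 3 ≤ n) (M : GL (Fin n) F₀) (hM : orderOf (gr M) = 2) :
    ∃ (a : GL (Fin n) F) (h : UData hF ι a M),
      orderOf (gU hF (by omega) ⟨AU hF a, AU_mem_CU hι (by omega) h⟩) = 2 := by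
  have h1 : gr M * gr M = 1 := by rw [← sq, ← hM, pow_orderOf_eq_one]
  rw [gr_mul_gr, ← map_one cG, cG_eq_iff (by omega)] at h1
  obtain ⟨e₀, he₀⟩ := h1
  rw [mul_one] at he₀
  have ht : invTGL M = M⁻¹ * scGL e₀ := by rw [← he₀, inv_mul_cancel_left]
  have he2 : e₀ * e₀ = 1 := by
    apply scGL_injective (n := n) (by omega)
    have h2 : invTGL M * M = scGL e₀ := by
      rw [ht, mul_assoc, scGL_comm, inv_mul_cancel_left]
    have h3 := congrArg invTGL he₀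
    rw [invTGL_mul, invTGL_invTGL, h2, invTGL_scGL] at h3
    rw [map_mul, map_one]
    nth_rewrite 1 [h3]
    rw [← map_mul, inv_mul_cancel, map_one]
  obtain ⟨v, hv⟩ := h90_bar hF (Units.map (ι : F₀ →* F) e₀) (by
    rw [uM_iota hF ι hι, ← map_mul, he2, map_one])
  obtain ⟨h, hh⟩ := herm_decomp' (hF := hF) (scGL v⁻¹ * iG ι M) (by
    rw [map_mul, tauGL_scGL, tau_iG hF ι hι, ht, map_mul, iG_scGL, hv, map_inv (uM (barE hF)), inv_inv,
      _root_.mul_inv_rev, ← map_inv scGL, inv_inv, ← scGL_comm, ← mul_assoc, ← map_mul,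
      ← scGL_comm, map_inv (iG ι)]
    congr 2
    rw [mul_comm v, mul_inv_cancel_left])
  have hU : UData hF ι h⁻¹ M := by
    unfold UData
    have h5 : tauGL (barE hF) h⁻¹ = h⁻¹ * (scGL v⁻¹ * iG ι M) := by
      rw [hh, inv_mul_cancel_left, map_inv]
    rw [h5, ← mul_assoc, ← scGL_comm, mul_assoc, cG_scGL_mul]
  refine ⟨h⁻¹, hU, ?_⟩
  apply orderOf_eq_prime _ (gU_ne_one hF hn _)
  rw [sq, gU_mul_gU]
  have h6 : (⟨AU hF h⁻¹, AU_mem_CU hι (by omega) hU⟩ : ↥(CU hF n)) *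
      barCU hF ⟨AU hF h⁻¹, AU_mem_CU hι (by omega) hU⟩ = 1 := by
    apply Subtype.ext
    show AU hF h⁻¹ * mapGL (barE hF) (AU hF h⁻¹) = 1
    unfold AU
    rw [map_mul, map_inv (mapGL _) (mapGL _ _), mapGL_bar_bar]
    group
  rw [h6, map_one]

variable (hF ι)

/-- the correspondence between graph involutions of `PSU_n(q)` and `PSL_n(q)`. -/
def GRel (hn : 3 ≤ n) (γ : MulAut (Cfsg.PSU n F q))
    (γL : MulAut (ProjectiveSpecialLinearGroup (Fin n) F₀)) : Prop :=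
  ∃ (a : GL (Fin n) F) (M : GL (Fin n) F₀) (h : AU hF a ∈ CU hF n), UData hF ι a M ∧
    γ = gU hF (by omega) ⟨AU hF a, h⟩ ∧ γL = gr M

variable {hF ι}

include hι in
theorem grel_of_U (hn : 3 ≤ n) (γ : MulAut (Cfsg.PSU n F q))
    (hγ : Cfsg.IsGraphAutClassPSU γ) (hγ2 : orderOf γ = 2) :
    ∃ γL : MulAut (ProjectiveSpecialLinearGroup (Fin n) F₀),
      Cfsg.IsGraphAutClassPSL γL ∧ orderOf γL = 2 ∧ GRel hF ι hn γ γL := by
  obtain ⟨a, M, h, h1, h2⟩ := exists_UData_of_graph hι hn γ hγ hγ2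
  exact ⟨gr M, isGraph_gr hn M, h2, a, M, _, h, h1, rfl⟩

include hι in
theorem grel_of_L (hn : 3 ≤ n) (γL : MulAut (ProjectiveSpecialLinearGroup (Fin n) F₀))
    (hγ : Cfsg.IsGraphAutClassPSL γL) (hγ2 : orderOf γL = 2) :
    ∃ γ : MulAut (Cfsg.PSU n F q),
      Cfsg.IsGraphAutClassPSU γ ∧ orderOf γ = 2 ∧ GRel hF ι hn γ γL := by
  obtain ⟨M, rfl⟩ := exists_gr_of_isGraph hγ
  obtain ⟨a, h, h1⟩ := exists_UData_of_gr hι hn M hγ2
  exact ⟨_, isGraph_gU hF hn _, h1, a, M, _, h, rfl, rfl⟩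

include hι in
theorem grel_conj (hn : 3 ≤ n) {γ γ' : MulAut (Cfsg.PSU n F q)}
    {γL γL' : MulAut (ProjectiveSpecialLinearGroup (Fin n) F₀)} (h : GRel hF ι hn γ γL)
    (h' : GRel hF ι hn γ' γL') :
    Cfsg.IsConjUnder (Cfsg.inndiagPSU n F q) γ γ' ↔
      Cfsg.IsConjUnder (Cfsg.inndiagPSL n F₀) γL γL' := by
  obtain ⟨a, M, -, h, rfl, rfl⟩ := h
  obtain ⟨a', M', -, h', rfl, rfl⟩ := h'
  exact conj_transfer hι hn h h'

include hι in
theorem grel_cent (hn : 3 ≤ n) {γ : MulAut (Cfsg.PSU n F q)}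
    {γL : MulAut (ProjectiveSpecialLinearGroup (Fin n) F₀)} (h : GRel hF ι hn γ γL) :
    Nonempty (↥(Cfsg.inndiagPSU n F q ⊓ Subgroup.centralizer {γ}) ≃*
      ↥(Cfsg.inndiagPSL n F₀ ⊓ Subgroup.centralizer {γL})) := by
  obtain ⟨a, M, -, h, rfl, rfl⟩ := h
  exact cent_transfer hι hn h

end bar


theorem exists_iota {F : Type*} [Field F] [Fintype F] {q : ℕ} (hF : Fintype.card F = q ^ 2)
    (F₀ : Type*) [Field F₀] [Fintype F₀] (hF₀ : Fintype.card F₀ = q) :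
    ∃ ι : F₀ →+* F, ∀ x, barE hF x = x ↔ ∃ y, ι y = x := by
  obtain ⟨p, hp⟩ := CharP.exists F₀
  obtain ⟨f, hpp, hf⟩ := FiniteField.card F₀ p
  have : Fact p.Prime := ⟨hpp⟩
  have hq : q = p ^ (f : ℕ) := by rw [← hF₀, hf]
  apply exists_embedding (p := p) (f := 2 * f) (by rw [hF, hq, ← pow_mul, mul_comm])
    (by have := f.pos; omega) (barE hF) F₀
  rw [orderOf_barE, Nat.mul_div_cancel_left _ (by norm_num), hF₀, hq]

end Cfsg.Agent.Lib.Helper44
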