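import Cfsg.Agent.Lib.Helper44.GraphForms
import Cfsg.Agent.Lib.Helper14.StdMinus

/-!
# Standard representatives of the involutory graph automorphisms of `PSL_n(F)`
-/

set_option autoImplicit false

namespace Cfsg.Agent.Lib.Helper44

open Matrix Cfsg.Agent.Lib.Helper43.PA QuadraticMap

variable {F : Type*} [Field F] {n : ℕ}

section std

variable {ι : Type} [Fintype ι] [DecidableEq ι]

theorem reGL_transpose (e : ι ≃ Fin n) (h : GL ι F) : (reGL e h).1ᵀ = Matrix.reindex e e h.1ᵀ := by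
  rw [reGL_coe]
  rfl

theorem reGL_det (e : ι ≃ Fin n) (h : GL ι F) : (reGL e h).1.det = h.1.det := by
  rw [reGL_coe, Matrix.det_reindex_self]

theorem reGL_gram_transpose (e : ι ≃ Fin n) (Q : QuadraticForm F (ι → F))
    (hQ : (polarBilin Q).Nondegenerate) :
    (reGL e (gramGL Q hQ)).1ᵀ = (reGL e (gramGL Q hQ)).1 := by
  rw [reGL_transpose, gramGL_coe, gramM_transpose]
  rfl

theorem cent_grQ (h2 : (2 : F) ≠ 0) (hn : 1 ≤ n) (e : ι ≃ Fin n) (Q : QuadraticForm F (ι → F))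
    (hQ : (polarBilin Q).Nondegenerate) :
    Nonempty (↥(Cfsg.inndiagPSL n F ⊓ Subgroup.centralizer {gr (reGL e (gramGL Q hQ))}) ≃*
      Cfsg.PGO F ⇑Q) :=
  cent_gr_equiv hn e _ (gramM Q) _ rfl (mem_quadSimilarityGroup_iff h2 Q)

end std

/-- the matrix `J` as an invertible matrix. -/
noncomputable def JGL (m : ℕ) (F : Type*) [Field F] : GL (Fin m ⊕ Fin m) F :=
  ⟨Matrix.J (Fin m) F, -Matrix.J (Fin m) F, by rw [Matrix.mul_neg, Matrix.J_squared, neg_neg],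
    by rw [Matrix.neg_mul, Matrix.J_squared, neg_neg]⟩

theorem JGL_coe (m : ℕ) : (JGL m F).1 = Matrix.J (Fin m) F := rfl

theorem cent_grJ (hn : 1 ≤ n) {m : ℕ} (e : Fin m ⊕ Fin m ≃ Fin n) :
    Nonempty (↥(Cfsg.inndiagPSL n F ⊓ Subgroup.centralizer {gr (reGL e (JGL m F))}) ≃*
      Cfsg.PGSp m F) :=
  cent_gr_equiv hn e _ (Matrix.J (Fin m) F) _ rfl
    (mem_similarityGroup_iff (Matrix.J (Fin m) F) _ (fun _ _ => rfl))

theorem reGL_J_transpose {m : ℕ} (e : Fin m ⊕ Fin m ≃ Fin n) :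
    (reGL e (JGL m F)).1ᵀ = -(reGL e (JGL m F)).1 := by
  rw [reGL_transpose, JGL_coe, Matrix.J_transpose]
  rfl

theorem GL_ne_zero (hn : 1 ≤ n) (A : GL (Fin n) F) : A.1 ≠ 0 := by
  intro h0
  have h7 := A.isUnit
  rw [h0] at h7
  have : Nonempty (Fin n) := ⟨⟨0, by omega⟩⟩
  exact not_isUnit_zero h7

theorem not_conj_skew_sym (h2 : (2 : F) ≠ 0) (hn : 1 ≤ n) {A B : GL (Fin n) F} (hA : A.1ᵀ = -A.1)
    (hB : B.1ᵀ = B.1) : ¬ Cfsg.IsConjUnder (Cfsg.inndiagPSL n F) (gr A) (gr B) := by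
  intro h
  obtain ⟨g, u, hu⟩ := (isConjUnder_gr_iff hn A B).1 h
  have h1 : B.1ᵀ = -B.1 := by
    rw [hu, transpose_smul, transpose_mul, transpose_mul, transpose_transpose, hA]
    simp [Matrix.mul_assoc]
  rw [hB] at h1
  have h3 : (2 : F) • B.1 = 0 := by
    rw [two_smul]
    nth_rewrite 1 [h1]
    simp
  rcases smul_eq_zero.1 h3 with h | h
  · exact h2 h
  · exact GL_ne_zero hn B h

theorem isSquare_det_of_conj (hn : 1 ≤ n) (hev : Even n) {A B : GL (Fin n) F}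
    (h : Cfsg.IsConjUnder (Cfsg.inndiagPSL n F) (gr A) (gr B)) : IsSquare (A.1.det * B.1.det) := by
  obtain ⟨g, u, hu⟩ := (isConjUnder_gr_iff hn A B).1 h
  obtain ⟨k, hk⟩ := hev
  rw [hu, det_smul, det_mul, det_mul, det_transpose, Fintype.card_fin]
  have h1 : (u : F) ^ n = (u : F) ^ k * (u : F) ^ k := by rw [← pow_add, ← hk]
  rw [h1]
  exact ⟨(u : F) ^ k * g.1.det * A.1.det, by ring⟩

theorem conj_of_skew (h2 : (2 : F) ≠ 0) (hn : 1 ≤ n) {A B : GL (Fin n) F} (hA : A.1ᵀ = -A.1)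
    (hB : B.1ᵀ = -B.1) : Cfsg.IsConjUnder (Cfsg.inndiagPSL n F) (gr A) (gr B) := by
  obtain ⟨g, hg⟩ := exists_congr_alt A B (alt_of_skew h2 hA) (alt_of_skew h2 hB)
  exact (isConjUnder_gr_iff hn A B).2 ⟨g, 1, by rw [hg, Units.val_one, one_smul]⟩

theorem conj_of_sym [Fintype F] (h2 : (2 : F) ≠ 0) (hn : 1 ≤ n) {A B : GL (Fin n) F}
    (hA : A.1ᵀ = A.1) (hB : B.1ᵀ = B.1) (hd : IsSquare (A.1.det * B.1.det)) :
    Cfsg.IsConjUnder (Cfsg.inndiagPSL n F) (gr A) (gr B) := by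
  obtain ⟨g, hg⟩ := exists_congr_sym h2 A B hA hB hd
  exact (isConjUnder_gr_iff hn A B).2 ⟨g, 1, by rw [hg, Units.val_one, one_smul]⟩

theorem gramM_plus_det (m : ℕ) : (gramM (plusQF m F)).det = (-1) ^ m := by
  rw [← plusQF_gram_det m F]
  congr 1
  ext i j
  simp [gramM, LinearMap.BilinForm.toMatrix'_apply]

theorem gramM_minus_det (m : ℕ) (a c : F) :
    (gramM (minusQF m F a c)).det = (-1) ^ (m + 1) * (a ^ 2 - 4 * c) := by
  rw [← minusQF_gram_det m F a c]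
  congr 1
  ext i j
  simp [gramM, LinearMap.BilinForm.toMatrix'_apply]

theorem exists_anisotropic [Fintype F] (h2 : (2 : F) ≠ 0) :
    ∃ a b : F, ∀ z₁ z₂ : F, z₁ ^ 2 + a * z₁ * z₂ + b * z₂ ^ 2 = 0 → z₁ = 0 ∧ z₂ = 0 := by
  obtain ⟨ν, hν⟩ := FiniteField.exists_nonsquare (F := F) (by
    intro h
    have : CharP F 2 := by rw [← h]; exact ringChar.charP F
    exact h2 (CharTwo.two_eq_zero))
  refine ⟨0, -ν, ?_⟩
  intro z₁ z₂ h
  have hz2 : z₂ = 0 := by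
    by_contra hne
    apply hν
    refine ⟨z₁ / z₂, ?_⟩
    field_simp
    linear_combination -h
  subst hz2
  refine ⟨?_, rfl⟩
  have : z₁ ^ 2 = 0 := by linear_combination h
  exact pow_eq_zero_iff (two_ne_zero) |>.1 this

end Cfsg.Agent.Lib.Helper44
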