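import Cfsg.Agent.Lib.Helper44.GraphStd
import Cfsg.Agent.Lib.Helper44.Char2Sym

/-!
# Graph automorphisms of `PSL_n(F)` in characteristic two
-/

set_option autoImplicit false

namespace Cfsg.Agent.Lib.Helper44

open Matrix Cfsg.Agent.Lib.Helper43.PA

variable {F : Type*} [Field F] {n : ℕ}

theorem perfect_of_char_two [Finite F] [CharP F 2] (x : F) : ∃ y, y * y = x := by
  have : Fintype F := Fintype.ofFinite F
  obtain ⟨r, hr⟩ := FiniteField.isSquare_of_char_two (ringChar.eq F 2) x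
  exact ⟨r, hr.symm⟩

theorem conj_one_of_nonalt [CharP F 2] (hperf : ∀ x : F, ∃ y, y * y = x) (hn : 1 ≤ n)
    {A : GL (Fin n) F} (hA : A.1ᵀ = A.1) (hna : ∃ x, x ⬝ᵥ A.1 *ᵥ x ≠ 0) :
    Cfsg.IsConjUnder (Cfsg.inndiagPSL n F) (gr A) (gr 1) := by
  have hdet : A.1.det ≠ 0 := ((Matrix.isUnit_iff_isUnit_det _).1 A.isUnit).ne_zero
  obtain ⟨b, hb⟩ := exists_orthonormal_char2 hperf n (Matrix.toBilin' A.1)
    ⟨fun x y => by
      simp only [Matrix.toBilin'_apply']
      exact bilin_symm hA x y⟩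
    (LinearMap.BilinForm.nondegenerate_toBilin'_iff_det_ne_zero.2 hdet)
    (by
      obtain ⟨x, hx⟩ := hna
      exact ⟨x, by rwa [Matrix.toBilin'_apply']⟩) (by simp)
  obtain ⟨g, hg⟩ := exists_congr_of_isometry A 1 b.equivFun.symm (by
    intro x y
    rw [← Matrix.toBilin'_apply', Module.Basis.equivFun_symm_apply, Module.Basis.equivFun_symm_apply,
      LinearMap.BilinForm.sum_left]
    simp only [LinearMap.BilinForm.sum_right, LinearMap.BilinForm.smul_left,
      LinearMap.BilinForm.smul_right, hb, Units.val_one, Matrix.one_mulVec, dotProduct]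
    apply Finset.sum_congr rfl
    intro i _
    simp [mul_comm])
  exact (isConjUnder_gr_iff hn A 1).2 ⟨g, 1, by rw [hg, Units.val_one, one_smul]⟩

theorem conj_of_nonalt [CharP F 2] (hperf : ∀ x : F, ∃ y, y * y = x) (hn : 1 ≤ n)
    {A B : GL (Fin n) F} (hA : A.1ᵀ = A.1) (hna : ∃ x, x ⬝ᵥ A.1 *ᵥ x ≠ 0)
    (hB : B.1ᵀ = B.1) (hnb : ∃ x, x ⬝ᵥ B.1 *ᵥ x ≠ 0) :
    Cfsg.IsConjUnder (Cfsg.inndiagPSL n F) (gr A) (gr B) :=
  (isConjUnder_equivalence _).trans (conj_one_of_nonalt hperf hn hA hna)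
    ((isConjUnder_equivalence _).symm (conj_one_of_nonalt hperf hn hB hnb))

theorem conj_of_alt (hn : 1 ≤ n) {A B : GL (Fin n) F} (hA : ∀ x, x ⬝ᵥ A.1 *ᵥ x = 0)
    (hB : ∀ x, x ⬝ᵥ B.1 *ᵥ x = 0) : Cfsg.IsConjUnder (Cfsg.inndiagPSL n F) (gr A) (gr B) := by
  obtain ⟨g, hg⟩ := exists_congr_alt A B hA hB
  exact (isConjUnder_gr_iff hn A B).2 ⟨g, 1, by rw [hg, Units.val_one, one_smul]⟩

theorem alt_of_conj (hn : 1 ≤ n) {A B : GL (Fin n) F} (hA : ∀ x, x ⬝ᵥ A.1 *ᵥ x = 0)
    (h : Cfsg.IsConjUnder (Cfsg.inndiagPSL n F) (gr A) (gr B)) : ∀ x, x ⬝ᵥ B.1 *ᵥ x = 0 := by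
  obtain ⟨g, u, hu⟩ := (isConjUnder_gr_iff hn A B).1 h
  intro x
  have h1 := bilin_congr A.1 g.1ᵀ x x
  rw [transpose_transpose] at h1
  rw [hu, Matrix.smul_mulVec, dotProduct_smul, ← h1, hA, smul_zero]

/-- a matrix group modulo scalars, when every element is a scalar times an element of `K`. -/
theorem projQuot_equiv_of_sqrt {ι : Type} [Fintype ι] [DecidableEq ι] (H : Subgroup (GL ι F))
    {K : Type*} [Group K] (j : K →* GL ι F) (hjH : ∀ k, j k ∈ H)
    (hsc : ∀ k, j k ∈ Cfsg.Geo.scalars ι F → k = 1)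
    (hsurj : ∀ h ∈ H, ∃ k : K, (j k)⁻¹ * h ∈ Cfsg.Geo.scalars ι F) :
    Nonempty (Cfsg.projQuot H ≃* K) := by
  let θ : K →* Cfsg.projQuot H :=
    (QuotientGroup.mk' ((Cfsg.Geo.scalars ι F).subgroupOf H)).comp (j.codRestrict H hjH)
  have hθ : Function.Bijective θ := by
    constructor
    · rw [injective_iff_map_eq_one]
      intro k hk
      apply hsc
      have h1 : j.codRestrict H hjH k ∈ (Cfsg.Geo.scalars ι F).subgroupOf H :=
        (QuotientGroup.eq_one_iff _).1 hk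
      exact h1
    · intro x
      induction x using QuotientGroup.induction_on with
      | H h =>
        obtain ⟨k, hk⟩ := hsurj h.1 h.2
        refine ⟨k, ?_⟩
        apply QuotientGroup.eq.2
        exact hk
  exact ⟨(MulEquiv.ofBijective θ hθ).symm⟩

theorem sq_eq_one_char_two [CharP F 2] {c : F} (h : c * c = 1) : c = 1 := by
  have h1 : (c + 1) * (c + 1) = 0 := by
    have : (c + 1) * (c + 1) = c * c + 1 + (c + c) := by ring
    rw [this, h, CharTwo.add_self_eq_zero, CharTwo.add_self_eq_zero, add_zero]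
  have h2 : c + 1 = 0 := mul_self_eq_zero.1 h1
  rw [← sub_eq_zero, CharTwo.sub_eq_add]
  exact h2

/-- in characteristic two the centraliser of `gr A` is the isometry group of the form `A`. -/
theorem cent_gr_equiv_two [CharP F 2] (hperf : ∀ x : F, ∃ y, y * y = x) {ι : Type} [Fintype ι]
    [DecidableEq ι] (hn : 1 ≤ n) (e : ι ≃ Fin n) {K : Type*} [Group K] (j : K →* GL ι F)
    (hj : Function.Injective j) (M : Matrix ι ι F) (A : GL (Fin n) F)
    (hA : A.1 = Matrix.reindex e e M)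
    (hK : ∀ h : GL ι F, h ∈ j.range ↔ h.1ᵀ * M * h.1 = M) :
    Nonempty (↥(Cfsg.inndiagPSL n F ⊓ Subgroup.centralizer {gr A}) ≃* K) := by
  have hM0 : M ≠ 0 := by
    rintro rfl
    apply GL_ne_zero hn A
    rw [hA]
    ext i j
    simp
  obtain ⟨f1⟩ := cent_gr_equiv hn e (Cfsg.Geo.similarityGroup (fun u v => u ⬝ᵥ M *ᵥ v)) M A hA
    (mem_similarityGroup_iff M _ (fun _ _ => rfl))
  obtain ⟨f2⟩ := projQuot_equiv_of_sqrt (Cfsg.Geo.similarityGroup (fun u v => u ⬝ᵥ M *ᵥ v)) j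
    (by
      intro k
      rw [mem_similarityGroup_iff M _ (fun _ _ => rfl)]
      exact ⟨1, by rw [(hK (j k)).1 ⟨k, rfl⟩, Units.val_one, one_smul]⟩)
    (by
      intro k hk
      obtain ⟨c, hc⟩ := (Cfsg.Geo.mem_scalars_iff _).1 hk
      have h1 := (hK (j k)).1 ⟨k, rfl⟩
      rw [hc] at h1
      have h2 : ((c : F) * c - 1) • M = 0 := by
        rw [sub_smul, one_smul, sub_eq_zero]
        conv_rhs => rw [← h1]
        simp [smul_smul]
      have h3 : (c : F) * c = 1 := by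
        rcases smul_eq_zero.1 h2 with h | h
        · exact sub_eq_zero.1 h
        · exact absurd h hM0
      have h4 : (c : F) = 1 := sq_eq_one_char_two h3
      apply hj
      apply Units.ext
      rw [hc, h4, one_smul, map_one, Units.val_one])
    (by
      intro h hh
      obtain ⟨u, hu⟩ := (mem_similarityGroup_iff M _ (fun _ _ => rfl) h).1 hh
      obtain ⟨w, hw⟩ := hperf (u : F)
      have hw0 : w ≠ 0 := by
        rintro rfl
        rw [mul_zero] at hw
        exact u.ne_zero hw.symm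
      let z : GL ι F := Units.map (Matrix.scalar ι : F →+* Matrix ι ι F).toMonoidHom (Units.mk0 w hw0)
      have hz : z.1 = w • (1 : Matrix ι ι F) := by
        simp [z, Matrix.smul_one_eq_diagonal]
      have hzi : (z⁻¹ : GL ι F).1 = w⁻¹ • (1 : Matrix ι ι F) := by
        simp [z, Matrix.smul_one_eq_diagonal, ← map_inv]
      have hmem : h * z⁻¹ ∈ j.range := by
        rw [hK, Units.val_mul, hzi]
        simp only [Matrix.mul_smul, Matrix.mul_one, transpose_smul, Matrix.smul_mul, hu, smul_smul]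
        rw [← hw]
        have : w⁻¹ * (w⁻¹ * (w * w)) = 1 := by field_simp
        rw [this, one_smul]
      obtain ⟨k, hk⟩ := hmem
      refine ⟨k, ?_⟩
      rw [hk]
      have : (h * z⁻¹)⁻¹ * h = z := by group
      rw [this]
      exact ⟨_, rfl⟩)
  exact ⟨f1.trans f2⟩

end Cfsg.Agent.Lib.Helper44
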