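import Cfsg.Agent.Lib.Helper44.GraphTwo

/-!
# Characteristic two: the symplectic group, a transvection, and the form `J + D`
-/

set_option autoImplicit false

namespace Cfsg.Agent.Lib.Helper44

open Matrix Cfsg.Agent.Lib.Helper43.PA

variable {F : Type*} [Field F] {m : ℕ}

/-- the symplectic group inside the general linear group. -/
noncomputable def spToGL (m : ℕ) (F : Type*) [Field F] :
    ↥(Matrix.symplecticGroup (Fin m) F) →* GL (Fin m ⊕ Fin m) F :=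
  (Matrix.symplecticGroup (Fin m) F).subtype.toHomUnits

theorem spToGL_coe (s : ↥(Matrix.symplecticGroup (Fin m) F)) : (spToGL m F s).1 = s.1 := rfl

theorem spToGL_injective : Function.Injective (spToGL m F) := by
  intro s s' h
  apply Subtype.ext
  rw [← spToGL_coe, h, spToGL_coe]

theorem mem_range_spToGL (h : GL (Fin m ⊕ Fin m) F) :
    h ∈ (spToGL m F).range ↔ h.1ᵀ * Matrix.J (Fin m) F * h.1 = Matrix.J (Fin m) F := by
  rw [← SymplecticGroup.mem_iff']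
  constructor
  · rintro ⟨s, rfl⟩
    exact s.2
  · intro hh
    exact ⟨⟨h.1, hh⟩, Units.ext rfl⟩

theorem J_alt (x : Fin m ⊕ Fin m → F) : x ⬝ᵥ Matrix.J (Fin m) F *ᵥ x = 0 := by
  have := Cfsg.Agent.Lib.Helper94.sympB_isAlt (F := F) m x
  rwa [Cfsg.Agent.Lib.Helper94.sympB, Matrix.toBilin'_apply'] at this

theorem J_mulVec_single_inl (i₀ : Fin m) :
    Matrix.J (Fin m) F *ᵥ Pi.single (Sum.inl i₀) 1 = Pi.single (Sum.inr i₀) 1 := by
  rw [Matrix.mulVec_single_one]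
  ext k
  rcases k with k | k
  · simp [Matrix.J, Matrix.col]
  · simp [Matrix.J, Matrix.col, Matrix.one_apply, Pi.single_apply]

/-- the matrix `E_{ab}`, `a = inl i₀`, `b = inr i₀`. -/
def tvE (F : Type*) [Field F] (i₀ : Fin m) : Matrix (Fin m ⊕ Fin m) (Fin m ⊕ Fin m) F :=
  Matrix.single (Sum.inl i₀) (Sum.inr i₀) 1

/-- the matrix `E_{bb}`. -/
def tvD (F : Type*) [Field F] (i₀ : Fin m) : Matrix (Fin m ⊕ Fin m) (Fin m ⊕ Fin m) F :=
  Matrix.single (Sum.inr i₀) (Sum.inr i₀) 1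

theorem tvE_mulVec (i₀ : Fin m) (x : Fin m ⊕ Fin m → F) :
    tvE F i₀ *ᵥ x = x (Sum.inr i₀) • Pi.single (Sum.inl i₀) 1 := by
  rw [tvE, Matrix.single_mulVec_eq, one_mul]

theorem tvD_mulVec (i₀ : Fin m) (x : Fin m ⊕ Fin m → F) :
    tvD F i₀ *ᵥ x = x (Sum.inr i₀) • Pi.single (Sum.inr i₀) 1 := by
  rw [tvD, Matrix.single_mulVec_eq, one_mul]

theorem J_mul_tvE (i₀ : Fin m) : Matrix.J (Fin m) F * tvE F i₀ = tvD F i₀ := by
  apply Cfsg.Agent.Lib.Helper43.mulVec_ext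
  intro v
  rw [← Matrix.mulVec_mulVec, tvE_mulVec, tvD_mulVec, Matrix.mulVec_smul, J_mulVec_single_inl]

theorem tvE_mul_tvE (i₀ : Fin m) : tvE F i₀ * tvE F i₀ = 0 := by
  rw [tvE, Matrix.single_mul_single_of_ne]
  simp

theorem tvD_transpose (i₀ : Fin m) : (tvD F i₀)ᵀ = tvD F i₀ := by
  rw [tvD, Matrix.transpose_single]

theorem tvE_transpose_mul_J (i₀ : Fin m) : (tvE F i₀)ᵀ * Matrix.J (Fin m) F = -tvD F i₀ := by
  have h := congrArg Matrix.transpose (J_mul_tvE (F := F) i₀)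
  rw [Matrix.transpose_mul, Matrix.J_transpose, tvD_transpose, Matrix.mul_neg] at h
  rw [← h, neg_neg]

theorem tvD_mul_tvE (i₀ : Fin m) : tvD F i₀ * tvE F i₀ = 0 := by
  rw [tvD, tvE, Matrix.single_mul_single_of_ne]
  simp

theorem one_add_tvE_mem (i₀ : Fin m) : 1 + tvE F i₀ ∈ Matrix.symplecticGroup (Fin m) F := by
  rw [SymplecticGroup.mem_iff', Matrix.transpose_add, Matrix.transpose_one, Matrix.add_mul,
    Matrix.one_mul, tvE_transpose_mul_J, Matrix.add_mul, Matrix.mul_add, Matrix.mul_one, J_mul_tvE,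
    Matrix.mul_add, Matrix.mul_one, Matrix.neg_mul, tvD_mul_tvE]
  abel

/-- the symplectic transvection `1 + E_{ab}`. -/
def tvSp (F : Type*) [Field F] (i₀ : Fin m) : ↥(Matrix.symplecticGroup (Fin m) F) :=
  ⟨1 + tvE F i₀, one_add_tvE_mem i₀⟩

theorem tvSp_coe (i₀ : Fin m) : (tvSp F i₀).1 = 1 + tvE F i₀ := rfl

theorem rank_tvE (i₀ : Fin m) : (tvE F i₀).rank = 1 := by
  have h1 : LinearMap.range (tvE F i₀).mulVecLin =
      Submodule.span F {(Pi.single (Sum.inl i₀) 1 : Fin m ⊕ Fin m → F)} := by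
    ext y
    rw [Submodule.mem_span_singleton]
    constructor
    · rintro ⟨x, rfl⟩
      exact ⟨x (Sum.inr i₀), by rw [Matrix.mulVecLin_apply, tvE_mulVec]⟩
    · rintro ⟨c, rfl⟩
      refine ⟨c • Pi.single (Sum.inr i₀) 1, ?_⟩
      rw [Matrix.mulVecLin_apply, tvE_mulVec]
      simp
  unfold Matrix.rank
  rw [h1, finrank_span_singleton]
  intro h
  have := congrFun h (Sum.inl i₀)
  simp at this

theorem isTransvection_tvSp (i₀ : Fin m) : Cfsg.IsTransvection (tvSp F i₀).1 := by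
  rw [tvSp_coe, Cfsg.IsTransvection, add_sub_cancel_left]
  exact ⟨rank_tvE i₀, tvE_mul_tvE i₀⟩

theorem JD_bilin (i₀ : Fin m) (x y : Fin m ⊕ Fin m → F) :
    x ⬝ᵥ (Matrix.J (Fin m) F + tvD F i₀) *ᵥ y =
      x ⬝ᵥ Matrix.J (Fin m) F *ᵥ y + x (Sum.inr i₀) * y (Sum.inr i₀) := by
  rw [Matrix.add_mulVec, dotProduct_add, tvD_mulVec, dotProduct_smul, dotProduct_single_one,
    smul_eq_mul, mul_comm (y _)]

theorem J_bilin_single (i₀ : Fin m) (x : Fin m ⊕ Fin m → F) :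
    x ⬝ᵥ Matrix.J (Fin m) F *ᵥ Pi.single (Sum.inl i₀) 1 = x (Sum.inr i₀) := by
  rw [J_mulVec_single_inl, dotProduct_single_one]

theorem mul_self_inj_char_two [CharP F 2] {a b : F} (h : a * a = b * b) : a = b := by
  have h1 : (a + b) * (a + b) = 0 := by
    rw [CharTwo.add_mul_self, h, CharTwo.add_self_eq_zero]
  have h2 : a + b = 0 := mul_self_eq_zero.1 h1
  rw [← sub_eq_zero, CharTwo.sub_eq_add]
  exact h2

theorem J_mulVec_injective {v w : Fin m ⊕ Fin m → F}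
    (h : Matrix.J (Fin m) F *ᵥ v = Matrix.J (Fin m) F *ᵥ w) : v = w := by
  have h1 := congrArg (fun z => (-Matrix.J (Fin m) F) *ᵥ z) h
  simp only [Matrix.mulVec_mulVec, Matrix.neg_mul, Matrix.J_squared, neg_neg,
    Matrix.one_mulVec] at h1
  exact h1

theorem mem_range_cent_iff [CharP F 2] (i₀ : Fin m) (h : GL (Fin m ⊕ Fin m) F) :
    h ∈ ((spToGL m F).comp (Subgroup.centralizer {tvSp F i₀}).subtype).range ↔
      h.1ᵀ * (Matrix.J (Fin m) F + tvD F i₀) * h.1 = Matrix.J (Fin m) F + tvD F i₀ := by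
  have hinv : ∀ y, h.1 *ᵥ ((h⁻¹ : GL (Fin m ⊕ Fin m) F).1 *ᵥ y) = y := by
    intro y
    rw [Matrix.mulVec_mulVec, ← Units.val_mul, mul_inv_cancel, Units.val_one, Matrix.one_mulVec]
  have hinv' : ∀ y, (h⁻¹ : GL (Fin m ⊕ Fin m) F).1 *ᵥ (h.1 *ᵥ y) = y := by
    intro y
    rw [Matrix.mulVec_mulVec, ← Units.val_mul, inv_mul_cancel, Units.val_one, Matrix.one_mulVec]
  constructor
  · rintro ⟨⟨s, hs⟩, rfl⟩
    have hs' := Subgroup.mem_centralizer_singleton_iff.1 hs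
    have hJ : s.1ᵀ * Matrix.J (Fin m) F * s.1 = Matrix.J (Fin m) F := SymplecticGroup.mem_iff'.1 s.2
    have hJ' : ∀ x y, (s.1 *ᵥ x) ⬝ᵥ Matrix.J (Fin m) F *ᵥ (s.1 *ᵥ y) =
        x ⬝ᵥ Matrix.J (Fin m) F *ᵥ y := by
      intro x y
      rw [bilin_congr, hJ]
    have hE : s.1 * tvE F i₀ = tvE F i₀ * s.1 := by
      have h1 := congrArg Subtype.val hs'
      have h2 : s.1 * (1 + tvE F i₀) = (1 + tvE F i₀) * s.1 := h1
      rw [Matrix.mul_add, Matrix.add_mul, Matrix.mul_one, Matrix.one_mul] at h2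
      exact add_left_cancel h2
    have hE' : ∀ x : Fin m ⊕ Fin m → F, x (Sum.inr i₀) • (s.1 *ᵥ Pi.single (Sum.inl i₀) 1) =
        (s.1 *ᵥ x) (Sum.inr i₀) • (Pi.single (Sum.inl i₀) 1 : Fin m ⊕ Fin m → F) := by
      intro x
      have h1 := congrArg (fun M => M *ᵥ x) hE
      simp only [← Matrix.mulVec_mulVec, tvE_mulVec, Matrix.mulVec_smul] at h1
      exact h1
    set c := (s.1 *ᵥ Pi.single (Sum.inr i₀) 1) (Sum.inr i₀) with hc
    have hea : s.1 *ᵥ Pi.single (Sum.inl i₀) 1 = c • (Pi.single (Sum.inl i₀) 1 : Fin m ⊕ Fin m → F) := by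
      have := hE' (Pi.single (Sum.inr i₀) 1)
      rwa [Pi.single_eq_same, one_smul] at this
    have h1 : ∀ x : Fin m ⊕ Fin m → F, c * (s.1 *ᵥ x) (Sum.inr i₀) = x (Sum.inr i₀) := by
      intro x
      have := hJ' x (Pi.single (Sum.inl i₀) 1)
      rwa [hea, Matrix.mulVec_smul, dotProduct_smul, J_bilin_single, J_bilin_single,
        smul_eq_mul] at this
    have hcc : c * c = 1 := by
      have := h1 (Pi.single (Sum.inr i₀) 1)
      rwa [Pi.single_eq_same, ← hc] at this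
    have hc1 : c = 1 := sq_eq_one_char_two hcc
    have h2 : ∀ x : Fin m ⊕ Fin m → F, (s.1 *ᵥ x) (Sum.inr i₀) = x (Sum.inr i₀) := by
      intro x
      have := h1 x
      rwa [hc1, one_mul] at this
    apply matrix_eq_of_bilin
    intro x y
    change x ⬝ᵥ (s.1ᵀ * (Matrix.J (Fin m) F + tvD F i₀) * s.1) *ᵥ y = _
    rw [← bilin_congr, JD_bilin, JD_bilin, hJ', h2, h2]
  · intro hh
    have hB : ∀ x y, (h.1 *ᵥ x) ⬝ᵥ (Matrix.J (Fin m) F + tvD F i₀) *ᵥ (h.1 *ᵥ y) =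
        x ⬝ᵥ (Matrix.J (Fin m) F + tvD F i₀) *ᵥ y := by
      intro x y
      rw [bilin_congr, hh]
    have h1 : ∀ x : Fin m ⊕ Fin m → F, (h.1 *ᵥ x) (Sum.inr i₀) = x (Sum.inr i₀) := by
      intro x
      have := hB x x
      rw [JD_bilin, JD_bilin, J_alt, J_alt, zero_add, zero_add] at this
      exact mul_self_inj_char_two this
    have hJ' : ∀ x y, (h.1 *ᵥ x) ⬝ᵥ Matrix.J (Fin m) F *ᵥ (h.1 *ᵥ y) =
        x ⬝ᵥ Matrix.J (Fin m) F *ᵥ y := by
      intro x y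
      have := hB x y
      rw [JD_bilin, JD_bilin, h1, h1] at this
      exact add_right_cancel this
    have hJ : h.1ᵀ * Matrix.J (Fin m) F * h.1 = Matrix.J (Fin m) F := by
      apply matrix_eq_of_bilin
      intro x y
      rw [← bilin_congr, hJ']
    have hea : h.1 *ᵥ Pi.single (Sum.inl i₀) 1 = (Pi.single (Sum.inl i₀) 1 : Fin m ⊕ Fin m → F) := by
      apply J_mulVec_injective
      apply dotProduct_eq
      intro y
      rw [dotProduct_comm, dotProduct_comm _ y]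
      have h3 := hJ' ((h⁻¹ : GL (Fin m ⊕ Fin m) F).1 *ᵥ y) (Pi.single (Sum.inl i₀) 1)
      rw [hinv, J_bilin_single] at h3
      rw [h3, J_bilin_single, ← h1 ((h⁻¹ : GL (Fin m ⊕ Fin m) F).1 *ᵥ y), hinv]
    have hE : h.1 * tvE F i₀ = tvE F i₀ * h.1 := by
      apply Cfsg.Agent.Lib.Helper43.mulVec_ext
      intro x
      rw [← Matrix.mulVec_mulVec, ← Matrix.mulVec_mulVec, tvE_mulVec, tvE_mulVec, Matrix.mulVec_smul,
        hea, h1]
    refine ⟨⟨⟨h.1, SymplecticGroup.mem_iff'.2 hJ⟩, ?_⟩, Units.ext rfl⟩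
    apply Subgroup.mem_centralizer_singleton_iff.2
    apply Subtype.ext
    change h.1 * (1 + tvE F i₀) = (1 + tvE F i₀) * h.1
    rw [Matrix.mul_add, Matrix.add_mul, Matrix.mul_one, Matrix.one_mul, hE]

theorem reindex_bilin {ι : Type*} [Fintype ι] [DecidableEq ι] {n : ℕ} (e : ι ≃ Fin n)
    (M : Matrix ι ι F) (x y : Fin n → F) :
    x ⬝ᵥ (Matrix.reindex e e M) *ᵥ y = (x ∘ e) ⬝ᵥ M *ᵥ (y ∘ e) := by
  rw [Matrix.reindex_apply, Matrix.submatrix_mulVec_equiv, Equiv.symm_symm,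
    ← comp_equiv_symm_dotProduct, Equiv.symm_symm]

/-- the invertible matrix `J + D = J (1 + E)`. -/
noncomputable def JDGL (F : Type*) [Field F] (i₀ : Fin m) : GL (Fin m ⊕ Fin m) F :=
  JGL m F * spToGL m F (tvSp F i₀)

theorem JDGL_coe (i₀ : Fin m) : (JDGL F i₀).1 = Matrix.J (Fin m) F + tvD F i₀ := by
  rw [JDGL, Units.val_mul, JGL_coe, spToGL_coe, tvSp_coe, Matrix.mul_add, Matrix.mul_one, J_mul_tvE]

end Cfsg.Agent.Lib.Helper44
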