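import Cfsg.Agent.Lib.Helper44.InvolSp
import Cfsg.Agent.Lib.Helper44.InvolChar2

set_option autoImplicit false

namespace Cfsg.Agent.Lib.Helper44

open Module QuadraticMap Matrix

variable {F : Type*} [Field F] {ι : Type} [Fintype ι] [DecidableEq ι]

theorem isConj_subgroup_iff {G : Type*} [Group G] (H : Subgroup G) (a b : ↥H) :
    IsConj a b ↔ ∃ g ∈ H, g * (a : G) * g⁻¹ = b := by
  rw [isConj_iff]
  constructor
  · rintro ⟨c, hc⟩
    exact ⟨c, c.2, by rw [← hc]; rfl⟩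
  · rintro ⟨g, hg, h⟩
    exact ⟨⟨g, hg⟩, Subtype.ext h⟩

theorem card_invariant_set_even (M A : ℕ) :
    (((Finset.Ioc 0 M).filter (2 ∣ ·)).image (fun s => (s, false)) ∪
      ((Finset.Ioc 0 A).filter (2 ∣ ·)).image (fun s => (s, true))).card = M / 2 + A / 2 := by
  rw [Finset.card_union_of_disjoint, Finset.card_image_of_injective, Finset.card_image_of_injective,
    Nat.Ioc_filter_dvd_card_eq_div, Nat.Ioc_filter_dvd_card_eq_div]
  · intro a b h; exact (Prod.mk.inj h).1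
  · intro a b h; exact (Prod.mk.inj h).1
  · rw [Finset.disjoint_left]
    intro x hx hx'
    obtain ⟨a, -, rfl⟩ := Finset.mem_image.1 hx
    obtain ⟨b, -, hb⟩ := Finset.mem_image.1 hx'
    simp at hb

theorem nilRank_isoEquiv (Q : QuadraticForm F (ι → F)) (g : ↥(Cfsg.isometryGroup F ⇑Q)) :
    nilRank ((isoEquiv Q g : ↥(OQ Q)) : (ι → F) ≃ₗ[F] (ι → F))
      = (((g : GL ι F) : Matrix ι ι F) - 1).rank :=
  nilRank_glEquiv (g : GL ι F)

theorem orderOf_Omega_iff (Q : QuadraticForm F (ι → F)) (g : ↥(Cfsg.Omega F ⇑Q)) :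
    orderOf g = 2 ↔ (isoEquiv Q (g : ↥(Cfsg.isometryGroup F ⇑Q)) * isoEquiv Q g = 1 ∧
      isoEquiv Q (g : ↥(Cfsg.isometryGroup F ⇑Q)) ≠ 1) := by
  rw [orderOf_eq_prime_iff, pow_two, ← map_mul, map_eq_one_iff _ (isoEquiv Q).injective,
    map_ne_one_iff _ (isoEquiv Q).injective]
  constructor
  · rintro ⟨h1, h2⟩
    exact ⟨congrArg Subtype.val h1, fun h => h2 (Subtype.ext h)⟩
  · rintro ⟨h1, h2⟩
    exact ⟨Subtype.ext h1, fun h => h2 (congrArg Subtype.val h)⟩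

/-- the hypothesis that `Ω` consists of the elements with `g - 1` of even rank -/
def OmegaEvenRank (Q : QuadraticForm F (ι → F)) : Prop :=
  ∀ g : ↥(Cfsg.isometryGroup F ⇑Q),
    g ∈ Cfsg.Omega F ⇑Q ↔ Even (((g : GL ι F) : Matrix ι ι F) - 1).rank

theorem omegaEvenRank_of_generic [Fintype F] [CharP F 2] (Q : QuadraticForm F (ι → F))
    (hQ : (polarBilin Q).Nondegenerate) (h : Fintype.card F ≠ 2 ∨ Fintype.card ι ≠ 4) :
    OmegaEvenRank Q := mem_Omega_iff_even_rank Q hQ h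

theorem mul_reflElt_mem_Omega_iff (Q : QuadraticForm F (ι → F))
    (hQ : (polarBilin Q).Nondegenerate) (hΩ : OmegaEvenRank Q)
    (g : ↥(Cfsg.isometryGroup F ⇑Q)) {x : ι → F} (hx : Q x ≠ 0) :
    g * reflElt Q x ∈ Cfsg.Omega F ⇑Q ↔ g ∉ Cfsg.Omega F ⇑Q := by
  rw [hΩ, hΩ]
  have h1 := rank_sub_one_add_finrank_fixSp (g : GL ι F)
  have h2 := rank_sub_one_add_finrank_fixSp ((g * reflElt Q x : ↥(Cfsg.isometryGroup F ⇑Q)) : GL ι F)
  have h3 : glEquiv ((g * reflElt Q x : ↥(Cfsg.isometryGroup F ⇑Q)) : GL ι F)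
      = glEquiv (g : GL ι F) * refl Q x := by
    rw [Subgroup.coe_mul, map_mul]
    congr 1
    exact congrArg Subtype.val (isoEquiv_reflElt Q x)
  rw [h3] at h2
  have h4 := finrank_fixSp_mul_refl hQ (glEquiv_mem_OQ.2 g.2) hx
  rw [Nat.not_even_iff_odd, Nat.even_iff, Nat.odd_iff]
  omega

/-- if `t` fixes a non-singular vector, `O`-conjugates of `t` are `Ω`-conjugates. -/
theorem exists_conj_Omega_of_fixed' (Q : QuadraticForm F (ι → F))
    (hQ : (polarBilin Q).Nondegenerate) (hΩ : OmegaEvenRank Q)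
    (t s g : ↥(Cfsg.isometryGroup F ⇑Q)) (hg : g * t * g⁻¹ = s) (x : ι → F) (hx : Q x ≠ 0)
    (htx : ((t : GL ι F) : Matrix ι ι F) *ᵥ x = x) :
    ∃ g' ∈ Cfsg.Omega F ⇑Q, g' * t * g'⁻¹ = s := by
  by_cases hgO : g ∈ Cfsg.Omega F ⇑Q
  · exact ⟨g, hgO, hg⟩
  · refine ⟨g * reflElt Q x, (mul_reflElt_mem_Omega_iff Q hQ hΩ g hx).2 hgO, ?_⟩
    have hc := reflElt_commute_of_fixed Q t x htx
    have h1 : t * reflElt Q x = reflElt Q x * t := by
      rw [← mul_inv_eq_iff_eq_mul]; exact hc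
    have hc' : reflElt Q x * t * (reflElt Q x)⁻¹ = t := by
      rw [← h1, mul_assoc, mul_inv_cancel, mul_one]
    calc g * reflElt Q x * t * (g * reflElt Q x)⁻¹
        = g * (reflElt Q x * t * (reflElt Q x)⁻¹) * g⁻¹ := by group
      _ = s := by rw [hc', hg]

/-- two involutions of `O` with the same invariants, one of them fixing a non-singular vector, are
conjugate under `Ω`. -/
theorem exists_conj_Omega_of_invariants [Fintype F] [CharP F 2] (Q : QuadraticForm F (ι → F))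
    (hQ : (polarBilin Q).Nondegenerate) (hΩ : OmegaEvenRank Q)
    (t s : ↥(Cfsg.isometryGroup F ⇑Q)) (ht : isoEquiv Q t * isoEquiv Q t = 1)
    (hs : isoEquiv Q s * isoEquiv Q s = 1)
    (hr : nilRank ((isoEquiv Q t : ↥(OQ Q)) : (ι → F) ≃ₗ[F] (ι → F))
      = nilRank ((isoEquiv Q s : ↥(OQ Q)) : (ι → F) ≃ₗ[F] (ι → F)))
    (ha : IsAltInv Q (isoEquiv Q t : ↥(OQ Q)) ↔ IsAltInv Q (isoEquiv Q s : ↥(OQ Q)))
    (x : ι → F) (hx : Q x ≠ 0) (htx : ((t : GL ι F) : Matrix ι ι F) *ᵥ x = x) :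
    ∃ g ∈ Cfsg.Omega F ⇑Q, g * t * g⁻¹ = s := by
  have h1 := (isConj_OQ_iff hQ _ _ ht hs).2 ⟨hr, ha⟩
  rw [← isConj_mulEquiv_iff] at h1
  obtain ⟨g, hg⟩ := isConj_iff.1 h1
  exact exists_conj_Omega_of_fixed' Q hQ hΩ t s g hg x hx htx

theorem invariants_of_conj [Fintype F] [CharP F 2] (Q : QuadraticForm F (ι → F))
    (hQ : (polarBilin Q).Nondegenerate)
    (t s g : ↥(Cfsg.isometryGroup F ⇑Q)) (ht : isoEquiv Q t * isoEquiv Q t = 1)
    (hs : isoEquiv Q s * isoEquiv Q s = 1) (hg : g * t * g⁻¹ = s) :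
    nilRank ((isoEquiv Q t : ↥(OQ Q)) : (ι → F) ≃ₗ[F] (ι → F))
      = nilRank ((isoEquiv Q s : ↥(OQ Q)) : (ι → F) ≃ₗ[F] (ι → F)) ∧
    (IsAltInv Q (isoEquiv Q t : ↥(OQ Q)) ↔ IsAltInv Q (isoEquiv Q s : ↥(OQ Q))) := by
  apply (isConj_OQ_iff hQ _ _ ht hs).1
  rw [← isConj_mulEquiv_iff, isConj_iff]
  exact ⟨g, hg⟩

open Classical in
/-- class count in `Ω` when every involution fixes a non-singular vector -/
theorem card_involution_classes_Omega_nosplit [Fintype F] [CharP F 2] (Q : QuadraticForm F (ι → F))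
    (hQ : (polarBilin Q).Nondegenerate) (hΩ : OmegaEvenRank Q)
    (M A : ℕ) (hM : ∀ T ∈ OQ Q, T * T = 1 → nilRank T ≤ M)
    (hA : ∀ T ∈ OQ Q, T * T = 1 → IsAltInv Q T → nilRank T ≤ A)
    (hexN : ∀ s, 0 < s → s ≤ M → ∃ T ∈ OQ Q, T * T = 1 ∧ nilRank T = s ∧ ¬ IsAltInv Q T)
    (hexA : ∀ s, 0 < s → s ≤ A → 2 ∣ s → ∃ T ∈ OQ Q, T * T = 1 ∧ nilRank T = s ∧ IsAltInv Q T)
    (hns : ∀ t : ↥(Cfsg.isometryGroup F ⇑Q), isoEquiv Q t * isoEquiv Q t = 1 →
      ∃ x, Q x ≠ 0 ∧ ((t : GL ι F) : Matrix ι ι F) *ᵥ x = x) :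
    Nat.card {C : ConjClasses ↥(Cfsg.Omega F ⇑Q) // ∃ g, ConjClasses.mk g = C ∧ orderOf g = 2}
      = M / 2 + A / 2 := by
  rw [← card_invariant_set_even M A]
  apply card_conjClasses_of_invariant (G := ↥(Cfsg.Omega F ⇑Q)) (fun g => orderOf g = 2)
    (fun g => (nilRank ((isoEquiv Q (g : ↥(Cfsg.isometryGroup F ⇑Q)) : ↥(OQ Q)) :
        (ι → F) ≃ₗ[F] (ι → F)),
      decide (IsAltInv Q (isoEquiv Q (g : ↥(Cfsg.isometryGroup F ⇑Q)) : ↥(OQ Q)))))
  · intro a b ha hb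
    have ha' := ((orderOf_Omega_iff Q a).1 ha).1
    have hb' := ((orderOf_Omega_iff Q b).1 hb).1
    rw [isConj_subgroup_iff, Prod.mk.injEq, decide_eq_decide]
    constructor
    · rintro ⟨g, -, hg⟩
      exact invariants_of_conj Q hQ _ _ g ha' hb' hg
    · rintro ⟨hr, hal⟩
      obtain ⟨x, hx, hax⟩ := hns _ ha'
      exact exists_conj_Omega_of_invariants Q hQ hΩ _ _ ha' hb' hr hal x hx hax
  · intro g hg
    obtain ⟨h1, h2⟩ := (orderOf_Omega_iff Q g).1 hg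
    set T := isoEquiv Q (g : ↥(Cfsg.isometryGroup F ⇑Q)) with hT
    have h1' : (T : (ι → F) ≃ₗ[F] (ι → F)) * T = 1 := congrArg Subtype.val h1
    have h2' : (T : (ι → F) ≃ₗ[F] (ι → F)) ≠ 1 := fun h => h2 (Subtype.ext h)
    have heven : 2 ∣ nilRank (T : (ι → F) ≃ₗ[F] (ι → F)) := by
      rw [hT, nilRank_isoEquiv]
      exact ((hΩ _).1 g.2).two_dvd
    rw [Finset.mem_union]
    by_cases halt : IsAltInv Q T
    · right
      rw [Finset.mem_image]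
      refine ⟨nilRank (T : (ι → F) ≃ₗ[F] (ι → F)), ?_, by simp [halt]⟩
      rw [Finset.mem_filter, Finset.mem_Ioc]
      exact ⟨⟨nilRank_pos h2', hA _ T.2 h1' halt⟩, heven⟩
    · left
      rw [Finset.mem_image]
      refine ⟨nilRank (T : (ι → F) ≃ₗ[F] (ι → F)), ?_, by simp [halt]⟩
      rw [Finset.mem_filter, Finset.mem_Ioc]
      exact ⟨⟨nilRank_pos h2', hM _ T.2 h1'⟩, heven⟩
  · intro σ hσ
    have hmk : ∀ (T : (ι → F) ≃ₗ[F] (ι → F)) (hTH : T ∈ OQ Q), T * T = 1 → 0 < nilRank T →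
        2 ∣ nilRank T → ∃ g : ↥(Cfsg.Omega F ⇑Q), orderOf g = 2 ∧
          isoEquiv Q (g : ↥(Cfsg.isometryGroup F ⇑Q)) = ⟨T, hTH⟩ := by
      intro T hTH hT2 hpos h2
      have hmem : (isoEquiv Q).symm ⟨T, hTH⟩ ∈ Cfsg.Omega F ⇑Q := by
        rw [hΩ, ← nilRank_isoEquiv, MulEquiv.apply_symm_apply]
        exact even_iff_two_dvd.2 h2
      refine ⟨⟨_, hmem⟩, ?_, MulEquiv.apply_symm_apply _ _⟩
      rw [orderOf_Omega_iff, MulEquiv.apply_symm_apply]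
      refine ⟨Subtype.ext hT2, fun h => ?_⟩
      have : T = 1 := congrArg Subtype.val h
      rw [this, nilRank_one] at hpos
      omega
    rw [Finset.mem_union, Finset.mem_image, Finset.mem_image] at hσ
    rcases hσ with ⟨s, hs, rfl⟩ | ⟨s, hs, rfl⟩
    · rw [Finset.mem_filter, Finset.mem_Ioc] at hs
      obtain ⟨T, hTH, hT2, hTr, hTa⟩ := hexN s hs.1.1 hs.1.2
      obtain ⟨g, hg, hgT⟩ := hmk T hTH hT2 (by rw [hTr]; exact hs.1.1) (by rw [hTr]; exact hs.2)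
      exact ⟨g, hg, by simp [hgT, hTr, hTa]⟩
    · rw [Finset.mem_filter, Finset.mem_Ioc] at hs
      obtain ⟨T, hTH, hT2, hTr, hTa⟩ := hexA s hs.1.1 hs.1.2 hs.2
      obtain ⟨g, hg, hgT⟩ := hmk T hTH hT2 (by rw [hTr]; exact hs.1.1) (by rw [hTr]; exact hs.2)
      exact ⟨g, hg, by simp [hgT, hTr, hTa]⟩

/-- the image of `g - 1` -/
noncomputable def Wm {Q : QuadraticForm F (ι → F)} (g : ↥(Cfsg.isometryGroup F ⇑Q)) :
    Submodule F (ι → F) :=
  LinearMap.range (Matrix.mulVecLin (((g : GL ι F) : Matrix ι ι F) - 1))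

theorem sub_id_isoEquiv (Q : QuadraticForm F (ι → F)) (g : ↥(Cfsg.isometryGroup F ⇑Q)) :
    (((isoEquiv Q g : ↥(OQ Q)) : (ι → F) ≃ₗ[F] (ι → F)) : (ι → F) →ₗ[F] (ι → F)) - LinearMap.id
      = Matrix.mulVecLin (((g : GL ι F) : Matrix ι ι F) - 1) := by
  apply LinearMap.ext
  intro x
  simp [isoEquiv_apply]

theorem finrank_Wm (Q : QuadraticForm F (ι → F)) (g : ↥(Cfsg.isometryGroup F ⇑Q)) :
    finrank F (Wm g) = nilRank ((isoEquiv Q g : ↥(OQ Q)) : (ι → F) ≃ₗ[F] (ι → F)) := by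
  rw [nilRank, sub_id_isoEquiv]; rfl

theorem isAltInv_iff_Wm [CharP F 2] (Q : QuadraticForm F (ι → F))
    (g : ↥(Cfsg.isometryGroup F ⇑Q)) :
    IsAltInv Q (isoEquiv Q g : ↥(OQ Q)) ↔ ∀ u ∈ Wm g, Q u = 0 := by
  constructor
  · intro h
    have := Q_range_eq_zero_of_alt (isoEquiv Q g).2 h
    rw [sub_id_isoEquiv] at this
    exact this
  · intro h x
    set T := ((isoEquiv Q g : ↥(OQ Q)) : (ι → F) ≃ₗ[F] (ι → F)) with hT
    have h0 : Q (T x - x) = 0 := by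
      apply h
      refine ⟨x, ?_⟩
      rw [← sub_id_isoEquiv]
      simp [hT]
    have h1 : Q (T x) = Q (T x - x) + Q x + polar Q (T x - x) x := by
      rw [polar]; simp
    rw [h0, mem_OQ.1 (isoEquiv Q g).2, polar_sub_left, polar_self, two_nsmul,
      CharTwo.add_self_eq_zero, sub_zero, zero_add] at h1
    rw [polar_comm]
    have : Q x + polar Q (T x) x = Q x + 0 := by rw [add_zero]; exact h1.symm
    exact add_left_cancel this

theorem mem_Omega_iff_even_inf [Fintype F] [CharP F 2] (Q : QuadraticForm F (ι → F))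
    (hQ : (polarBilin Q).Nondegenerate) (h : Fintype.card F ≠ 2 ∨ Fintype.card ι ≠ 4)
    (t s g : ↥(Cfsg.isometryGroup F ⇑Q)) (hg : g * t * g⁻¹ = s) (hU : ∀ u ∈ Wm t, Q u = 0)
    (hdim : 2 * finrank F (Wm t) = Fintype.card ι) :
    g ∈ Cfsg.Omega F ⇑Q ↔ Even (finrank F (Wm t) + finrank F ↥(Wm t ⊓ Wm s)) := by
  obtain ⟨l, hl, hgl⟩ := exists_list_reflectionMatrix _ hQ h g
  rw [mem_Omega_iff_of_prod_char_two _ hQ h g l hl hgl]
  have h3 := even_finrank_inf_map_of_prod _ hQ hU hdim g l hl hgl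
  have h4 := range_conj (g : GL ι F) (t : GL ι F) (s : GL ι F) (by rw [← hg]; rfl)
  change Wm s = (Wm t).map _ at h4
  rw [← h4] at h3
  rw [Nat.even_add] at h3
  tauto

open Classical in
/-- class count in `Ω⁺`, `m` even: the class of type `a_m` splits -/
theorem card_involution_classes_Omega_split [Fintype F] [CharP F 2] (Q : QuadraticForm F (ι → F))
    (hQ : (polarBilin Q).Nondegenerate) (h : Fintype.card F ≠ 2 ∨ Fintype.card ι ≠ 4)
    (m : ℕ) (hcard : Fintype.card ι = 2 * m) (hme : Even m) (hm0 : 0 < m)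
    (hexN : ∀ s, 0 < s → s ≤ m → ∃ T ∈ OQ Q, T * T = 1 ∧ nilRank T = s ∧ ¬ IsAltInv Q T)
    (hexA : ∀ s, 0 < s → s ≤ m → 2 ∣ s → ∃ T ∈ OQ Q, T * T = 1 ∧ nilRank T = s ∧ IsAltInv Q T)
    (T3 : ∀ U W X : Submodule F (ι → F), (finrank F U = m ∧ ∀ w ∈ U, Q w = 0) →
      (finrank F W = m ∧ ∀ w ∈ W, Q w = 0) → (finrank F X = m ∧ ∀ w ∈ X, Q w = 0) →
      Even ((m - finrank F ↥(U ⊓ W)) + (m - finrank F ↥(W ⊓ X)) + (m - finrank F ↥(U ⊓ X)))) :
    Nat.card {C : ConjClasses ↥(Cfsg.Omega F ⇑Q) // ∃ g, ConjClasses.mk g = C ∧ orderOf g = 2}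
      = m / 2 + m / 2 + 1 := by
  have hΩ := omegaEvenRank_of_generic Q hQ h
  have hM : ∀ T ∈ OQ Q, T * T = 1 → nilRank T ≤ m := by
    intro T hT h2
    have := two_mul_nilRank_le hQ (OQ_le_SpL _ hT) h2
    rw [finrank_fintype_fun_eq_card, hcard] at this
    omega
  obtain ⟨T₁, hT₁, hT₁2, hT₁r, hT₁a⟩ := hexA m hm0 le_rfl hme.two_dvd
  set t₁ : ↥(Cfsg.isometryGroup F ⇑Q) := (isoEquiv Q).symm ⟨T₁, hT₁⟩ with ht₁def
  have ht₁ : isoEquiv Q t₁ = ⟨T₁, hT₁⟩ := MulEquiv.apply_symm_apply _ _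
  set U₀ := Wm t₁ with hU₀def
  have hsp : ∀ g : ↥(Cfsg.isometryGroup F ⇑Q),
      nilRank ((isoEquiv Q g : ↥(OQ Q)) : (ι → F) ≃ₗ[F] (ι → F)) = m →
      IsAltInv Q (isoEquiv Q g : ↥(OQ Q)) → (finrank F (Wm g) = m ∧ ∀ w ∈ Wm g, Q w = 0) :=
    fun g h1 h2 => ⟨by rw [finrank_Wm, h1], (isAltInv_iff_Wm Q g).1 h2⟩
  have hU₀ : finrank F U₀ = m ∧ ∀ w ∈ U₀, Q w = 0 :=
    hsp t₁ (by rw [ht₁]; exact hT₁r) (by rw [ht₁]; exact hT₁a)
  -- the parity lemma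
  have KP : ∀ a b : ↥(Cfsg.isometryGroup F ⇑Q), (finrank F (Wm a) = m ∧ ∀ w ∈ Wm a, Q w = 0) →
      (finrank F (Wm b) = m ∧ ∀ w ∈ Wm b, Q w = 0) →
      (Even (finrank F (Wm a) + finrank F ↥(Wm a ⊓ Wm b)) ↔
        (Odd (finrank F ↥(Wm a ⊓ U₀)) ↔ Odd (finrank F ↥(Wm b ⊓ U₀)))) := by
    intro a b ha hb
    have h1 := T3 _ _ _ ha hb hU₀
    have h2 : finrank F ↥(Wm a ⊓ Wm b) ≤ m := ha.1 ▸ Submodule.finrank_mono inf_le_left
    have h3 : finrank F ↥(Wm b ⊓ U₀) ≤ m := hb.1 ▸ Submodule.finrank_mono inf_le_left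
    have h4 : finrank F ↥(Wm a ⊓ U₀) ≤ m := ha.1 ▸ Submodule.finrank_mono inf_le_left
    rw [ha.1]
    rw [Nat.even_iff] at h1 hme ⊢
    rw [Nat.odd_iff, Nat.odd_iff]
    omega
  have hcardS : ((((Finset.Ioc 0 m).filter (2 ∣ ·)).image (fun s => (s, false)) ∪
      ((Finset.Ioc 0 m).filter (2 ∣ ·)).image (fun s => (s, true))).image (fun p => (p, false)) ∪
      {((m, true), true)}).card = m / 2 + m / 2 + 1 := by
    rw [Finset.card_union_of_disjoint, Finset.card_image_of_injective, card_invariant_set_even,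
      Finset.card_singleton]
    · intro a b hab; exact (Prod.mk.inj hab).1
    · rw [Finset.disjoint_singleton_right]
      intro hx
      obtain ⟨b, -, hb⟩ := Finset.mem_image.1 hx
      simp at hb
  rw [← hcardS]
  apply card_conjClasses_of_invariant (G := ↥(Cfsg.Omega F ⇑Q)) (fun g => orderOf g = 2)
    (fun g => ((nilRank ((isoEquiv Q (g : ↥(Cfsg.isometryGroup F ⇑Q)) : ↥(OQ Q)) :
        (ι → F) ≃ₗ[F] (ι → F)),
      decide (IsAltInv Q (isoEquiv Q (g : ↥(Cfsg.isometryGroup F ⇑Q)) : ↥(OQ Q)))),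
      decide (nilRank ((isoEquiv Q (g : ↥(Cfsg.isometryGroup F ⇑Q)) : ↥(OQ Q)) :
        (ι → F) ≃ₗ[F] (ι → F)) = m ∧
        IsAltInv Q (isoEquiv Q (g : ↥(Cfsg.isometryGroup F ⇑Q)) : ↥(OQ Q)) ∧
        Odd (finrank F ↥(Wm (g : ↥(Cfsg.isometryGroup F ⇑Q)) ⊓ U₀)))))
  · intro a b ha hb
    have ha' := ((orderOf_Omega_iff Q a).1 ha).1
    have hb' := ((orderOf_Omega_iff Q b).1 hb).1
    rw [isConj_subgroup_iff, Prod.mk.injEq, Prod.mk.injEq, decide_eq_decide, decide_eq_decide]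
    constructor
    · rintro ⟨g, hgO, hg⟩
      obtain ⟨hr, hal⟩ := invariants_of_conj Q hQ _ _ g ha' hb' hg
      refine ⟨⟨hr, hal⟩, ?_⟩
      rw [← hr, ← hal]
      constructor
      · rintro ⟨h1, h2, h3⟩
        have hA := hsp _ h1 h2
        have hB := hsp _ (hr ▸ h1) (hal.1 h2)
        refine ⟨h1, h2, ((KP _ _ hA hB).1 ?_).1 h3⟩
        exact (mem_Omega_iff_even_inf Q hQ h _ _ g hg hA.2 (by rw [hA.1, hcard])).1 hgO
      · rintro ⟨h1, h2, h3⟩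
        have hA := hsp _ h1 h2
        have hB := hsp _ (hr ▸ h1) (hal.1 h2)
        refine ⟨h1, h2, ((KP _ _ hA hB).1 ?_).2 h3⟩
        exact (mem_Omega_iff_even_inf Q hQ h _ _ g hg hA.2 (by rw [hA.1, hcard])).1 hgO
    · rintro ⟨⟨hr, hal⟩, hex⟩
      have hMa : (((a : ↥(Cfsg.isometryGroup F ⇑Q)) : GL ι F) : Matrix ι ι F)
          * (((a : ↥(Cfsg.isometryGroup F ⇑Q)) : GL ι F) : Matrix ι ι F) = 1 := by
        have h1 : (a : ↥(Cfsg.isometryGroup F ⇑Q)) * a = 1 := by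
          apply (isoEquiv Q).injective
          rw [map_mul, ha', map_one]
        have h2 := congrArg (fun g : ↥(Cfsg.isometryGroup F ⇑Q) => ((g : GL ι F) : Matrix ι ι F)) h1
        simpa using h2
      rcases involution_dichotomy Q hQ _ hMa with ⟨x, hx, hax⟩ | ⟨h1, h2⟩
      · exact exists_conj_Omega_of_invariants Q hQ hΩ _ _ ha' hb' hr hal x hx hax
      · have hAl : IsAltInv Q (isoEquiv Q (a : ↥(Cfsg.isometryGroup F ⇑Q)) : ↥(OQ Q)) :=
          (isAltInv_iff_Wm Q _).2 h2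
        have hRa : nilRank ((isoEquiv Q (a : ↥(Cfsg.isometryGroup F ⇑Q)) : ↥(OQ Q)) :
            (ι → F) ≃ₗ[F] (ι → F)) = m := by
          rw [nilRank_isoEquiv]; omega
        have hA := hsp _ hRa hAl
        have hB := hsp _ (hr ▸ hRa) (hal.1 hAl)
        have h3 := (isConj_OQ_iff hQ _ _ ha' hb').2 ⟨hr, hal⟩
        rw [← isConj_mulEquiv_iff] at h3
        obtain ⟨g, hg⟩ := isConj_iff.1 h3
        refine ⟨g, ?_, hg⟩
        rw [mem_Omega_iff_even_inf Q hQ h _ _ g hg hA.2 (by rw [hA.1, hcard]), KP _ _ hA hB]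
        have hRb := hr ▸ hRa
        have hAlb := hal.1 hAl
        constructor
        · intro ho; exact (hex.1 ⟨hRa, hAl, ho⟩).2.2
        · intro ho; exact (hex.2 ⟨hRb, hAlb, ho⟩).2.2
  · intro g hg
    obtain ⟨h1, h2⟩ := (orderOf_Omega_iff Q g).1 hg
    set T := isoEquiv Q (g : ↥(Cfsg.isometryGroup F ⇑Q)) with hT
    have h1' : (T : (ι → F) ≃ₗ[F] (ι → F)) * T = 1 := congrArg Subtype.val h1
    have h2' : (T : (ι → F) ≃ₗ[F] (ι → F)) ≠ 1 := fun h => h2 (Subtype.ext h)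
    have heven : 2 ∣ nilRank (T : (ι → F) ≃ₗ[F] (ι → F)) := by
      rw [hT, nilRank_isoEquiv]
      exact ((hΩ _).1 g.2).two_dvd
    rw [Finset.mem_union]
    by_cases hex : nilRank (T : (ι → F) ≃ₗ[F] (ι → F)) = m ∧ IsAltInv Q T ∧
        Odd (finrank F ↥(Wm (g : ↥(Cfsg.isometryGroup F ⇑Q)) ⊓ U₀))
    · right
      rw [Finset.mem_singleton]
      simp [hex.1, hex.2.1, hex.2.2]
    · left
      rw [Finset.mem_image]
      refine ⟨(nilRank (T : (ι → F) ≃ₗ[F] (ι → F)), decide (IsAltInv Q T)), ?_, by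
        rw [Prod.mk.injEq]; exact ⟨rfl, (decide_eq_false hex).symm⟩⟩
      rw [Finset.mem_union]
      by_cases halt : IsAltInv Q T
      · right
        rw [Finset.mem_image]
        refine ⟨nilRank (T : (ι → F) ≃ₗ[F] (ι → F)), ?_, by simp [halt]⟩
        rw [Finset.mem_filter, Finset.mem_Ioc]
        exact ⟨⟨nilRank_pos h2', hM _ T.2 h1'⟩, heven⟩
      · left
        rw [Finset.mem_image]
        refine ⟨nilRank (T : (ι → F) ≃ₗ[F] (ι → F)), ?_, by simp [halt]⟩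
        rw [Finset.mem_filter, Finset.mem_Ioc]
        exact ⟨⟨nilRank_pos h2', hM _ T.2 h1'⟩, heven⟩
  · intro σ hσ
    have hmk : ∀ (t : ↥(Cfsg.isometryGroup F ⇑Q)), isoEquiv Q t * isoEquiv Q t = 1 →
        0 < nilRank ((isoEquiv Q t : ↥(OQ Q)) : (ι → F) ≃ₗ[F] (ι → F)) →
        2 ∣ nilRank ((isoEquiv Q t : ↥(OQ Q)) : (ι → F) ≃ₗ[F] (ι → F)) →
        ∃ g : ↥(Cfsg.Omega F ⇑Q), orderOf g = 2 ∧ (g : ↥(Cfsg.isometryGroup F ⇑Q)) = t := by
      intro t hT2 hpos h2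
      have hmem : t ∈ Cfsg.Omega F ⇑Q := by
        rw [hΩ, ← nilRank_isoEquiv]
        exact even_iff_two_dvd.2 h2
      refine ⟨⟨_, hmem⟩, ?_, rfl⟩
      rw [orderOf_Omega_iff]
      refine ⟨hT2, fun h => ?_⟩
      rw [h] at hpos
      change 0 < nilRank (1 : (ι → F) ≃ₗ[F] (ι → F)) at hpos
      rw [nilRank_one] at hpos
      omega
    have ht₁2 : isoEquiv Q t₁ * isoEquiv Q t₁ = 1 := by rw [ht₁]; exact Subtype.ext hT₁2
    have ht₁r : nilRank ((isoEquiv Q t₁ : ↥(OQ Q)) : (ι → F) ≃ₗ[F] (ι → F)) = m := by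
      rw [ht₁]; exact hT₁r
    have ht₁a : IsAltInv Q (isoEquiv Q t₁ : ↥(OQ Q)) := by rw [ht₁]; exact hT₁a
    rw [Finset.mem_union, Finset.mem_image, Finset.mem_singleton] at hσ
    rcases hσ with ⟨p, hp, rfl⟩ | rfl
    · by_cases hpm : p = (m, true)
      · subst hpm
        obtain ⟨g, hg, hgt⟩ := hmk t₁ ht₁2 (by rw [ht₁r]; exact hm0) (by rw [ht₁r]; exact hme.two_dvd)
        refine ⟨g, hg, ?_⟩
        rw [hgt, Prod.mk.injEq, Prod.mk.injEq]
        refine ⟨⟨ht₁r, by simp [ht₁a]⟩, ?_⟩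
        rw [decide_eq_false_iff_not]
        rintro ⟨-, -, ho⟩
        rw [← hU₀def, inf_idem, hU₀.1] at ho
        exact (Nat.not_odd_iff_even.2 hme) ho
      · rw [Finset.mem_union, Finset.mem_image, Finset.mem_image] at hp
        rcases hp with ⟨s, hs, rfl⟩ | ⟨s, hs, rfl⟩
        · rw [Finset.mem_filter, Finset.mem_Ioc] at hs
          obtain ⟨T, hTH, hT2, hTr, hTa⟩ := hexN s hs.1.1 hs.1.2
          have hiso : isoEquiv Q ((isoEquiv Q).symm ⟨T, hTH⟩) = ⟨T, hTH⟩ :=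
            MulEquiv.apply_symm_apply _ _
          obtain ⟨g, hg, hgT⟩ := hmk ((isoEquiv Q).symm ⟨T, hTH⟩)
            (by rw [hiso]; exact Subtype.ext hT2)
            (by rw [hiso, hTr]; exact hs.1.1) (by rw [hiso, hTr]; exact hs.2)
          refine ⟨g, hg, ?_⟩
          rw [hgT, hiso]
          simp [hTr, hTa]
        · rw [Finset.mem_filter, Finset.mem_Ioc] at hs
          obtain ⟨T, hTH, hT2, hTr, hTa⟩ := hexA s hs.1.1 hs.1.2 hs.2
          have hiso : isoEquiv Q ((isoEquiv Q).symm ⟨T, hTH⟩) = ⟨T, hTH⟩ :=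
            MulEquiv.apply_symm_apply _ _
          obtain ⟨g, hg, hgT⟩ := hmk ((isoEquiv Q).symm ⟨T, hTH⟩)
            (by rw [hiso]; exact Subtype.ext hT2)
            (by rw [hiso, hTr]; exact hs.1.1) (by rw [hiso, hTr]; exact hs.2)
          refine ⟨g, hg, ?_⟩
          have hsm : s ≠ m := fun e => hpm (by rw [e])
          rw [hgT, hiso]
          simp [hTr, hTa, hsm]
    · -- the other class of type `a_m`
      obtain ⟨x, hx⟩ := exists_nonsingular hQ (by rw [finrank_fintype_fun_eq_card, hcard]; omega)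
      set t₂ := reflElt Q x * t₁ * (reflElt Q x)⁻¹ with ht₂
      have ht₂2 : isoEquiv Q t₂ * isoEquiv Q t₂ = 1 := by
        rw [← map_mul]
        have : t₂ * t₂ = reflElt Q x * (t₁ * t₁) * (reflElt Q x)⁻¹ := by rw [ht₂]; group
        have h11 : t₁ * t₁ = 1 := by
          apply (isoEquiv Q).injective
          rw [map_mul, ht₁2, map_one]
        rw [this, h11]; simp
      obtain ⟨hr, hal⟩ := invariants_of_conj Q hQ t₁ t₂ (reflElt Q x) ht₁2 ht₂2 rfl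
      obtain ⟨g, hg, hgt⟩ := hmk t₂ ht₂2 (by rw [← hr, ht₁r]; exact hm0)
        (by rw [← hr, ht₁r]; exact hme.two_dvd)
      refine ⟨g, hg, ?_⟩
      have hnot : reflElt Q x ∉ Cfsg.Omega F ⇑Q := by
        have := mul_reflElt_mem_Omega_iff Q hQ hΩ 1 hx
        rw [one_mul] at this
        intro hmem
        exact (this.1 hmem) (one_mem _)
      rw [mem_Omega_iff_even_inf Q hQ h t₁ t₂ _ rfl hU₀.2 (by rw [hU₀.1, hcard]), hU₀.1] at hnot
      have hodd : Odd (finrank F ↥(Wm t₂ ⊓ U₀)) := by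
        rw [inf_comm]
        rw [Nat.even_add] at hnot
        rw [← Nat.not_even_iff_odd]
        tauto
      rw [hgt, Prod.mk.injEq, Prod.mk.injEq]
      refine ⟨⟨by rw [← hr, ht₁r], by simp [hal.1 ht₁a]⟩, ?_⟩
      rw [decide_eq_true_iff]
      exact ⟨by rw [← hr, ht₁r], hal.1 ht₁a, hodd⟩

end Cfsg.Agent.Lib.Helper44
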