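import Mathlib
import Cfsg.Prelude.Def_JordanBlocks
import Cfsg.Agent.Lib.Helper43.JordanBlock
import Cfsg.Agent.Lib.Helper43.RegNilp
import Cfsg.Agent.Lib.Helper45.SimMat
import Cfsg.Agent.S0752

/-!
# Ranks of powers of nilpotent matrices, Jordan types
-/

set_option autoImplicit false

namespace Cfsg.Agent.Lib.Helper44

open Matrix Module Polynomial Cfsg.Agent.Lib.Helper43 Cfsg.Agent.Lib.Helper45

section rk

variable {F : Type*} [Field F]

/-- powers of a regular nilpotent matrix. -/
theorem rank_pow_of_reg {ι : Type*} [Fintype ι] [DecidableEq ι] (N : Matrix ι ι F)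
    (hN : N ^ Fintype.card ι = 0) (hr : N.rank = Fintype.card ι - 1) (k : ℕ) :
    (N ^ k).rank = Fintype.card ι - k := by
  set n := Fintype.card ι with hn
  rcases le_total n k with hk | hk
  · obtain ⟨j, rfl⟩ := Nat.exists_eq_add_of_le hk
    rw [pow_add, hN, zero_mul, rank_zero]
    omega
  · have h1 := finrank_ker_mulVecLin N
    have hker : finrank F (LinearMap.ker (Matrix.mulVecLin N)) ≤ 1 := by omega
    have hle : ∀ j, finrank F (LinearMap.ker (Matrix.mulVecLin (N ^ j))) ≤ j := by
      intro j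
      rw [mulVecLin_pow']
      refine (finrank_ker_pow_le _ j).trans ?_
      calc j * _ ≤ j * 1 := Nat.mul_le_mul_left _ hker
        _ = j := mul_one j
    have h2 := finrank_ker_mulVecLin (N ^ n)
    rw [hN, rank_zero, zero_add] at h2
    have h3 : finrank F (LinearMap.ker (Matrix.mulVecLin (N ^ n)))
        ≤ finrank F (LinearMap.ker (Matrix.mulVecLin (N ^ k)))
          + finrank F (LinearMap.ker (Matrix.mulVecLin (N ^ (n - k)))) := by
      have : N ^ n = N ^ (n - k) * N ^ k := by rw [← pow_add]; congr 1; omega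
      rw [this, Matrix.mulVecLin_mul]
      exact finrank_ker_comp_le _ _
    have h4 := hle (n - k)
    have h5 := hle k
    have h6 := finrank_ker_mulVecLin (N ^ k)
    rw [hN] at h3
    omega

theorem rank_fromBlocks_diag {ι κ : Type*} [Fintype ι] [Fintype κ] [DecidableEq ι] [DecidableEq κ]
    (A : Matrix ι ι F) (D : Matrix κ κ F) :
    (fromBlocks A 0 0 D).rank = A.rank + D.rank := by
  have h1 := finrank_ker_mulVecLin (fromBlocks A 0 0 D)
  have h2 := finrank_ker_mulVecLin A
  have h3 := finrank_ker_mulVecLin D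
  have h4 : finrank F (LinearMap.ker (Matrix.mulVecLin (fromBlocks A 0 0 D)))
      = finrank F (LinearMap.ker (Matrix.mulVecLin A))
        + finrank F (LinearMap.ker (Matrix.mulVecLin D)) := by
    rw [← Module.finrank_prod]
    apply LinearEquiv.finrank_eq
    have hm1 : ∀ z : LinearMap.ker (Matrix.mulVecLin (fromBlocks A 0 0 D)),
        z.1 ∘ Sum.inl ∈ LinearMap.ker (Matrix.mulVecLin A) := by
      intro z
      have hz := z.2
      rw [LinearMap.mem_ker, Matrix.mulVecLin_apply, fromBlocks_mulVec] at hz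
      rw [LinearMap.mem_ker, Matrix.mulVecLin_apply]
      funext i
      simpa using congrFun hz (Sum.inl i)
    have hm2 : ∀ z : LinearMap.ker (Matrix.mulVecLin (fromBlocks A 0 0 D)),
        z.1 ∘ Sum.inr ∈ LinearMap.ker (Matrix.mulVecLin D) := by
      intro z
      have hz := z.2
      rw [LinearMap.mem_ker, Matrix.mulVecLin_apply, fromBlocks_mulVec] at hz
      rw [LinearMap.mem_ker, Matrix.mulVecLin_apply]
      funext i
      simpa using congrFun hz (Sum.inr i)
    refine LinearEquiv.ofBijective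
      { toFun := fun z => (⟨z.1 ∘ Sum.inl, hm1 z⟩, ⟨z.1 ∘ Sum.inr, hm2 z⟩)
        map_add' := fun _ _ => rfl
        map_smul' := fun _ _ => rfl } ⟨?_, ?_⟩
    · intro z w h
      apply Subtype.ext
      have h1 := congrArg (fun p => p.1.1) h
      have h2 := congrArg (fun p => p.2.1) h
      funext i
      rcases i with i | i
      · exact congrFun h1 i
      · exact congrFun h2 i
    · rintro ⟨⟨x, hx⟩, ⟨y, hy⟩⟩
      rw [LinearMap.mem_ker, Matrix.mulVecLin_apply] at hx hy
      refine ⟨⟨Sum.elim x y, ?_⟩, rfl⟩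
      rw [LinearMap.mem_ker, Matrix.mulVecLin_apply, fromBlocks_mulVec]
      funext i
      rcases i with i | i
      · simp [hx]
      · simp [hy]
  rw [Fintype.card_sum] at h1
  omega

theorem blockDiagonal'_mulVec_apply {o : Type*} [Fintype o] [DecidableEq o] {m' : o → Type*}
    [∀ k, Fintype (m' k)] (M : ∀ k, Matrix (m' k) (m' k) F) (v : ((k : o) × m' k) → F) (k : o)
    (i : m' k) : (blockDiagonal' M *ᵥ v) ⟨k, i⟩ = (M k *ᵥ fun j => v ⟨k, j⟩) i := by
  simp only [mulVec, dotProduct, Fintype.sum_sigma]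
  rw [Finset.sum_eq_single k]
  · simp [blockDiagonal'_apply_eq]
  · intro b _ hb
    apply Finset.sum_eq_zero
    intro j _
    rw [blockDiagonal'_apply_ne _ _ _ (Ne.symm hb), zero_mul]
  · simp

theorem rank_blockDiagonal' {o : Type*} [Fintype o] [DecidableEq o] {m' : o → Type*}
    [∀ k, Fintype (m' k)] [∀ k, DecidableEq (m' k)] (M : ∀ k, Matrix (m' k) (m' k) F) :
    (blockDiagonal' M).rank = ∑ k, (M k).rank := by
  have h1 := finrank_ker_mulVecLin (blockDiagonal' M)
  have h2 : ∀ k, (M k).rank + finrank F (LinearMap.ker (Matrix.mulVecLin (M k)))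
      = Fintype.card (m' k) := fun k => finrank_ker_mulVecLin (M k)
  have h4 : finrank F (LinearMap.ker (Matrix.mulVecLin (blockDiagonal' M)))
      = ∑ k, finrank F (LinearMap.ker (Matrix.mulVecLin (M k))) := by
    rw [← Module.finrank_pi_fintype]
    apply LinearEquiv.finrank_eq
    have hm : ∀ (z : LinearMap.ker (Matrix.mulVecLin (blockDiagonal' M))) (k : o),
        (fun j => z.1 ⟨k, j⟩) ∈ LinearMap.ker (Matrix.mulVecLin (M k)) := by
      intro z k
      have hz := z.2
      rw [LinearMap.mem_ker, Matrix.mulVecLin_apply] at hz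
      rw [LinearMap.mem_ker, Matrix.mulVecLin_apply]
      funext i
      rw [← blockDiagonal'_mulVec_apply, hz]
      rfl
    refine LinearEquiv.ofBijective
      { toFun := fun z k => ⟨fun j => z.1 ⟨k, j⟩, hm z k⟩
        map_add' := fun _ _ => rfl
        map_smul' := fun _ _ => rfl } ⟨?_, ?_⟩
    · intro z w h
      apply Subtype.ext
      funext ⟨k, j⟩
      exact congrFun (congrArg Subtype.val (congrFun h k)) j
    · intro y
      refine ⟨⟨fun x => (y x.1).1 x.2, ?_⟩, rfl⟩
      rw [LinearMap.mem_ker, Matrix.mulVecLin_apply]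
      funext ⟨k, i⟩
      rw [blockDiagonal'_mulVec_apply]
      have := (y k).2
      rw [LinearMap.mem_ker, Matrix.mulVecLin_apply] at this
      exact congrFun this i
  rw [Fintype.card_sigma, ← Finset.sum_congr rfl (fun k _ => h2 k), Finset.sum_add_distrib, h4] at h1
  omega

theorem rank_jordanBlock_sub_one_pow (n k : ℕ) :
    ((Cfsg.jordanBlock n F - 1) ^ k).rank = n - k := by
  have := rank_pow_of_reg (Cfsg.jordanBlock n F - 1) (by
    rw [Fintype.card_fin]; exact jordanBlock_sub_one_pow n F) (by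
    rw [Fintype.card_fin]; exact rank_jordanBlock_sub_one n F) k
  rwa [Fintype.card_fin] at this

theorem jordanType_sub_one_pow {t : ℕ} (d : Fin t → ℕ) (k : ℕ) :
    (Cfsg.jordanTypeMatrix d F - 1) ^ k
      = blockDiagonal' fun i => (Cfsg.jordanBlock (d i) F - 1) ^ k := by
  have h1 : Cfsg.jordanTypeMatrix d F - 1
      = blockDiagonal' fun i => (Cfsg.jordanBlock (d i) F - 1) := by
    rw [Cfsg.jordanTypeMatrix, ← blockDiagonal'_one, ← blockDiagonal'_sub]
    rfl
  rw [h1, ← blockDiagonal'_pow]
  rfl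

theorem rank_jordanType_sub_one_pow {t : ℕ} (d : Fin t → ℕ) (k : ℕ) :
    ((Cfsg.jordanTypeMatrix d F - 1) ^ k).rank = ∑ i, (d i - k) := by
  rw [jordanType_sub_one_pow, rank_blockDiagonal']
  exact Finset.sum_congr rfl fun i _ => rank_jordanBlock_sub_one_pow _ _

end rk

/-- the multiplicity of a block size from the rank function. -/
theorem rankFun_identity {t : ℕ} (d : Fin t → ℕ) (j : ℕ) (hj : 1 ≤ j) :
    ∑ i, (d i - (j - 1)) + ∑ i, (d i - (j + 1))
      = 2 * ∑ i, (d i - j) + (Finset.univ.filter (fun k : Fin t => d k = j)).card := by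
  rw [Finset.card_filter, Finset.mul_sum, ← Finset.sum_add_distrib, ← Finset.sum_add_distrib]
  refine Finset.sum_congr rfl fun i _ => ?_
  split_ifs <;> omega

end Cfsg.Agent.Lib.Helper44
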