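import Cfsg.Agent.Lib.Helper44.NsPoint
import Cfsg.Agent.Lib.Helper42.Sp8.TM1
import Cfsg.Agent.Lib.Helper42.Sp8.TM2
import Cfsg.Agent.Lib.Helper42.Sp8.GRP
import Cfsg.Prelude.Def_GeometricClasses

/-!
# Fixed nonsingular points: the elliptic form, `q` even
-/

set_option autoImplicit false

namespace Cfsg.Agent.Lib.Helper44

open Module QuadraticMap Matrix Cfsg.Agent.Lib.Helper38.QCnt Cfsg.Agent.Lib.Helper42.Sp8

variable {F : Type*} [Field F]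

theorem scalar_iso_eq_one' [CharP F 2] {ι : Type} [Fintype ι] [DecidableEq ι]
    (Q : QuadraticForm F (ι → F)) {v₀ : ι → F} (hv₀ : Q v₀ ≠ 0) {T : Matrix ι ι F}
    (hT : ∀ v, Q (T *ᵥ v) = Q v) {z : F} (hz : T = z • 1) : T = 1 := by
  have h1 := hT v₀
  rw [hz, smul_mulVec, one_mulVec, QuadraticMap.map_smul, smul_eq_mul] at h1
  have h2 : z * z = 1 := by
    have : z * z * Q v₀ = 1 * Q v₀ := by rw [one_mul]; exact h1
    exact mul_right_cancel₀ hv₀ this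
  rw [hz, eq_one_of_mul_self_eq_one h2, one_smul]

theorem card_ones_minus [Fintype F] (k : ℕ) {a b : F}
    (hab : ∀ z₁ z₂ : F, z₁ ^ 2 + a * z₁ * z₂ + b * z₂ ^ 2 = 0 → z₁ = 0 ∧ z₂ = 0) :
    Nat.card {v : (Fin k ⊕ Fin k) ⊕ Fin 2 → F // minusQF k F a b v = 1}
      = Fintype.card F ^ k * (Fintype.card F ^ (k + 1) + 1) := by
  have hι : Fintype.card ((Fin k ⊕ Fin k) ⊕ Fin 2) = 2 * (k + 1) := by
    simp only [Fintype.card_sum, Fintype.card_fin]; omega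
  have h1 := cnt_total ⇑(minusQF k F a b) (unif_of_nondeg hι _ (minusQF_nondeg k F hab))
  have h2 := Cfsg.Agent.Lib.Helper5.card_zeros_minus k a b hab
  rw [← minusQF_coe] at h2
  rw [hι] at h1
  unfold cnt at h1
  generalize Nat.card {v : (Fin k ⊕ Fin k) ⊕ Fin 2 → F // minusQF k F a b v = 1} = N at h1 ⊢
  generalize Nat.card {v : (Fin k ⊕ Fin k) ⊕ Fin 2 → F // minusQF k F a b v = 0} = z at h1 h2
  obtain ⟨t, ht⟩ : ∃ t, Fintype.card F = t + 2 := ⟨Fintype.card F - 2, by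
    have := Fintype.one_lt_card (α := F); omega⟩
  rw [ht] at h1 h2 ⊢
  have e1 : t + 2 - 1 = t + 1 := by omega
  rw [e1] at h1
  apply Nat.eq_of_mul_eq_mul_left (Nat.succ_pos t)
  have e2 : (t + 2) ^ (2 * (k + 1)) = (t + 2) * (t + 2) ^ (2 * k + 1) := by
    rw [← pow_succ']; congr 1
  have e3 : (t + 2) ^ (k + 1) = (t + 2) * (t + 2) ^ k := by rw [pow_succ']
  have e4 : (t + 2) ^ (2 * k + 1) = (t + 2) ^ k * (t + 2) ^ (k + 1) := by
    rw [← pow_add]; congr 1; omega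
  rw [Nat.succ_eq_add_one]
  have e5 : (t + 1) * ((t + 2) ^ k * ((t + 2) ^ (k + 1) + 1))
      = (t + 1) * (t + 2) ^ (2 * k + 1) + (t + 1) * (t + 2) ^ k := by rw [e4]; ring
  rw [e5]
  rw [e2] at h1
  rw [e3] at h2
  generalize (t + 2) ^ (2 * k + 1) = A at *
  generalize (t + 2) ^ k = B at *
  have e6 : (t + 2) * A = (t + 1) * A + A := by ring
  have e7 : (t + 2) * B = (t + 1) * B + B := by ring
  rw [e6] at h1
  rw [e7] at h2
  omega

theorem ns_minus_aux [Fintype F] [CharP F 2] (k : ℕ) (hd : 4 ≤ k + 1) (a b : F)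
    (hab : ∀ x y : F, x ^ 2 + a * x * y + b * y ^ 2 = 0 → x = 0 ∧ y = 0) (r : ℕ) [Fact r.Prime] :
    r ∣ Nat.card {W : Submodule F ((Fin k ⊕ Fin k) ⊕ Fin 2 → F) //
      finrank F ↥W = 1 ∧ ∃ v ∈ W, minusQF k F a b v ≠ 0} →
    ((∀ x : GL ((Fin k ⊕ Fin k) ⊕ Fin 2) F,
      x ∈ Cfsg.Geo.omegaGL ⇑(minusQF k F a b) →
      (∃ z : F, ((x ^ r : GL ((Fin k ⊕ Fin k) ⊕ Fin 2) F) :
        Matrix ((Fin k ⊕ Fin k) ⊕ Fin 2) ((Fin k ⊕ Fin k) ⊕ Fin 2) F)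
        = z • (1 : Matrix ((Fin k ⊕ Fin k) ⊕ Fin 2)
          ((Fin k ⊕ Fin k) ⊕ Fin 2) F)) →
      (∀ z : F, (x : Matrix ((Fin k ⊕ Fin k) ⊕ Fin 2)
          ((Fin k ⊕ Fin k) ⊕ Fin 2) F)
        ≠ z • (1 : Matrix ((Fin k ⊕ Fin k) ⊕ Fin 2)
          ((Fin k ⊕ Fin k) ⊕ Fin 2) F)) →
      ∃ W : Submodule F ((Fin k ⊕ Fin k) ⊕ Fin 2 → F),
        (finrank F ↥W = 1 ∧ ∃ v ∈ W, minusQF k F a b v ≠ 0) ∧
        W.map (Matrix.toLin' (x : Matrix ((Fin k ⊕ Fin k) ⊕ Fin 2)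
          ((Fin k ⊕ Fin k) ⊕ Fin 2) F)) ≤ W) ↔ r = 2) := by
  intro hrΩ
  set Q := minusQF k F a b with hQdef
  have hQ : (polarBilin Q).Nondegenerate := minusQF_nondeg k F hab
  have hcardι : Fintype.card ((Fin k ⊕ Fin k) ⊕ Fin 2) = 2 * (k + 1) := by
    simp only [Fintype.card_sum, Fintype.card_fin]; omega
  have hgen : Fintype.card F ≠ 2 ∨ Fintype.card ((Fin k ⊕ Fin k) ⊕ Fin 2) ≠ 4 := by
    right; rw [hcardι]; omega
  have hiso : ∀ g : ↥(Cfsg.isometryGroup F ⇑Q), ∀ v, Q (g.1.1 *ᵥ v) = Q v :=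
    fun g v => g.2 v v
  obtain ⟨v₀, hv₀⟩ : ∃ v₀, Q v₀ ≠ 0 := by
    refine ⟨Pi.single (Sum.inr 0) 1, ?_⟩
    rw [hQdef, minusQF_apply]
    simp
  constructor
  · intro H
    by_contra hne
    have hrp : r.Prime := Fact.out
    have hrodd : Odd r := hrp.odd_of_ne_two hne
    rw [card_nonsingular_points, hQdef, card_ones_minus k hab] at hrΩ
    have hrq : ¬ r ∣ Fintype.card F := by
      intro hdvd
      obtain ⟨n, -, hn⟩ := FiniteField.card F 2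
      rw [hn] at hdvd
      exact hne ((Nat.prime_dvd_prime_iff_eq hrp Nat.prime_two).1 (hrp.dvd_of_dvd_pow hdvd))
    have h3 : r ∣ Fintype.card F ^ (k + 1) + 1 := by
      rcases hrp.dvd_mul.1 hrΩ with h | h
      · exact absurd (hrp.dvd_of_dvd_pow h) hrq
      · exact h
    obtain ⟨Q', X, hQ', hX, hXk, hXfix⟩ := minus_torus_raw (F := F) (k + 1) (Nat.succ_pos k)
    obtain ⟨t, ht⟩ := h3
    have hMr : (X ^ t) ^ r = 1 := by
      rw [← pow_mul, hXk, mul_comm, ← ht]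
    have hM1 : X ^ t ≠ 1 := by
      intro h
      have h1 := (hXk t).1 h
      rw [ht] at h1
      have ht0 : 0 < t := by
        rcases Nat.eq_zero_or_pos t with h0 | h0
        · rw [h0, mul_zero] at ht; omega
        · exact h0
      have h2 := Nat.le_of_dvd ht0 h1
      have h3 := hrp.two_le
      nlinarith
    have hι' : Fintype.card (Fin (2 * (k + 1))) = 2 * (k + 1) := by simp
    have hMiso := TM2_pow_iso Q' X hX t
    have hneg := TM2_exc_neg hι' Q' hQ' (X ^ t) (r := r) ⟨t, ht⟩ hMiso hMr (hXfix t hM1)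
    have hI := isoM_minus_of_neg hι' Q' hQ' hneg hab
    obtain ⟨g, P, N, hPN, hNP, hg⟩ := GRP_transport Q' _ hI (X ^ t) hMiso r hrp.pos hMr
    have hg1 : g.1.1 = N * X ^ t * P := by
      have := hg 1
      rwa [pow_one, pow_one] at this
    have hgr : g ^ r = 1 := by
      apply Subtype.ext
      apply Units.ext
      rw [hg r, hMr, Matrix.mul_one, hNP]
      rfl
    have hnofix : ∀ v, g.1.1 *ᵥ v = v → v = 0 := by
      intro v hv
      have h4 : (X ^ t) *ᵥ (P *ᵥ v) = P *ᵥ v := by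
        have := congrArg (fun w => P *ᵥ w) hv
        simp only [hg1, mulVec_mulVec] at this
        have e : P * (N * X ^ t * P) = (P * N) * X ^ t * P := by simp only [Matrix.mul_assoc]
        rw [e, hPN, Matrix.one_mul] at this
        rw [mulVec_mulVec]
        exact this
      have h5 := hXfix t hM1 _ h4
      calc v = (N * P) *ᵥ v := by rw [hNP, one_mulVec]
        _ = 0 := by rw [← mulVec_mulVec, h5, mulVec_zero]
    have hW := H g.1 ⟨g, mem_Omega_of_odd_order Q hQ hgen _ hrodd hgr, rfl⟩ ⟨1, by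
        have : (g.1 ^ r : GL ((Fin k ⊕ Fin k) ⊕ Fin 2) F) = 1 := congrArg Subtype.val hgr
        rw [this]; simp⟩ (by
        intro z hz
        have h7 := scalar_iso_eq_one' Q hv₀ (hiso g) hz
        have h8 := hnofix v₀ (by rw [h7, one_mulVec])
        rw [h8, map_zero] at hv₀
        exact hv₀ rfl)
    obtain ⟨v, hv, hxv⟩ := (fixes_point_iff Q g.1.1 (hiso g)).1 hW
    rw [hnofix v hxv, map_zero] at hv
    exact hv rfl
  · rintro rfl x ⟨g, -, rfl⟩ ⟨z, hz⟩ -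
    apply (fixes_point_iff Q g.1.1 (hiso g)).2
    have hTT : g.1.1 * g.1.1 = 1 := by
      have h1 : (((g * g : ↥(Cfsg.isometryGroup F ⇑Q)) : GL ((Fin k ⊕ Fin k) ⊕ Fin 2) F) :
          Matrix ((Fin k ⊕ Fin k) ⊕ Fin 2) ((Fin k ⊕ Fin k) ⊕ Fin 2) F) = z • 1 := by
        rw [← hz, _root_.sq]; rfl
      exact scalar_iso_eq_one' Q hv₀ (hiso (g * g)) h1
    have hNN : (g.1.1 - 1) * (g.1.1 - 1) = 0 := by
      have : (g.1.1 - 1) * (g.1.1 - 1) = (g.1.1 * g.1.1 + 1) - (g.1.1 + g.1.1) := by noncomm_ring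
      rw [this, hTT]
      ext i j
      simp [CharTwo.add_self_eq_zero]
    by_cases hna : ∃ v, Q ((g.1.1 - 1) *ᵥ v) ≠ 0
    · obtain ⟨v, hv⟩ := hna
      refine ⟨_, hv, ?_⟩
      have h0 : (g.1.1 - 1) *ᵥ ((g.1.1 - 1) *ᵥ v) = 0 := by
        rw [mulVec_mulVec, hNN, zero_mulVec]
      rw [sub_mulVec, one_mulVec] at h0
      exact sub_eq_zero.1 h0
    · push Not at hna
      apply exists_fixed_nonsingular_of_rank_lt Q hQ
      rw [hcardι]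
      have h1 := minus_finrank_sing_le hab
        (LinearMap.range (Matrix.mulVecLin (g.1.1 - 1))) (by
          rintro _ ⟨v, rfl⟩
          exact hna v)
      have h2 : (g.1.1 - 1).rank ≤ k := h1
      omega

theorem ns_minus_main [Fintype F] [CharP F 2] (d : ℕ) (hd : 4 ≤ d) (a b : F)
    (hab : ∀ x y : F, x ^ 2 + a * x * y + b * y ^ 2 = 0 → x = 0 ∧ y = 0) (r : ℕ) [Fact r.Prime] :
    r ∣ Nat.card {W : Submodule F ((Fin (d - 1) ⊕ Fin (d - 1)) ⊕ Fin 2 → F) //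
      finrank F ↥W = 1 ∧ ∃ v ∈ W, minusQF (d - 1) F a b v ≠ 0} →
    ((∀ x : GL ((Fin (d - 1) ⊕ Fin (d - 1)) ⊕ Fin 2) F,
      x ∈ Cfsg.Geo.omegaGL ⇑(minusQF (d - 1) F a b) →
      (∃ z : F, ((x ^ r : GL ((Fin (d - 1) ⊕ Fin (d - 1)) ⊕ Fin 2) F) :
        Matrix ((Fin (d - 1) ⊕ Fin (d - 1)) ⊕ Fin 2) ((Fin (d - 1) ⊕ Fin (d - 1)) ⊕ Fin 2) F)
        = z • (1 : Matrix ((Fin (d - 1) ⊕ Fin (d - 1)) ⊕ Fin 2)
          ((Fin (d - 1) ⊕ Fin (d - 1)) ⊕ Fin 2) F)) →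
      (∀ z : F, (x : Matrix ((Fin (d - 1) ⊕ Fin (d - 1)) ⊕ Fin 2)
          ((Fin (d - 1) ⊕ Fin (d - 1)) ⊕ Fin 2) F)
        ≠ z • (1 : Matrix ((Fin (d - 1) ⊕ Fin (d - 1)) ⊕ Fin 2)
          ((Fin (d - 1) ⊕ Fin (d - 1)) ⊕ Fin 2) F)) →
      ∃ W : Submodule F ((Fin (d - 1) ⊕ Fin (d - 1)) ⊕ Fin 2 → F),
        (finrank F ↥W = 1 ∧ ∃ v ∈ W, minusQF (d - 1) F a b v ≠ 0) ∧
        W.map (Matrix.toLin' (x : Matrix ((Fin (d - 1) ⊕ Fin (d - 1)) ⊕ Fin 2)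
          ((Fin (d - 1) ⊕ Fin (d - 1)) ⊕ Fin 2) F)) ≤ W) ↔ r = 2) := by
  obtain ⟨k, rfl⟩ : ∃ k, d = k + 1 := ⟨d - 1, by omega⟩
  exact ns_minus_aux k hd a b hab r

end Cfsg.Agent.Lib.Helper44
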