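import Cfsg.Agent.Lib.Helper44.SpQuad2
import Cfsg.Agent.Lib.Helper44.NsPlus
import Cfsg.Agent.Lib.Helper42.Sp8.TM1
import Cfsg.Agent.Lib.Helper42.Sp8.TM2
import Cfsg.Agent.Lib.Helper44.SpConj

set_option autoImplicit false

namespace Cfsg.Agent.Lib.Helper44

open Module QuadraticMap Matrix Cfsg.Agent.Lib.Helper43.PO Cfsg.Agent.Lib.Helper38.QCnt
  Cfsg.Agent.Lib.Helper42.Sp8

variable {F : Type*} [Field F]

theorem exists_linearEquiv_of_matrix_pow {κ : Type} [Fintype κ] [DecidableEq κ]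
    (X : Matrix κ κ F) {r : ℕ} (hr : 0 < r) (hX : X ^ r = 1) :
    ∃ T : (κ → F) ≃ₗ[F] (κ → F), (∀ v, T v = X *ᵥ v) ∧ T ^ r = 1 := by
  have h1 : X * X ^ (r - 1) = 1 := by rw [← pow_succ', Nat.sub_add_cancel hr, hX]
  have h2 : X ^ (r - 1) * X = 1 := by rw [← pow_succ, Nat.sub_add_cancel hr, hX]
  let x : GL κ F := ⟨X, X ^ (r - 1), h1, h2⟩
  refine ⟨glEquiv x, fun v => glEquiv_apply x v, ?_⟩
  rw [← map_pow]
  have : x ^ r = 1 := by
    apply Units.ext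
    rw [Units.val_pow_eq_pow_val]
    exact hX
  rw [this, map_one]

theorem exists_matrix_of_linearEquiv {κ : Type} [Fintype κ] [DecidableEq κ]
    (T : (κ → F) ≃ₗ[F] (κ → F)) {r : ℕ} (hT : T ^ r = 1) :
    ∃ M : Matrix κ κ F, (∀ v, M *ᵥ v = T v) ∧ M ^ r = 1 := by
  refine ⟨((glEquiv.symm T : GL κ F) : Matrix κ κ F), fun v => ?_, ?_⟩
  · rw [← glEquiv_apply, MulEquiv.apply_symm_apply]
  · rw [← Units.val_pow_eq_pow_val, ← map_pow, hT, map_one, Units.val_one]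

theorem exists_fpf_SpL_of_dvd_sub [Fintype F] [CharP F 2] (d r : ℕ) (hd : 1 ≤ d) [Fact r.Prime]
    (hr : r ∣ Fintype.card F ^ d - 1) :
    ∃ T ∈ SpL (plusQF d F), T ^ r = 1 ∧ ∀ v, T v = v → v = 0 := by
  have hrp : r.Prime := Fact.out
  obtain ⟨g, h, hgh, hhg, hgr, hhr, hu⟩ := exists_fpf_matrix (F := F) 2 d r hd hr
  have hXr : (fromBlocks g 0 0 hᵀ) ^ r = 1 := by
    rw [fromBlocks_diag_pow, hgr, ← transpose_pow, hhr, transpose_one, fromBlocks_one]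
  obtain ⟨T, hT, hTr⟩ := exists_linearEquiv_of_matrix_pow _ hrp.pos hXr
  refine ⟨T, OQ_le_SpL _ (fun v => by rw [hT]; exact plus_blockDiag_iso g h hhg v), hTr, ?_⟩
  intro v hv
  rw [hT] at hv
  obtain ⟨⟨u, u', hu1, hu2⟩, hu0⟩ := hu
  simp only at hu0
  have h4 : g *ᵥ (v ∘ Sum.inl) = v ∘ Sum.inl := by
    have := congrArg (fun w => w ∘ Sum.inl) hv
    simp only [fromBlocks_mulVec, zero_mulVec, add_zero, Sum.elim_comp_inl] at this
    exact this
  have h4' : hᵀ *ᵥ (v ∘ Sum.inr) = v ∘ Sum.inr := by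
    have := congrArg (fun w => w ∘ Sum.inr) hv
    simp only [fromBlocks_mulVec, zero_mulVec, zero_add, Sum.elim_comp_inr] at this
    exact this
  have h5 : (g - 1) *ᵥ (v ∘ Sum.inl) = 0 := by
    rw [sub_mulVec, one_mulVec, h4, sub_self]
  have h6 : v ∘ Sum.inl = 0 := by
    calc v ∘ Sum.inl = (u' * u) *ᵥ (v ∘ Sum.inl) := by rw [hu2, one_mulVec]
      _ = 0 := by rw [← mulVec_mulVec, hu0, h5, mulVec_zero]
  have hgT : gᵀ * hᵀ = 1 := by rw [← transpose_mul, hhg, transpose_one]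
  have h7 : gᵀ *ᵥ (v ∘ Sum.inr) = v ∘ Sum.inr := by
    conv_lhs => rw [← h4', mulVec_mulVec, hgT, one_mulVec]
  have h8 : (g - 1)ᵀ *ᵥ (v ∘ Sum.inr) = 0 := by
    rw [transpose_sub, transpose_one, sub_mulVec, one_mulVec, h7, sub_self]
  have h9 : v ∘ Sum.inr = 0 := by
    calc v ∘ Sum.inr = (u * u')ᵀ *ᵥ (v ∘ Sum.inr) := by rw [hu1, transpose_one, one_mulVec]
      _ = 0 := by rw [transpose_mul, ← mulVec_mulVec, hu0, h8, mulVec_zero]
  ext (i | i)
  · exact congrFun h6 i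
  · exact congrFun h9 i

theorem exists_fpf_SpL_of_dvd_add [Fintype F] [CharP F 2] (d r : ℕ) (hd : 0 < d) [Fact r.Prime]
    (hr : r ∣ Fintype.card F ^ d + 1) (P : QuadraticForm F (Fin d ⊕ Fin d → F))
    (hP : (polarBilin P).Nondegenerate) :
    ∃ T ∈ SpL P, T ^ r = 1 ∧ ∀ v, T v = v → v = 0 := by
  have hrp : r.Prime := Fact.out
  obtain ⟨Q₀, X, hQ₀, hX, hXk, hXf⟩ := minus_torus_raw (F := F) d hd
  obtain ⟨k, hk⟩ := hr
  have hk0 : 0 < k := by
    rcases Nat.eq_zero_or_pos k with h | h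
    · rw [h] at hk; omega
    · exact h
  have hYr : (X ^ k) ^ r = 1 := by
    rw [← pow_mul]
    exact (hXk _).2 (by rw [hk, mul_comm])
  have hY1 : X ^ k ≠ 1 := by
    intro h
    have h1 := (hXk k).1 h
    rw [hk] at h1
    have h2 := Nat.le_of_dvd hk0 h1
    have h3 : 2 * k ≤ r * k := Nat.mul_le_mul_right k hrp.two_le
    omega
  obtain ⟨T₀, hT₀, hT₀r⟩ := exists_linearEquiv_of_matrix_pow _ hrp.pos hYr
  have hT₀O : T₀ ∈ OQ Q₀ := fun v => by rw [hT₀]; exact TM2_pow_iso Q₀ X hX k v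
  obtain ⟨φ, hφ⟩ := exists_alt_isometry (polarBilin Q₀) (polarBilin P) hQ₀ hP
    (polarBilin_isAlt Q₀) (polarBilin_isAlt P) (by
      simp only [finrank_fintype_fun_eq_card, Fintype.card_sum, Fintype.card_fin]; omega)
  refine ⟨conjL φ T₀, conjL_mem_SpL φ (fun x y => hφ x y) (OQ_le_SpL _ hT₀O), ?_, ?_⟩
  · rw [conjL_pow, hT₀r, conjL_one]
  · intro v hv
    obtain ⟨w, rfl⟩ := φ.surjective v
    rw [conjL_apply'] at hv
    have h1 : T₀ w = w := φ.injective hv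
    rw [hT₀] at h1
    rw [hXf k hY1 w h1, map_zero]

theorem eq_two_of_all_conj [Fintype F] [CharP F 2] (n : ℕ)
    (P : QuadraticForm F (Fin (n + 1) ⊕ Fin (n + 1) → F)) (hP : (polarBilin P).Nondegenerate)
    (hpol : ∀ u v, polar P u v = polar (plusQF (n + 1) F) u v) (r : ℕ) [Fact r.Prime]
    (hΩ : r ∣ (OQ P).relIndex (SpL P))
    (hall : ∀ T ∈ SpL P, T ^ r = 1 → T ≠ 1 → ∃ c ∈ SpL P, c * T * c⁻¹ ∈ OQ P) : r = 2 := by
  have hrp : r.Prime := Fact.out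
  have hι : Fintype.card (Fin (n + 1) ⊕ Fin (n + 1)) = 2 * (n + 1) := by
    simp only [Fintype.card_sum, Fintype.card_fin]; omega
  by_contra hr2
  have hrq : ¬ r ∣ Fintype.card F := by
    intro h
    obtain ⟨k, -, hk⟩ := FiniteField.card F 2
    rw [hk] at h
    exact hr2 ((Nat.prime_dvd_prime_iff_eq hrp Nat.prime_two).1 (hrp.dvd_of_dvd_pow h))
  have hrq' : ¬ r ∣ Fintype.card F ^ (n + 1) := fun h => hrq (hrp.dvd_of_dvd_pow h)
  have h20 : ((2 : ℕ) : ZMod r) ≠ 0 := by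
    intro h
    exact hr2 ((Nat.prime_dvd_prime_iff_eq hrp Nat.prime_two).1
      ((ZMod.natCast_eq_zero_iff _ _).1 h))
  have hSp : SpL P = SpL (plusQF (n + 1) F) := by
    ext g
    simp only [mem_SpL, hpol]
  -- common consequence of a fixed-point-free element
  have hcommon : ∀ T ∈ SpL P, T ^ r = 1 → (∀ v, T v = v → v = 0) →
      ∃ M : Matrix (Fin (n + 1) ⊕ Fin (n + 1)) (Fin (n + 1) ⊕ Fin (n + 1)) F,
        (∀ v, P (M *ᵥ v) = P v) ∧ M ^ r = 1 ∧ ∀ v, M *ᵥ v = v → v = 0 := by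
    intro T hT hTr hfix
    have hT1 : T ≠ 1 := by
      rintro rfl
      have := hfix (Pi.single (Sum.inl 0) 1) rfl
      have h1 := congrFun this (Sum.inl 0)
      simp at h1
    obtain ⟨c, hc, hcT⟩ := hall T hT hTr hT1
    have hpw : (c * T * c⁻¹) ^ r = 1 := by
      rw [conj_pow, hTr, mul_one, mul_inv_cancel]
    obtain ⟨M, hM, hMr⟩ := exists_matrix_of_linearEquiv _ hpw
    refine ⟨M, fun v => by rw [hM]; exact hcT v, hMr, ?_⟩
    intro v hv
    rw [hM, LinearEquiv.mul_apply, LinearEquiv.mul_apply] at hv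
    have h1 : T (c⁻¹ v) = c⁻¹ v := by
      have h0 : c⁻¹ (c (T (c⁻¹ v))) = c⁻¹ v := congrArg (fun w => c⁻¹ w) hv
      rw [← LinearEquiv.mul_apply c⁻¹ c, inv_mul_cancel] at h0
      exact h0
    have h2 := hfix _ h1
    have h3 : c (c⁻¹ v) = c 0 := congrArg (fun w => c w) h2
    rw [← LinearEquiv.mul_apply c c⁻¹, mul_inv_cancel, map_zero] at h3
    exact h3
  have hform := relIndex_formula n P hP hpol
  rcases exc_ne_zero hι P hP with hpos | hneg
  · have h1 : r ∣ Fintype.card F ^ (n + 1) * (Fintype.card F ^ (n + 1) + 1) := by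
      rw [← hform.1 hpos]; exact Dvd.dvd.mul_right hΩ 2
    have h2 : r ∣ Fintype.card F ^ (n + 1) + 1 :=
      (hrp.dvd_mul.1 h1).resolve_left hrq'
    obtain ⟨T, hT, hTr, hfix⟩ := exists_fpf_SpL_of_dvd_add (n + 1) r (by omega) h2 P hP
    obtain ⟨M, hM, hMr, hMf⟩ := hcommon T hT hTr hfix
    have := TM2_exc_neg hι P hP M h2 hM hMr hMf
    omega
  · have h1 : r ∣ Fintype.card F ^ (n + 1) * (Fintype.card F ^ (n + 1) - 1) := by
      rw [← hform.2 hneg]; exact Dvd.dvd.mul_right hΩ 2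
    have h2 : r ∣ Fintype.card F ^ (n + 1) - 1 :=
      (hrp.dvd_mul.1 h1).resolve_left hrq'
    obtain ⟨T, hT, hTr, hfix⟩ := exists_fpf_SpL_of_dvd_sub (F := F) (n + 1) r (by omega) h2
    obtain ⟨M, hM, hMr, hMf⟩ := hcommon T (hSp ▸ hT) hTr hfix
    have h3 := (pow_eq_of_fpf hι P hP M hrq hM hMr hMf).2 hneg
    have h4 : ((Fintype.card F ^ (n + 1) - 1 : ℕ) : ZMod r) = 0 :=
      (ZMod.natCast_eq_zero_iff _ _).2 h2
    have h5 : 1 ≤ Fintype.card F ^ (n + 1) := Nat.one_le_pow _ _ Fintype.card_pos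
    rw [Nat.cast_sub h5] at h4
    push_cast at h4
    rw [h3] at h4
    apply h20
    push_cast
    linear_combination -h4

end Cfsg.Agent.Lib.Helper44
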